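import Mathlib
import Cfsg.Prelude.Def_Characters
import Cfsg.Agent.H4.TnDefs

/-!
# S3701 team project "TM" (lead: helper64): definitions and EXACT piece statements

`G` finite, `H ≤ G` with `H ≅ H₀ = ⟨(012),(345),(678),(01)(34),(01)(67)⟩ ≤ Sym(9)` (order 108),
`T ≤ H` of order 27, `N_G(T) = H`, `C_G(t) ≤ H` for all `t ∈ T#`.  Goal: `H = G`.

Normal form (`Cfg`): `T = ⟨a⟩ × ⟨b⟩ × ⟨c⟩`, commuting involutions `x, y ∈ H`;
`x` inverts `a, b` and centralizes `c`; `y` inverts `a, c` and centralizes `b`;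
`H = T·{1,x,y,xy}`.  The configuration is symmetric under `(a,b,c,x,y) ↦ (a,c,b,y,x)`.

`D = ⟨a,b,x⟩` (order 18), `C_G(c) = ⟨c⟩ × D` (order 54), `S₁ = c^{±1}·D` (36 elements) is a
TI-set with normalizer `H`; `P₁ = 3·1_{S₁^G} = Ind_C^G(1 - λ)` is a generalized character of
norm 3, `P₁ = 1 + χ₁ - χ₂`.  Then `x ∈ ker χ₁`, `χ₁` is linear, trivial on `T`, and
`χ₁(y) ≠ 1 ≠ χ₁(xy)`.  The mirror character `θ₁` has `y ∈ ker θ₁`, `θ₁(x) ≠ 1`.
`K = ker χ₁ ∩ ker θ₁ ⊴ G` has `K ∩ H = T`; Burnside + fixed-point-freeness give `K = T ⊴ G`.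
-/

set_option autoImplicit false

namespace Cfsg.Agent.H64.Tm

open Subgroup

universe u

/-- The `3³:2²` configuration. -/
structure Cfg (G : Type u) [Group G] (H T : Subgroup G) (a b c x y : G) : Prop where
  cardT : Nat.card T = 27
  cardH : Nat.card H = 108
  TH : T ≤ H
  aT : a ∈ T
  bT : b ∈ T
  cT : c ∈ T
  xH : x ∈ H
  yH : y ∈ H
  a3 : a ^ 3 = 1
  b3 : b ^ 3 = 1
  c3 : c ^ 3 = 1
  ab : a * b = b * a
  ac : a * c = c * a
  bc : b * c = c * b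
  x2 : x * x = 1
  y2 : y * y = 1
  xy : x * y = y * x
  xa : x * a = a⁻¹ * x
  xb : x * b = b⁻¹ * x
  xc : x * c = c * x
  ya : y * a = a⁻¹ * y
  yb : y * b = b * y
  yc : y * c = c⁻¹ * y
  Telts : ∀ t ∈ T, ∃ i j k : ℕ, t = a ^ i * b ^ j * c ^ k
  indep : ∀ i j k : ℕ, a ^ i * b ^ j * c ^ k = 1 → 3 ∣ i ∧ 3 ∣ j ∧ 3 ∣ k
  Helts : ∀ h ∈ H, ∃ t ∈ T, h = t ∨ h = t * x ∨ h = t * y ∨ h = t * (x * y)
  xT : x ∉ T
  yT : y ∉ T
  xyT : x * y ∉ T
  norm : normalizer (T : Set G) = H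
  loc : ∀ t ∈ T, t ≠ 1 → centralizer ({t} : Set G) ≤ H

/-- `S₁ = c^{±1}·⟨a,b,x⟩`. -/
def S1 {G : Type u} [Group G] (a b c x : G) : Set G :=
  {g | ∃ w ∈ closure ({a, b, x} : Set G), g = c * w ∨ g = c⁻¹ * w}

/-- The union of the `G`-conjugates of `S₁`. -/
def S1G {G : Type u} [Group G] (a b c x : G) : Set G := {g | ∃ r : G, r * g * r⁻¹ ∈ S1 a b c x}

/-- `P₁ = 3·1_{S₁^G}`. -/
noncomputable def P1 {G : Type u} [Group G] (a b c x : G) : G → ℂ :=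
  (S1G a b c x).indicator (fun _ => 3)

/-- `P₁ = 1 + χ₁ - χ₂`. -/
def IsDec {G : Type u} [Group G] (a b c x : G) (χ₁ χ₂ : IrrCharacter G) : Prop :=
  ∀ g : G, 1 + χ₁.1 g - χ₂.1 g = P1 a b c x g

/-! ## Structure pieces -/

/-- STRUCT: the hypotheses of S3701 give the configuration. -/
def StStruct : Prop := ∀ (G : Type u) [Group G] [Finite G] (H : Subgroup G),
    Nonempty (↥H ≃* ↥(Subgroup.closure ({Equiv.swap (0 : Fin 9) 1 * Equiv.swap 1 2,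
        Equiv.swap (3 : Fin 9) 4 * Equiv.swap 4 5, Equiv.swap (6 : Fin 9) 7 * Equiv.swap 7 8,
        Equiv.swap (0 : Fin 9) 1 * Equiv.swap 3 4,
        Equiv.swap (0 : Fin 9) 1 * Equiv.swap 6 7} : Set (Equiv.Perm (Fin 9))))) →
    ∀ T : Subgroup G, T ≤ H → Nat.card T = 27 → normalizer (T : Set G) = H →
    (∀ t ∈ T, t ≠ 1 → centralizer ({t} : Set G) ≤ H) →
    ∃ a b c x y : G, Cfg G H T a b c x y

/-- SWAP: the symmetry `(a,b,c,x,y) ↦ (a,c,b,y,x)`. -/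
def StSwap : Prop := ∀ (G : Type u) [Group G] [Finite G] (H T : Subgroup G) (a b c x y : G),
    Cfg G H T a b c x y → Cfg G H T a c b y x

/-- TIT: `T` is a TI-subgroup with normalizer `H`. -/
def StTIT : Prop := ∀ (G : Type u) [Group G] [Finite G] (H T : Subgroup G) (a b c x y : G),
    Cfg G H T a b c x y → ∀ t ∈ T, t ≠ 1 → ∀ g : G, g * t * g⁻¹ ∈ T → g ∈ H

/-- SYL: `T` is a Sylow 3-subgroup of `G`. -/
def StSyl : Prop := ∀ (G : Type u) [Group G] [Finite G] (H T : Subgroup G) (a b c x y : G),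
    Cfg G H T a b c x y → ∃ S : Sylow 3 G, (S : Subgroup G) = T

/-- D: the subgroup `D = ⟨a,b,x⟩`. -/
def StD : Prop := ∀ (G : Type u) [Group G] [Finite G] (H T : Subgroup G) (a b c x y : G),
    Cfg G H T a b c x y →
    (∀ w ∈ closure ({a, b, x} : Set G), ∃ i j m : ℕ, w = a ^ i * b ^ j * x ^ m) ∧
    (∀ w ∈ closure ({a, b, x} : Set G), w * c = c * w) ∧
    (∀ n ∈ H, ∀ w ∈ closure ({a, b, x} : Set G), n * w * n⁻¹ ∈ closure ({a, b, x} : Set G)) ∧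
    Nat.card (closure ({a, b, x} : Set G)) = 18

/-- S1: basic facts on `S₁`. -/
def StS1 : Prop := ∀ (G : Type u) [Group G] [Finite G] (H T : Subgroup G) (a b c x y : G),
    Cfg G H T a b c x y →
    (∀ s ∈ S1 a b c x, s ∈ H) ∧
    (∀ n ∈ H, ∀ s ∈ S1 a b c x, n * s * n⁻¹ ∈ S1 a b c x) ∧
    (∀ s ∈ S1 a b c x, s⁻¹ ∈ S1 a b c x) ∧
    (∀ s ∈ S1 a b c x, s * s ∈ T ∧ s * s ≠ 1) ∧
    Nat.card (S1 a b c x) = 36

/-- TI: `S₁` is a TI-set with normalizer `H`. -/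
def StTI : Prop := ∀ (G : Type u) [Group G] [Finite G] (H T : Subgroup G) (a b c x y : G),
    Cfg G H T a b c x y →
    ∀ s ∈ S1 a b c x, ∀ g : G, g * s * g⁻¹ ∈ S1 a b c x → g ∈ H

/-- VALS: membership in `S₁^G`. -/
def StVals : Prop := ∀ (G : Type u) [Group G] [Finite G] (H T : Subgroup G) (a b c x y : G),
    Cfg G H T a b c x y →
    c ∈ S1G a b c x ∧ ∀ z : G, z * z = 1 → z ∉ S1G a b c x

/-- COUNT: `|S₁^G| = |G|/3`. -/
def StCount : Prop := ∀ (G : Type u) [Group G] [Finite G] (H T : Subgroup G) (a b c x y : G),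
    Cfg G H T a b c x y → 3 * Nat.card (S1G a b c x) = Nat.card G

/-- CC: the centralizer of `c` is `⟨c⟩ × ⟨a,b,x⟩`, of order 54. -/
def StCC : Prop := ∀ (G : Type u) [Group G] [Finite G] (H T : Subgroup G) (a b c x y : G),
    Cfg G H T a b c x y →
    (∀ g ∈ centralizer ({c} : Set G), ∃ w ∈ closure ({a, b, x} : Set G),
      g = w ∨ g = c * w ∨ g = c⁻¹ * w) ∧
    Nat.card (centralizer ({c} : Set G)) = 54 ∧
    centralizer ({c} : Set G) ≤ H ∧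
    (∀ n ∈ H, n ∉ centralizer ({c} : Set G) → n * c * n⁻¹ = c⁻¹)

/-- LAM: a linear character `λ` of `C_G(c)` with `λ(c^i w) = ω^i` (`w ∈ ⟨a,b,x⟩`). -/
def StLam : Prop := ∀ (G : Type u) [Group G] [Finite G] (H T : Subgroup G) (a b c x y : G),
    Cfg G H T a b c x y →
    ∃ (l : centralizer ({c} : Set G) → ℂ) (ω : ℂ), ω ≠ 1 ∧ ω ^ 3 = 1 ∧
      IsCharacter (centralizer ({c} : Set G)) l ∧
      ∀ g : centralizer ({c} : Set G), ∀ w ∈ closure ({a, b, x} : Set G),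
        ((g : G) = w → l g = 1) ∧ ((g : G) = c * w → l g = ω) ∧
        ((g : G) = c⁻¹ * w → l g = ω ^ 2)

/-- GEN: `P₁` is a difference of two characters (`Ind_C^G 1 - Ind_C^G λ`, `C = C_G(c)`). -/
def StGen : Prop := ∀ (G : Type u) [Group G] [Finite G] (H T : Subgroup G) (a b c x y : G),
    Cfg G H T a b c x y →
    ∃ Φ Ψ : G → ℂ, IsCharacter G Φ ∧ IsCharacter G Ψ ∧ ∀ g : G, Φ g - Ψ g = P1 a b c x g

/-- DECOMP: `P₁ = 1 + χ₁ - χ₂`. -/
def StDecomp : Prop := ∀ (G : Type u) [Group G] [Finite G] (H T : Subgroup G) (a b c x y : G),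
    Cfg G H T a b c x y → ∃ χ₁ χ₂ : IrrCharacter G, IsDec a b c x χ₁ χ₂

/-! ## The pair-count formula and fusion -/

/-- INV (pure character theory): if `1 + χ₁ - χ₂ = 3·1_S` with `1, z ∉ S`, then
`k² (f - χ₁(z))² = 3 f (f+1) #{(u,v) : u ~ z ~ v, uv ∈ S}`, `k = |z^G|`, `f = χ₁(1)`. -/
def StInv : Prop := ∀ (G : Type u) [Group G] [Finite G] (S : Set G) (χ₁ χ₂ : IrrCharacter G),
    (∀ g : G, 1 + χ₁.1 g - χ₂.1 g = S.indicator (fun _ => (3 : ℂ)) g) →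
    (1 : G) ∉ S → ∀ z : G, z ∉ S →
    (Nat.card {w : G // IsConj z w} : ℂ) ^ 2 * (χ₁.1 1 - χ₁.1 z) ^ 2 =
      3 * χ₁.1 1 * (χ₁.1 1 + 1) *
        (Nat.card {p : G × G // IsConj z p.1 ∧ IsConj z p.2 ∧ p.1 * p.2 ∈ S} : ℂ)

/-- NOFUS: `x` is conjugate neither to `y` nor to `xy`. -/
def StNofus : Prop := ∀ (G : Type u) [Group G] [Finite G] (H T : Subgroup G) (a b c x y : G),
    Cfg G H T a b c x y → ¬ IsConj x y ∧ ¬ IsConj x (x * y)

/-- XPAIRS: no product of two conjugates of `x` lies in `S₁^G`. -/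
def StXPairs : Prop := ∀ (G : Type u) [Group G] [Finite G] (H T : Subgroup G) (a b c x y : G),
    Cfg G H T a b c x y → ∀ u v : G, IsConj x u → IsConj x v → u * v ∉ S1G a b c x

/-- YPAIRS: some product of two conjugates of `y` (resp. of `xy`) lies in `S₁^G`. -/
def StYPairs : Prop := ∀ (G : Type u) [Group G] [Finite G] (H T : Subgroup G) (a b c x y : G),
    Cfg G H T a b c x y →
    (∃ u v : G, IsConj y u ∧ IsConj y v ∧ u * v ∈ S1G a b c x) ∧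
    (∃ u v : G, IsConj (x * y) u ∧ IsConj (x * y) v ∧ u * v ∈ S1G a b c x)

/-! ## The kernel -/

/-- FRATT: a normal subgroup containing `a, b, x` has `G = K·⟨c,y⟩`. -/
def StFratt : Prop := ∀ (G : Type u) [Group G] [Finite G] (H T : Subgroup G) (a b c x y : G),
    Cfg G H T a b c x y → ∀ K : Subgroup G, K.Normal → a ∈ K → b ∈ K → x ∈ K →
    ∀ g : G, ∃ k ∈ K, ∃ m n : ℕ, g = k * c ^ m * y ^ n

/-- LIN: if `x ∈ ker χ₁` then `χ₁` is linear and trivial on `T`. -/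
def StLin : Prop := ∀ (G : Type u) [Group G] [Finite G] (H T : Subgroup G) (a b c x y : G),
    Cfg G H T a b c x y → ∀ χ₁ χ₂ : IrrCharacter G, IsDec a b c x χ₁ χ₂ → χ₁.1 x = χ₁.1 1 →
    χ₁.1 1 = 1 ∧ ∀ t ∈ T, χ₁.1 t = 1

/-- KEY: a linear character, trivial on `T` and at `x`, nontrivial at `y` and at `xy`. -/
def StKey : Prop := ∀ (G : Type u) [Group G] [Finite G] (H T : Subgroup G) (a b c x y : G),
    Cfg G H T a b c x y →
    ∃ χ : IrrCharacter G, χ.1 1 = 1 ∧ (∀ t ∈ T, χ.1 t = 1) ∧ χ.1 x = 1 ∧ χ.1 y ≠ 1 ∧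
      χ.1 (x * y) ≠ 1

/-- FIN: a normal subgroup `K ≥ T` with `K ∩ H = T` forces `H = G`. -/
def StFin : Prop := ∀ (G : Type u) [Group G] [Finite G] (H T : Subgroup G) (a b c x y : G),
    Cfg G H T a b c x y → ∀ K : Subgroup G, K.Normal → T ≤ K → x ∉ K → y ∉ K → x * y ∉ K →
    H = ⊤

/-- END: the configuration forces `H = G`. -/
def StEnd : Prop := ∀ (G : Type u) [Group G] [Finite G] (H T : Subgroup G) (a b c x y : G),
    Cfg G H T a b c x y → H = ⊤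

/-- Final assembly. -/
theorem main (hStruct : StStruct.{u}) (hEnd : StEnd.{u}) {G : Type u} [Group G] [Finite G]
    (H : Subgroup G)
    (hH : Nonempty (↥H ≃* ↥(Subgroup.closure ({Equiv.swap (0 : Fin 9) 1 * Equiv.swap 1 2,
        Equiv.swap (3 : Fin 9) 4 * Equiv.swap 4 5, Equiv.swap (6 : Fin 9) 7 * Equiv.swap 7 8,
        Equiv.swap (0 : Fin 9) 1 * Equiv.swap 3 4,
        Equiv.swap (0 : Fin 9) 1 * Equiv.swap 6 7} : Set (Equiv.Perm (Fin 9))))))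
    (T : Subgroup G) (hTH : T ≤ H) (hT : Nat.card T = 27)
    (hN : Subgroup.normalizer (T : Set G) = H)
    (hC : ∀ t ∈ T, t ≠ 1 → Subgroup.centralizer ({t} : Set G) ≤ H) : H = ⊤ := by
  obtain ⟨a, b, c, x, y, cfg⟩ := hStruct G H hH T hTH hT hN hC
  exact hEnd G H T a b c x y cfg

end Cfsg.Agent.H64.Tm
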