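import Mathlib

/-!
# Marggraf (S3620) team project: definitions, basic lemmas and exact piece statements.

`JC M Λ` : the pointwise stabilizer of the finset `Λ` is transitive on the complement of `Λ`
(so the complement of `Λ` is a Jordan set).  `KT M α k` : `k`-transitivity in that language.
`MStmt N` : the primitive case of the theorem in degree `N`.
-/

set_option autoImplicit false
open scoped Pointwise
open MulAction

namespace Cfsg.Agent.H64.Mg

universe u v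

/-- The pointwise stabilizer of `Λ` in `M` is transitive on the complement of `Λ`. -/
def JC (M : Type u) {α : Type v} [Group M] [MulAction M α] (Λ : Finset α) : Prop :=
  ∀ x, x ∉ Λ → ∀ y, y ∉ Λ → ∃ g : M, (∀ z ∈ Λ, g • z = z) ∧ g • x = y

/-- `k`-fold transitivity, phrased with `JC`: every set of fewer than `k` points is a `JC` set. -/
def KT (M : Type u) (α : Type v) [Group M] [MulAction M α] (k : ℕ) : Prop :=
  ∀ S : Finset α, S.card < k → JC M S

/-- `M` induces every even permutation of `α`. -/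
def AllEven (M : Type u) (α : Type v) [Group M] [MulAction M α] [Fintype α] [DecidableEq α] :
    Prop :=
  ∀ σ : Equiv.Perm α, Equiv.Perm.sign σ = 1 → ∃ g : M, ∀ z, g • z = σ z

/-- The primitive case in degree `N`; `Δ` is the complement of the Jordan set. -/
def MStmt (N : ℕ) : Prop :=
  ∀ (M : Type u) (α : Type v) [Group M] [MulAction M α] [Fintype α] [DecidableEq α],
    Fintype.card α = N → IsPreprimitive M α → ∀ Δ : Finset α, N < 2 * Δ.card → Δ.card + 2 ≤ N →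
    JC M Δ → AllEven M α

section basic

variable {M : Type u} {α : Type v} [Group M] [MulAction M α]

theorem KT.mono {k l : ℕ} (h : KT M α k) (hl : l ≤ k) : KT M α l :=
  fun S hS => h S (lt_of_lt_of_le hS hl)

/-- translates of `JC` sets are `JC` sets -/
theorem JC.smul [DecidableEq α] {Λ : Finset α} (h : JC M Λ) (g : M) : JC M (g • Λ) := by
  intro x hx y hy
  have hx' : g⁻¹ • x ∉ Λ := fun hm => hx (by
    rw [Finset.mem_smul_finset]; exact ⟨g⁻¹ • x, hm, by simp⟩)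
  have hy' : g⁻¹ • y ∉ Λ := fun hm => hy (by
    rw [Finset.mem_smul_finset]; exact ⟨g⁻¹ • y, hm, by simp⟩)
  obtain ⟨j, hj, hjx⟩ := h _ hx' _ hy'
  refine ⟨g * j * g⁻¹, ?_, ?_⟩
  · intro z hz
    rw [Finset.mem_smul_finset] at hz
    obtain ⟨w, hw, rfl⟩ := hz
    simp [mul_smul, hj w hw]
  · simp [mul_smul, hjx]

/-- intersections of `JC` sets whose union is not everything are `JC` sets -/
theorem JC.inter [DecidableEq α] {Λ₁ Λ₂ : Finset α} (h₁ : JC M Λ₁) (h₂ : JC M Λ₂)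
    (hz : ∃ z, z ∉ Λ₁ ∧ z ∉ Λ₂) : JC M (Λ₁ ∩ Λ₂) := by
  obtain ⟨z, hz1, hz2⟩ := hz
  have key : ∀ x, x ∉ Λ₁ ∩ Λ₂ → ∃ g : M, (∀ w ∈ Λ₁ ∩ Λ₂, g • w = w) ∧ g • x = z := by
    intro x hx
    rw [Finset.mem_inter, not_and_or] at hx
    rcases hx with hx | hx
    · obtain ⟨g, hg, hgx⟩ := h₁ x hx z hz1
      exact ⟨g, fun w hw => hg w (Finset.mem_inter.mp hw).1, hgx⟩
    · obtain ⟨g, hg, hgx⟩ := h₂ x hx z hz2
      exact ⟨g, fun w hw => hg w (Finset.mem_inter.mp hw).2, hgx⟩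
  intro x hx y hy
  obtain ⟨g, hg, hgx⟩ := key x hx
  obtain ⟨k, hk, hky⟩ := key y hy
  refine ⟨k⁻¹ * g, ?_, ?_⟩
  · intro w hw
    rw [mul_smul, hg w hw]
    exact inv_smul_eq_iff.mpr (hk w hw).symm
  · rw [mul_smul, hgx]
    exact inv_smul_eq_iff.mpr hky.symm

end basic

/-! ## Exact piece statements -/

/-- [K2M] `KT` gives Mathlib multiple transitivity. -/
def K2MStmt : Prop :=
  ∀ (M : Type u) (α : Type v) [Group M] [MulAction M α] (k : ℕ),
    KT M α k → IsMultiplyPretransitive M α k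

/-- [M2K] Mathlib multiple transitivity gives `KT` (for `k ≤ card α`). -/
def M2KStmt : Prop :=
  ∀ (M : Type u) (α : Type v) [Group M] [MulAction M α] [Fintype α] (k : ℕ),
    k ≤ Fintype.card α → IsMultiplyPretransitive M α k → KT M α k

/-- [CONV1] `JC` in Mathlib language. -/
def CONV1Stmt : Prop :=
  ∀ (M : Type u) (α : Type v) [Group M] [MulAction M α] (Λ : Finset α),
    JC M Λ ↔ IsPretransitive (fixingSubgroup M (Λ : Set α))
      (SubMulAction.ofFixingSubgroup M (Λ : Set α))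

/-- [JT2] weak Jordan: primitive with a proper Jordan set is 2-transitive. -/
def JT2Stmt : Prop :=
  ∀ (M : Type u) (α : Type v) [Group M] [MulAction M α] [Fintype α] [DecidableEq α],
    IsPreprimitive M α → ∀ Δ : Finset α, 1 ≤ Δ.card → Δ.card + 2 ≤ Fintype.card α →
    JC M Δ → KT M α 2

/-- [DES] the translates of a set under a 2-transitive group form a 2-design. -/
def DESStmt : Prop :=
  ∀ (M : Type u) (α : Type v) [Group M] [MulAction M α] [Fintype α] [DecidableEq α],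
    KT M α 2 → ∀ (Γ : Finset α) (x y x' y' : α), x ≠ y → x' ≠ y' →
    {T : Finset α | (∃ g : M, g • Γ = T) ∧ x ∈ T ∧ y ∈ T}.ncard =
    {T : Finset α | (∃ g : M, g • Γ = T) ∧ x' ∈ T ∧ y' ∈ T}.ncard

/-- [CNTB] counting in a 2-design, first case. -/
def CNTBStmt : Prop :=
  ∀ (α : Type v) [Fintype α] [DecidableEq α] (𝒯 : Finset (Finset α)) (m lam : ℕ),
    (∀ T ∈ 𝒯, T.card = m) →
    (∀ x y : α, x ≠ y → (𝒯.filter (fun T => x ∈ T ∧ y ∈ T)).card = lam) →
    1 ≤ lam → 2 ≤ m → ∀ a x y : α, x ≠ a → y ≠ a → x ≠ y →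
    (∀ T ∈ 𝒯, a ∉ T → x ∈ T → y ∈ T) → Fintype.card α + 1 ≤ 2 * m

/-- [CNTC] counting in a 2-design, second case. -/
def CNTCStmt : Prop :=
  ∀ (α : Type v) [Fintype α] [DecidableEq α] (𝒯 : Finset (Finset α)) (m lam : ℕ),
    (∀ T ∈ 𝒯, T.card = m) →
    (∀ x y : α, x ≠ y → (𝒯.filter (fun T => x ∈ T ∧ y ∈ T)).card = lam) →
    1 ≤ lam → 2 ≤ m → ∀ (a x : α) (C : Finset α), x ≠ a → x ∈ C → a ∉ C →
    (∀ T ∈ 𝒯, a ∉ T → x ∈ T → T ⊆ C) → Fintype.card α + 1 ≤ C.card + m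

/-- [LCcore] no nontrivial block of a point stabilizer (concrete form). -/
def LCcoreStmt : Prop :=
  ∀ (M : Type u) (α : Type v) [Group M] [MulAction M α] [Fintype α] [DecidableEq α],
    KT M α 2 → ∀ Δ : Finset α, JC M Δ → Δ.card + 2 ≤ Fintype.card α →
    Fintype.card α < 2 * Δ.card → ∀ a ∈ Δ, ∀ B : Finset α, a ∉ B → 2 ≤ B.card →
    B.card + 2 ≤ Fintype.card α →
    (∀ g : M, g • a = a → g • B = B ∨ Disjoint (g • B) B) → False

/-- [LC] the stabilizer of a point of `Δ` is primitive on the remaining points. -/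
def LCStmt : Prop :=
  ∀ (M : Type u) (α : Type v) [Group M] [MulAction M α] [Fintype α] [DecidableEq α],
    KT M α 2 → ∀ Δ : Finset α, JC M Δ → Δ.card + 2 ≤ Fintype.card α →
    Fintype.card α < 2 * Δ.card → ∀ a ∈ Δ,
    IsPreprimitive (stabilizer M a) (SubMulAction.ofStabilizer M a)

/-- [GOOD] induction through a point stabilizer produces a 3-cycle. -/
def GOODStmt : Prop :=
  ∀ N : ℕ, MStmt.{u, v} N →
  ∀ (M : Type u) (α : Type v) [Group M] [MulAction M α] [Fintype α] [DecidableEq α],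
    Fintype.card α = N + 1 → ∀ Δ : Finset α, JC M Δ → N + 2 < 2 * Δ.card → Δ.card + 1 ≤ N →
    ∀ a ∈ Δ, IsPreprimitive (stabilizer M a) (SubMulAction.ofStabilizer M a) →
    ∃ g : M, (MulAction.toPerm g : Equiv.Perm α).IsThreeCycle

/-- [A3] primitive with a 3-cycle induces all even permutations. -/
def A3Stmt : Prop :=
  ∀ (M : Type u) (α : Type v) [Group M] [MulAction M α] [Fintype α] [DecidableEq α],
    IsPreprimitive M α → (∃ g : M, (MulAction.toPerm g : Equiv.Perm α).IsThreeCycle) →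
    AllEven M α

/-- [B3T] 3-transitivity. -/
def B3TStmt : Prop :=
  ∀ (M : Type u) (α : Type v) [Group M] [MulAction M α] [Fintype α] [DecidableEq α],
    KT M α 2 → ∀ Δ : Finset α, JC M Δ → 2 ≤ Δ.card → Δ.card + 2 ≤ Fintype.card α →
    ∀ a ∈ Δ, IsPreprimitive (stabilizer M a) (SubMulAction.ofStabilizer M a) → KT M α 3

/-- [U1] enough transitivity plus a Jordan set gives all even permutations (via S0711). -/
def U1Stmt : Prop :=
  ∀ (M : Type u) (α : Type v) [Group M] [MulAction M α] [Fintype α] [DecidableEq α] (k : ℕ),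
    KT M α k → 3 ≤ k → k ≤ Fintype.card α → ∀ Δ : Finset α, JC M Δ →
    Δ.card + 2 ≤ Fintype.card α → Fintype.card α + 2 < 2 * k + Δ.card → AllEven M α

/-- [TR1] one more step of transitivity from a single `JC` set of size `t`. -/
def TR1Stmt : Prop :=
  ∀ (M : Type u) (α : Type v) [Group M] [MulAction M α] [DecidableEq α] (t : ℕ),
    KT M α t → ∀ T : Finset α, T.card = t → JC M T → KT M α (t + 1)

/-- [CONJ] two `JC` sets of the same size with large intersection are conjugate under the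
pointwise stabilizer of the intersection. -/
def CONJStmt : Prop :=
  ∀ (M : Type u) (α : Type v) [Group M] [MulAction M α] [Fintype α] [DecidableEq α]
    (Δ₁ Δ₂ : Finset α), Δ₁.card = Δ₂.card → JC M Δ₁ → JC M Δ₂ →
    2 * Δ₁.card < Fintype.card α + (Δ₁ ∩ Δ₂).card →
    ∃ h : M, (∀ z ∈ Δ₁ ∩ Δ₂, h • z = z) ∧ h • Δ₁ = Δ₂

/-- [CLS] divisibility from a largest proper `JC` subset. -/
def CLSStmt : Prop :=
  ∀ (M : Type u) (α : Type v) [Group M] [MulAction M α] [Fintype α] [DecidableEq α]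
    (Δ W : Finset α), JC M Δ → JC M W → W ⊂ Δ →
    (∀ X : Finset α, X ⊂ Δ → JC M X → X.card ≤ W.card) →
    2 * Δ.card < Fintype.card α + W.card →
    (Δ.card - W.card) ∣ (Fintype.card α - Δ.card)

/-- [C1SUB] if `Δ` minus a point is `JC`, every subset of `Δ` is `JC`. -/
def C1SUBStmt : Prop :=
  ∀ (M : Type u) (α : Type v) [Group M] [MulAction M α] [Fintype α] [DecidableEq α],
    KT M α 2 → ∀ Δ : Finset α, JC M Δ → 2 * Δ.card < Fintype.card α + 2 →
    Δ.card + 1 ≤ Fintype.card α → ∀ δ ∈ Δ, JC M (Δ.erase δ) → ∀ S : Finset α, S ⊆ Δ → JC M S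

/-- [DA] the setwise stabilizer of `Δ` is 2-transitive on `Δ` and has `W` as a `JC` set. -/
def DAStmt : Prop :=
  ∀ (M : Type u) (α : Type v) [Group M] [MulAction M α] [Fintype α] [DecidableEq α],
    KT M α 2 → ∀ Δ : Finset α, JC M Δ → 2 * Δ.card < Fintype.card α + 2 →
    ∀ W : Finset α, W ⊆ Δ → JC M W → 1 ≤ W.card →
    (∀ x₁ ∈ Δ, ∀ x₂ ∈ Δ, ∀ y₁ ∈ Δ, ∀ y₂ ∈ Δ, x₁ ≠ x₂ → y₁ ≠ y₂ →
      ∃ h : M, h • Δ = Δ ∧ h • x₁ = y₁ ∧ h • x₂ = y₂) ∧
    (∀ x ∈ Δ, x ∉ W → ∀ y ∈ Δ, y ∉ W →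
      ∃ h : M, h • Δ = Δ ∧ (∀ z ∈ W, h • z = z) ∧ h • x = y)

/-- [DB] induction through the setwise stabilizer of `Δ` acting on `Δ`. -/
def DBStmt : Prop :=
  ∀ (M : Type u) (α : Type v) [Group M] [MulAction M α] [Fintype α] [DecidableEq α]
    (Δ W : Finset α), MStmt.{u, v} Δ.card → W ⊆ Δ → W.card + 2 ≤ Δ.card →
    Δ.card < 2 * W.card →
    (∀ x₁ ∈ Δ, ∀ x₂ ∈ Δ, ∀ y₁ ∈ Δ, ∀ y₂ ∈ Δ, x₁ ≠ x₂ → y₁ ≠ y₂ →
      ∃ h : M, h • Δ = Δ ∧ h • x₁ = y₁ ∧ h • x₂ = y₂) →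
    (∀ x ∈ Δ, x ∉ W → ∀ y ∈ Δ, y ∉ W →
      ∃ h : M, h • Δ = Δ ∧ (∀ z ∈ W, h • z = z) ∧ h • x = y) →
    ∀ T : Finset α, T ⊆ Δ → T.card + 3 ≤ Δ.card → ∀ x ∈ Δ, x ∉ T → ∀ y ∈ Δ, y ∉ T →
      ∃ h : M, (∀ z ∈ T, h • z = z) ∧ h • x = y

/-- [QPA] a transitive, quasiprimitive, imprimitive action has a primitive quotient on which
the group is still faithful. -/
def QPAStmt : Prop :=
  ∀ (G : Type u) (Ω : Type v) [Group G] [Finite G] [MulAction G Ω] [FaithfulSMul G Ω]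
    [Fintype Ω] [DecidableEq Ω],
    (∀ N : Subgroup G, N.Normal → N ≠ ⊥ → IsPretransitive ↥N Ω) →
    IsPretransitive G Ω → ¬ IsPreprimitive G Ω →
    ∃ (𝔅 : Type u) (_ : Fintype 𝔅) (_ : DecidableEq 𝔅) (_ : MulAction G 𝔅) (π : Ω → 𝔅),
      (∀ (g : G) (x : Ω), π (g • x) = g • π x) ∧ Function.Surjective π ∧
      ¬ Function.Injective π ∧ IsPreprimitive G 𝔅 ∧ (∀ g : G, (∀ b : 𝔅, g • b = b) → g = 1)

/-- [QPB] such a quotient is incompatible with a small Jordan set. -/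
def QPBStmt : Prop :=
  (∀ k : ℕ, MStmt.{u, u} k) →
  ∀ (G : Type u) (Ω : Type v) [Group G] [MulAction G Ω] [FaithfulSMul G Ω]
    [Fintype Ω] [DecidableEq Ω]
    (𝔅 : Type u) [Fintype 𝔅] [DecidableEq 𝔅] [MulAction G 𝔅] (π : Ω → 𝔅),
    (∀ (g : G) (x : Ω), π (g • x) = g • π x) → Function.Surjective π →
    ¬ Function.Injective π → IsPreprimitive G 𝔅 → (∀ g : G, (∀ b : 𝔅, g • b = b) → g = 1) →
    ∀ Δ : Finset Ω, JC G Δ → Fintype.card Ω < 2 * Δ.card → Δ.card + 2 ≤ Fintype.card Ω → False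

end Cfsg.Agent.H64.Mg
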