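import Cfsg.Agent.H64.TtDefs

/-!
# S3685 (structure of the stabiliser, Sims/Wong) — piece statements (sequel of S3385)
-/

set_option autoImplicit false

namespace Cfsg.Agent.H64.Tt

universe u v

open MulAction

/-- GLUE2: as GLUE, remembering that `X[0,k]` is a point stabiliser. -/
def Glue2Stmt : Prop := ∀ {G : Type u} [Group G] [Finite G] {Ω : Type v} [MulAction G Ω] [FaithfulSMul G Ω],
  IsPreprimitive G Ω → ∀ (a : Ω) (g : G) (k : ℕ), 1 ≤ k →
  Nat.card (stabilizer G a) = 2 ^ k * 3 →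
  (∀ n : ℕ, 1 ≤ n → n ≤ k + 1 →
      Nat.card (↥(⨅ j ∈ Finset.range (n + 1), stabilizer G (g ^ j • a))) = 2 ^ (k + 1 - n)) →
  ∃ x : ℤ → G, TData x g k ∧ X x 0 k = stabilizer G (g ^ k • a)

/-- ISO1: `k = 1`, `X[0,1] ≅ S₃`. -/
def Iso1Stmt : Prop := ∀ {G : Type u} [Group G] [Finite G] (x : ℤ → G) (g : G), TData x g 1 →
  Nat.card (X x 0 1) = 6 → Nonempty (X x 0 1 ≃* Equiv.Perm (Fin 3))

/-- K2: `k = 2`, two involutions with product of order 6. -/
def K2Stmt : Prop := ∀ {G : Type u} [Group G] [Finite G] (x : ℤ → G) (g : G), TData x g 2 →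
  Nat.card (X x 0 2) = 12 →
  ∃ s ∈ X x 0 2, ∃ t ∈ X x 0 2, s * s = 1 ∧ t * t = 1 ∧ orderOf (s * t) = 6

/-- RECD12: recognition of the dihedral group of order 12. -/
def RecD12Stmt : Prop := ∀ {P : Type u} [Group P] [Finite P], Nat.card P = 12 →
  ∀ s t : P, s * s = 1 → t * t = 1 → orderOf (s * t) = 6 → Nonempty (P ≃* DihedralGroup 6)

/-- K3: `k = 3`, the relations. -/
def K3Stmt : Prop := ∀ {G : Type u} [Group G] [Finite G] (x : ℤ → G) (g : G), TData x g 3 →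
  Nat.card (X x 0 3) = 24 →
  x 0 * x 1 = x 1 * x 0 ∧ x 0 * x 2 * x 0 * x 2 = x 1 ∧ x 3 * x 0 * x 3 = x 0 * x 3 * x 0

/-- ISO3: `k = 3`, `X[0,3] ≅ S₄`. -/
def Iso3Stmt : Prop := ∀ {G : Type u} [Group G] [Finite G] (x : ℤ → G) (g : G), TData x g 3 →
  Nat.card (X x 0 3) = 24 → Nonempty (X x 0 3 ≃* Equiv.Perm (Fin 4))

/-- K4: `k = 4`, the relations. -/
def K4Stmt : Prop := ∀ {G : Type u} [Group G] [Finite G] (x : ℤ → G) (g : G), TData x g 4 →
  Nat.card (X x 0 4) = 48 →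
  x 0 * x 1 = x 1 * x 0 ∧ x 0 * x 2 = x 2 * x 0 ∧ x 0 * x 3 * x 0 * x 3 = x 1 * x 2 ∧
    ∃ y : G, (y = x 4 ∨ y = x 4 * x 2) ∧ y * x 0 * y = x 0 * y * x 0

/-- RECS4C2: an index-2 subgroup `S ≅ S₄` and a central involution outside it. -/
def RecS4C2Stmt : Prop := ∀ {G : Type u} [Group G] (P S : Subgroup G) (z : G), S ≤ P →
  Nat.card P = 48 → z ∈ P → z ∉ S → z * z = 1 → (∀ p ∈ P, z * p = p * z) →
  Nonempty (S ≃* Equiv.Perm (Fin 4)) →
  Nonempty (P ≃* Equiv.Perm (Fin 4) × Multiplicative (ZMod 2))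

/-- ISO4: `k = 4`, `X[0,4] ≅ S₄ × C₂`. -/
def Iso4Stmt : Prop := ∀ {G : Type u} [Group G] [Finite G] (x : ℤ → G) (g : G), TData x g 4 →
  Nat.card (X x 0 4) = 48 → Nonempty (X x 0 4 ≃* Equiv.Perm (Fin 4) × Multiplicative (ZMod 2))

/-- ISO2 from K2 and RECD12. -/
theorem iso2 (hK2 : K2Stmt.{u}) (hRec : RecD12Stmt.{u})
    {G : Type u} [Group G] [Finite G] (x : ℤ → G) (g : G) (hT : TData x g 2)
    (hc : Nat.card (X x 0 2) = 12) : Nonempty (X x 0 2 ≃* DihedralGroup 6) := by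
  obtain ⟨s, hs, t, ht, hs2, ht2, hst⟩ := hK2 x g hT hc
  refine hRec hc ⟨s, hs⟩ ⟨t, ht⟩ (Subtype.ext hs2) (Subtype.ext ht2) ?_
  rw [← Subgroup.orderOf_coe]
  exact hst

/-- The final assembly for S3685. -/
theorem final2 (hSeq : SeqStmt.{u, v}) (hGlue : Glue2Stmt.{u, v}) (hT : TutteStmt.{u})
    (h1 : Iso1Stmt.{u}) (hK2 : K2Stmt.{u}) (hRec : RecD12Stmt.{u}) (h3 : Iso3Stmt.{u})
    (h4 : Iso4Stmt.{u})
    {G : Type u} {Ω : Type v} [Group G] [Finite G] [MulAction G Ω] [FaithfulSMul G Ω]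
    (hprim : MulAction.IsPreprimitive G Ω) (a b : Ω)
    (h3' : Nat.card (MulAction.orbit (MulAction.stabilizer G a) b) = 3) :
    Nonempty (MulAction.stabilizer G a ≃* Multiplicative (ZMod 3)) ∨
      Nonempty (MulAction.stabilizer G a ≃* Equiv.Perm (Fin 3)) ∨
      Nonempty (MulAction.stabilizer G a ≃* DihedralGroup 6) ∨
      Nonempty (MulAction.stabilizer G a ≃* Equiv.Perm (Fin 4)) ∨
      Nonempty (MulAction.stabilizer G a ≃* Equiv.Perm (Fin 4) × Multiplicative (ZMod 2)) := by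
  obtain ⟨k, hk, hseq⟩ := hSeq hprim a b h3'
  rcases Nat.eq_zero_or_pos k with h0 | hpos
  · left
    subst h0
    have hc : Nat.card (stabilizer G a) = 3 := by simpa using hk
    have : Fact (Nat.Prime 3) := ⟨Nat.prime_three⟩
    have hcyc : IsCyclic (stabilizer G a) := isCyclic_of_prime_card hc
    have e := zmodCyclicMulEquiv hcyc
    rw [hc] at e
    exact ⟨e.symm⟩
  · right
    obtain ⟨g, hg⟩ := hseq hpos
    obtain ⟨x, hx, hX⟩ := hGlue hprim a g k hpos hk hg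
    have hk4 : k ≤ 4 := hT x g k hx
    have e1 : stabilizer G a ≃* stabilizer G (g ^ k • a) :=
      MulAction.stabilizerEquivStabilizer (g := g ^ k) rfl
    have e2 : stabilizer G a ≃* X x 0 k := e1.trans (MulEquiv.subgroupCongr hX.symm)
    have hcX : Nat.card (X x 0 k) = 2 ^ k * 3 := by
      rw [← Nat.card_congr e2.toEquiv]; exact hk
    have hk' : k = 1 ∨ k = 2 ∨ k = 3 ∨ k = 4 := by omega
    rcases hk' with rfl | rfl | rfl | rfl
    · left
      have hx' : X x 0 ((1 : ℕ) : ℤ) = X x 0 1 := by norm_num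
      rw [hx'] at e2 hcX
      obtain ⟨e⟩ := h1 x g hx (by simpa using hcX)
      exact ⟨e2.trans e⟩
    · right; left
      have hx' : X x 0 ((2 : ℕ) : ℤ) = X x 0 2 := by norm_num
      rw [hx'] at e2 hcX
      obtain ⟨e⟩ := iso2 hK2 hRec x g hx (by simpa using hcX)
      exact ⟨e2.trans e⟩
    · right; right; left
      have hx' : X x 0 ((3 : ℕ) : ℤ) = X x 0 3 := by norm_num
      rw [hx'] at e2 hcX
      obtain ⟨e⟩ := h3 x g hx (by simpa using hcX)
      exact ⟨e2.trans e⟩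
    · right; right; right
      have hx' : X x 0 ((4 : ℕ) : ℤ) = X x 0 4 := by norm_num
      rw [hx'] at e2 hcX
      obtain ⟨e⟩ := h4 x g hx (by simpa using hcX)
      exact ⟨e2.trans e⟩

end Cfsg.Agent.H64.Tt
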