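import Mathlib
import Cfsg.Agent.H21.BrauerTuan
import Cfsg.Agent.H21.SimpleTools

set_option autoImplicit false

open Cfsg

namespace Cfsg.Agent.H64.NS

/-- Brauer–Tuan bookkeeping: a simple group of order `N = p^a q^b r` gives `d ∣ r - 1`, `d ≠ 1`
and `n ≡ 1 (mod r)` with `n * (r * d) = N`. -/
theorem no_simple_bt_aux {G : Type*} [Group G] [Finite G] [IsSimpleGroup G] (p q r a b N : ℕ)
    (hp : p.Prime) (hq : q.Prime) (hr : r.Prime) (hpr : p ≠ r) (hqr : q ≠ r)
    (hN : Nat.card G = N) (hfac : N = p ^ a * q ^ b * r) (hnp : ¬ N.Prime)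
    (harith : ∀ d n : ℕ, 2 ≤ d → d ≤ r - 1 → (r - 1) % d = 0 → n * (r * d) = N → n % r = 1 →
      False) : False := by
  have : Fact r.Prime := ⟨hr⟩
  have hcard : Nat.card G = p ^ a * q ^ b * r := by rw [hN, hfac]
  have hG : ¬ IsMulCommutative G := Cfsg.Agent.H21.not_comm_of_not_prime (by rw [hN]; exact hnp)
  let S : Sylow r G := default
  have hC : Subgroup.centralizer ((S : Subgroup G) : Set G) = (S : Subgroup G) :=
    Cfsg.Agent.H21.BrauerTuan.centralizer_sylow_eq p q r a b hp hq hpr hqr hcard S
  have hS : Nat.card (S : Subgroup G) = r :=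
    Cfsg.Agent.H21.BrauerTuan.card_sylow p q r a b hp hq hpr hqr hcard S
  obtain ⟨d, hd, hd1, hdvd, -⟩ := Cfsg.Agent.H21.simple_sylow_prime_card_NC hG S hS
  have hNC := Cfsg.Agent.H21.card_centralizer_mul_relIndex_normalizer (S : Subgroup G)
  rw [← hd, hC, hS] at hNC
  have h1 : Nat.card (Sylow r G) = (Subgroup.normalizer ((S : Subgroup G) : Set G)).index :=
    Sylow.card_eq_index_normalizer S
  have h2 := Subgroup.index_mul_card (Subgroup.normalizer ((S : Subgroup G) : Set G))
  have h3 : Nat.card (Sylow r G) ≡ 1 [MOD r] := card_sylow_modEq_one r G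
  have hd0 : d ≠ 0 := by
    rintro rfl
    rw [mul_zero] at hNC
    exact (Nat.card_pos (α := Subgroup.normalizer ((S : Subgroup G) : Set G))).ne' hNC.symm
  have hr1 : 0 < r - 1 := by have := hr.two_le; omega
  refine harith d (Nat.card (Sylow r G)) (by omega) (Nat.le_of_dvd hr1 hdvd)
    (Nat.mod_eq_zero_of_dvd hdvd) ?_ ?_
  · rw [h1, hNC, h2, hN]
  · have := h3
    unfold Nat.ModEq at this
    rw [this, Nat.mod_eq_of_lt hr.one_lt]

theorem no_simple_bt {G : Type*} [Group G] [Finite G] [IsSimpleGroup G]
    (h : Nat.card G ∈ ([120, 180, 240, 264, 336, 480, 528, 560, 672, 792, 1008, 1040, 1056, 1080] : List ℕ)) :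
    False := by
  simp only [List.mem_cons, List.not_mem_nil, or_false] at h
  rcases h with h | h | h | h | h | h | h | h | h | h | h | h | h | h
  · exact no_simple_bt_aux 2 5 3 3 1 120 (by norm_num) (by norm_num) (by norm_num) (by norm_num)
      (by norm_num) h (by norm_num) (by norm_num)
      (by intro d n h2 hle hdv hn hmod; norm_num at hle; interval_cases d <;> omega)
  · exact no_simple_bt_aux 2 3 5 2 2 180 (by norm_num) (by norm_num) (by norm_num) (by norm_num)
      (by norm_num) h (by norm_num) (by norm_num)
      (by intro d n h2 hle hdv hn hmod; norm_num at hle; interval_cases d <;> omega)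
  · exact no_simple_bt_aux 2 3 5 4 1 240 (by norm_num) (by norm_num) (by norm_num) (by norm_num)
      (by norm_num) h (by norm_num) (by norm_num)
      (by intro d n h2 hle hdv hn hmod; norm_num at hle; interval_cases d <;> omega)
  · exact no_simple_bt_aux 2 11 3 3 1 264 (by norm_num) (by norm_num) (by norm_num) (by norm_num)
      (by norm_num) h (by norm_num) (by norm_num)
      (by intro d n h2 hle hdv hn hmod; norm_num at hle; interval_cases d <;> omega)
  · exact no_simple_bt_aux 2 7 3 4 1 336 (by norm_num) (by norm_num) (by norm_num) (by norm_num)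
      (by norm_num) h (by norm_num) (by norm_num)
      (by intro d n h2 hle hdv hn hmod; norm_num at hle; interval_cases d <;> omega)
  · exact no_simple_bt_aux 2 3 5 5 1 480 (by norm_num) (by norm_num) (by norm_num) (by norm_num)
      (by norm_num) h (by norm_num) (by norm_num)
      (by intro d n h2 hle hdv hn hmod; norm_num at hle; interval_cases d <;> omega)
  · exact no_simple_bt_aux 2 3 11 4 1 528 (by norm_num) (by norm_num) (by norm_num) (by norm_num)
      (by norm_num) h (by norm_num) (by norm_num)
      (by intro d n h2 hle hdv hn hmod; norm_num at hle; interval_cases d <;> omega)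
  · exact no_simple_bt_aux 2 5 7 4 1 560 (by norm_num) (by norm_num) (by norm_num) (by norm_num)
      (by norm_num) h (by norm_num) (by norm_num)
      (by intro d n h2 hle hdv hn hmod; norm_num at hle; interval_cases d <;> omega)
  · exact no_simple_bt_aux 2 3 7 5 1 672 (by norm_num) (by norm_num) (by norm_num) (by norm_num)
      (by norm_num) h (by norm_num) (by norm_num)
      (by intro d n h2 hle hdv hn hmod; norm_num at hle; interval_cases d <;> omega)
  · exact no_simple_bt_aux 2 3 11 3 2 792 (by norm_num) (by norm_num) (by norm_num) (by norm_num)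
      (by norm_num) h (by norm_num) (by norm_num)
      (by intro d n h2 hle hdv hn hmod; norm_num at hle; interval_cases d <;> omega)
  · exact no_simple_bt_aux 2 3 7 4 2 1008 (by norm_num) (by norm_num) (by norm_num) (by norm_num)
      (by norm_num) h (by norm_num) (by norm_num)
      (by intro d n h2 hle hdv hn hmod; norm_num at hle; interval_cases d <;> omega)
  · exact no_simple_bt_aux 2 13 5 4 1 1040 (by norm_num) (by norm_num) (by norm_num) (by norm_num)
      (by norm_num) h (by norm_num) (by norm_num)
      (by intro d n h2 hle hdv hn hmod; norm_num at hle; interval_cases d <;> omega)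
  · exact no_simple_bt_aux 2 3 11 5 1 1056 (by norm_num) (by norm_num) (by norm_num) (by norm_num)
      (by norm_num) h (by norm_num) (by norm_num)
      (by intro d n h2 hle hdv hn hmod; norm_num at hle; interval_cases d <;> omega)
  · exact no_simple_bt_aux 2 3 5 3 3 1080 (by norm_num) (by norm_num) (by norm_num) (by norm_num)
      (by norm_num) h (by norm_num) (by norm_num)
      (by intro d n h2 hle hdv hn hmod; norm_num at hle; interval_cases d <;> omega)

example {G : Type*} [Group G] [Finite G] [IsSimpleGroup G]
    (h : Nat.card G ∈ ([120, 180, 240, 264, 336, 480, 528, 560, 672, 792, 1008, 1040, 1056, 1080] : List ℕ)) :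
    False := no_simple_bt h

end Cfsg.Agent.H64.NS
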