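import Mathlib

set_option autoImplicit false

namespace Cfsg.Agent.H64.MetaAut

/-- transport of a subgroup of automorphisms along an isomorphism. -/
theorem transport {X Y : Type*} [Group X] [Group Y] (e : X ≃* Y) (H : Subgroup (MulAut Y)) :
    ∃ H' : Subgroup (MulAut X), Nat.card H' = Nat.card H ∧
      (IsMulCommutative H' → IsMulCommutative H) ∧ ((∃ h ∈ H, h ≠ 1) → ∃ h ∈ H', h ≠ 1) := by
  let f : MulAut Y →* MulAut X := (MulAut.congr e.symm).toMonoidHom
  have hf : Function.Injective f := (MulAut.congr e.symm).injective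
  refine ⟨H.map f, ?_, ?_, ?_⟩
  · exact (Nat.card_congr (H.equivMapOfInjective f hf).toEquiv).symm
  · intro hc
    rw [isMulCommutative_iff] at hc ⊢
    intro a b
    have h1 := hc ⟨f a, Subgroup.mem_map_of_mem f a.2⟩ ⟨f b, Subgroup.mem_map_of_mem f b.2⟩
    have h2 : f (a.1 * b.1) = f (b.1 * a.1) := by
      rw [map_mul, map_mul]
      exact congr_arg Subtype.val h1
    exact Subtype.ext (hf h2)
  · rintro ⟨h, hh, hne⟩
    refine ⟨f h, Subgroup.mem_map_of_mem f hh, fun h1 => hne (hf ?_)⟩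
    rw [h1, map_one]

/-- an automorphism of order 3 gives an odd-order subgroup of automorphisms. -/
theorem of_order_three {Y : Type*} [Group Y] (γ : MulAut Y) (h3 : γ ^ 3 = 1) (hne : γ ≠ 1) :
    ∃ H : Subgroup (MulAut Y), (Nat.card H).Coprime 2 ∧ ∃ h ∈ H, h ≠ 1 := by
  refine ⟨Subgroup.zpowers γ, ?_, γ, Subgroup.mem_zpowers γ, hne⟩
  have : orderOf γ = 3 := orderOf_eq_prime h3 hne
  rw [Nat.card_zpowers, this]
  decide

/-- `(x, y) ↦ (y, x⁻¹ y⁻¹)`. -/
def rot3 (M : Type*) [CommGroup M] : MulAut (M × M) where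
  toFun p := (p.2, p.1⁻¹ * p.2⁻¹)
  invFun p := (p.1⁻¹ * p.2⁻¹, p.1)
  left_inv := by intro p; ext <;> simp
  right_inv := by intro p; ext <;> simp
  map_mul' := by intro p q; ext <;> simp [mul_comm, mul_left_comm, mul_assoc]

theorem rot3_pow (M : Type*) [CommGroup M] : rot3 M ^ 3 = 1 := by
  ext p <;> simp [pow_succ, rot3]

theorem rot3_ne (M : Type*) [CommGroup M] (a : M) (ha : a ≠ 1) : rot3 M ≠ 1 := by
  intro h
  have := congr_arg (fun g : MulAut (M × M) => (g (a, 1)).1) h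
  simp [rot3] at this
  exact ha this.symm

theorem homocyclic_aut_three {X : Type*} [Group X] (n : ℕ) (hn : 0 < n) (e : X ≃* Multiplicative (ZMod (2 ^ n)) × Multiplicative (ZMod (2 ^ n))) : ∃ H : Subgroup (MulAut X), (Nat.card H).Coprime 2 ∧ ∃ h ∈ H, h ≠ 1 := by
  have hlt : 1 < 2 ^ n := Nat.one_lt_two_pow (by omega)
  have : Fact (1 < 2 ^ n) := ⟨hlt⟩
  have ha : (Multiplicative.ofAdd (1 : ZMod (2 ^ n))) ≠ 1 := by
    intro h
    have h1 : (1 : ZMod (2 ^ n)) = 0 := h
    exact one_ne_zero h1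
  obtain ⟨H, hH, hne⟩ := of_order_three (rot3 (Multiplicative (ZMod (2 ^ n)))) (rot3_pow _)
    (rot3_ne _ _ ha)
  obtain ⟨H', hc, -, h2⟩ := transport e H
  exact ⟨H', by rw [hc]; exact hH, h2 hne⟩

/-- the 3-cycle on the non-identity elements of the Klein four-group. -/
def kf : DihedralGroup 2 → DihedralGroup 2
  | .r i => if i = 0 then .r 0 else .sr 0
  | .sr i => if i = 0 then .sr 1 else .r 1

theorem kf_mul : ∀ x y : DihedralGroup 2, kf (x * y) = kf x * kf y := by decide

theorem kf3 : ∀ x : DihedralGroup 2, kf (kf (kf x)) = x := by decide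

/-- the automorphism of order 3 of the Klein four-group. -/
def kfAut : MulAut (DihedralGroup 2) where
  toFun := kf
  invFun x := kf (kf x)
  left_inv := kf3
  right_inv := kf3
  map_mul' := kf_mul

/-- an automorphism of order 3 of the quaternion group. -/
def qf : QuaternionGroup 2 → QuaternionGroup 2
  | .a i => if i = 0 then .a 0 else if i = 1 then .xa 0 else if i = 2 then .a 2 else .xa 2
  | .xa i => if i = 0 then .xa 3 else if i = 1 then .a 3 else if i = 2 then .xa 1 else .a 1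

theorem qf_mul : ∀ x y : QuaternionGroup 2, qf (x * y) = qf x * qf y := by decide

theorem qf3 : ∀ x : QuaternionGroup 2, qf (qf (qf x)) = x := by decide

/-- the automorphism of order 3 of the quaternion group. -/
def qfAut : MulAut (QuaternionGroup 2) where
  toFun := qf
  invFun x := qf (qf x)
  left_inv := qf3
  right_inv := qf3
  map_mul' := qf_mul

theorem klein_quat_aut_three {X : Type*} [Group X] (e : Nonempty (X ≃* DihedralGroup 2) ∨ Nonempty (X ≃* QuaternionGroup 2)) : ∃ H : Subgroup (MulAut X), (Nat.card H).Coprime 2 ∧ ∃ h ∈ H, h ≠ 1 := by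
  rcases e with ⟨⟨e⟩⟩ | ⟨⟨e⟩⟩
  · have h3 : kfAut ^ 3 = 1 := by
      ext x
      exact kf3 x
    have hne : kfAut ≠ 1 := by
      intro h
      have := congr_arg (fun g : MulAut (DihedralGroup 2) => g (.r 1)) h
      revert this
      decide
    obtain ⟨H, hH, hne⟩ := of_order_three kfAut h3 hne
    obtain ⟨H', hc, -, h2⟩ := transport e H
    exact ⟨H', by rw [hc]; exact hH, h2 hne⟩
  · have h3 : qfAut ^ 3 = 1 := by
      ext x
      exact qf3 x
    have hne : qfAut ≠ 1 := by
      intro h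
      have := congr_arg (fun g : MulAut (QuaternionGroup 2) => g (.a 1)) h
      revert this
      decide
    obtain ⟨H, hH, hne⟩ := of_order_three qfAut h3 hne
    obtain ⟨H', hc, -, h2⟩ := transport e H
    exact ⟨H', by rw [hc]; exact hH, h2 hne⟩

/-- the swap automorphism. -/
def swp (M : Type*) [CommGroup M] : MulAut (M × M) where
  toFun p := (p.2, p.1)
  invFun p := (p.2, p.1)
  left_inv := by intro p; rfl
  right_inv := by intro p; rfl
  map_mul' := by intro p q; rfl

/-- inversion of the second coordinate. -/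
def dg (M : Type*) [CommGroup M] : MulAut (M × M) where
  toFun p := (p.1, p.2⁻¹)
  invFun p := (p.1, p.2⁻¹)
  left_inv := by intro p; ext <;> simp
  right_inv := by intro p; ext <;> simp
  map_mul' := by intro p q; ext <;> simp [mul_comm]

/-- signed-permutation form of an automorphism of `M × M`. -/
def Mono {M : Type*} [CommGroup M] (g : MulAut (M × M)) : Prop :=
  ∃ (ε δ : ℤˣ), (∀ x y : M, g (x, y) = (x ^ (ε : ℤ), y ^ (δ : ℤ))) ∨
    (∀ x y : M, g (x, y) = (y ^ (ε : ℤ), x ^ (δ : ℤ)))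

theorem zpow_unit_sq {M : Type*} [CommGroup M] (ε : ℤˣ) (x : M) :
    (x ^ (ε : ℤ)) ^ (ε : ℤ) = x := by
  rcases Int.units_eq_one_or ε with rfl | rfl <;> simp

theorem zpow_unit_mul {M : Type*} [CommGroup M] (ε δ : ℤˣ) (x : M) :
    (x ^ (ε : ℤ)) ^ (δ : ℤ) = x ^ ((ε * δ : ℤˣ) : ℤ) := by
  rw [← zpow_mul, Units.val_mul]

theorem mono_pow_four {M : Type*} [CommGroup M] (g : MulAut (M × M)) (hg : Mono g) :
    g ^ 4 = 1 := by
  obtain ⟨ε, δ, h | h⟩ := hg
  · have h2 : g ^ 2 = 1 := by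
      ext ⟨x, y⟩ <;> simp [pow_succ, h, zpow_unit_sq]
    have : g ^ 4 = (g ^ 2) ^ 2 := by rw [← pow_mul]
    rw [this, h2, one_pow]
  · have h2 : ∀ x y : M, (g ^ 2) (x, y) = (x ^ ((δ * ε : ℤˣ) : ℤ), y ^ ((ε * δ : ℤˣ) : ℤ)) := by
      intro x y
      simp [pow_succ, h, zpow_unit_mul]
    have : g ^ 4 = (g ^ 2) ^ 2 := by rw [← pow_mul]
    rw [this]
    have h4 : ∀ x y : M, ((g ^ 2) ^ 2) (x, y) = (x, y) := by
      intro x y
      have e1 : ((g ^ 2) ^ 2) (x, y) = (g ^ 2) ((g ^ 2) (x, y)) := by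
        rw [pow_two (g ^ 2), MulAut.mul_apply]
      rw [e1, h2, h2, zpow_unit_sq, zpow_unit_sq]
    exact MulEquiv.ext (fun q => h4 q.1 q.2)

theorem mono_closure {M : Type*} [CommGroup M] (g : MulAut (M × M))
    (hg : g ∈ Subgroup.closure {swp M, dg M}) : Mono g := by
  induction hg using Subgroup.closure_induction with
  | mem g hg =>
    rcases hg with rfl | rfl
    · exact ⟨1, 1, Or.inr (fun x y => by simp [swp])⟩
    · exact ⟨1, -1, Or.inl (fun x y => by simp [dg])⟩
  | one => exact ⟨1, 1, Or.inl (fun x y => by simp)⟩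
  | mul g g' _ _ hg hg' =>
    obtain ⟨ε, δ, h | h⟩ := hg <;> obtain ⟨ε', δ', h' | h'⟩ := hg'
    · exact ⟨ε' * ε, δ' * δ, Or.inl (fun x y => by
        rw [MulAut.mul_apply, h', h, zpow_unit_mul, zpow_unit_mul])⟩
    · exact ⟨ε' * ε, δ' * δ, Or.inr (fun x y => by
        rw [MulAut.mul_apply, h', h, zpow_unit_mul, zpow_unit_mul])⟩
    · exact ⟨δ' * ε, ε' * δ, Or.inr (fun x y => by
        rw [MulAut.mul_apply, h', h, zpow_unit_mul, zpow_unit_mul])⟩
    · exact ⟨δ' * ε, ε' * δ, Or.inl (fun x y => by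
        rw [MulAut.mul_apply, h', h, zpow_unit_mul, zpow_unit_mul])⟩
  | inv g _ hg =>
    obtain ⟨ε, δ, h | h⟩ := hg
    · refine ⟨ε, δ, Or.inl (fun x y => ?_)⟩
      apply g.injective
      rw [MulAut.apply_inv_self, h, zpow_unit_sq, zpow_unit_sq]
    · refine ⟨δ, ε, Or.inr (fun x y => ?_)⟩
      apply g.injective
      rw [MulAut.apply_inv_self, h, zpow_unit_sq, zpow_unit_sq]

theorem homocyclic_aut_nonabelian {X : Type*} [Group X] (p n : ℕ) [Fact p.Prime] (hp : p ≠ 2) (hn : 0 < n) (e : X ≃* Multiplicative (ZMod (p ^ n)) × Multiplicative (ZMod (p ^ n))) : ∃ H : Subgroup (MulAut X), (Nat.card H).Coprime p ∧ ¬ IsMulCommutative H := by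
  have hpp : p.Prime := Fact.out
  have hp3 : 3 ≤ p := by
    have := hpp.two_le
    omega
  have hlt : 2 < p ^ n := by
    calc 2 < p := by omega
      _ = p ^ 1 := (pow_one p).symm
      _ ≤ p ^ n := Nat.pow_le_pow_right (by omega) hn
  have : NeZero (p ^ n) := ⟨by omega⟩
  set M := Multiplicative (ZMod (p ^ n)) with hM
  let a : M := Multiplicative.ofAdd (1 : ZMod (p ^ n))
  have ha : a⁻¹ ≠ a := by
    intro h
    have h1 : -(1 : ZMod (p ^ n)) = 1 := h
    have h2 : ((2 : ℕ) : ZMod (p ^ n)) = 0 := by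
      have : (1 : ZMod (p ^ n)) + 1 = 0 := by
        nth_rewrite 1 [← h1]
        exact neg_add_cancel 1
      rw [← this]
      norm_num
    rw [ZMod.natCast_eq_zero_iff] at h2
    exact absurd (Nat.le_of_dvd (by norm_num) h2) (by omega)
  let H : Subgroup (MulAut (M × M)) := Subgroup.closure {swp M, dg M}
  have hfin : Finite (MulAut (M × M)) := inferInstance
  have hH2 : IsPGroup 2 H := by
    intro g
    refine ⟨2, ?_⟩
    apply Subtype.ext
    have := mono_pow_four g.1 (mono_closure g.1 g.2)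
    simpa using this
  have hnc : ¬ IsMulCommutative H := by
    intro hc
    rw [isMulCommutative_iff] at hc
    have h1 := hc ⟨swp M, Subgroup.subset_closure (by simp)⟩ ⟨dg M, Subgroup.subset_closure (by simp)⟩
    have h2 : swp M * dg M = dg M * swp M := congr_arg Subtype.val h1
    have h3 := congr_arg (fun g : MulAut (M × M) => (g (1, a)).1) h2
    simp [swp, dg] at h3
    exact ha h3
  obtain ⟨k, hk⟩ := (IsPGroup.iff_card).mp hH2
  obtain ⟨H', hc, hcomm, -⟩ := transport e H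
  refine ⟨H', ?_, fun h => hnc (hcomm h)⟩
  rw [hc, hk]
  exact Nat.Coprime.pow_left k ((Nat.coprime_primes Nat.prime_two hpp).mpr (Ne.symm hp))

example {X : Type*} [Group X] (p n : ℕ) [Fact p.Prime] (hp : p ≠ 2) (hn : 0 < n) (e : X ≃* Multiplicative (ZMod (p ^ n)) × Multiplicative (ZMod (p ^ n))) : ∃ H : Subgroup (MulAut X), (Nat.card H).Coprime p ∧ ¬ IsMulCommutative H :=
  homocyclic_aut_nonabelian p n hp hn e

example {X : Type*} [Group X] (n : ℕ) (hn : 0 < n) (e : X ≃* Multiplicative (ZMod (2 ^ n)) × Multiplicative (ZMod (2 ^ n))) : ∃ H : Subgroup (MulAut X), (Nat.card H).Coprime 2 ∧ ∃ h ∈ H, h ≠ 1 :=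
  homocyclic_aut_three n hn e

example {X : Type*} [Group X] (e : Nonempty (X ≃* DihedralGroup 2) ∨ Nonempty (X ≃* QuaternionGroup 2)) : ∃ H : Subgroup (MulAut X), (Nat.card H).Coprime 2 ∧ ∃ h ∈ H, h ≠ 1 :=
  klein_quat_aut_three e

end Cfsg.Agent.H64.MetaAut
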