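import Mathlib
import Cfsg.Agent.H72.BaerDefs
import Cfsg.Agent.H4.PaQb

set_option autoImplicit false
set_option linter.unusedSectionVars false
set_option warn.classDefReducibility false

namespace Cfsg.Agent.H64.Baer

open Cfsg.Agent.H72.BaerT

universe u

variable {p q : ℕ} {V : Type u} [CommGroup V] [Finite V] {A P : Subgroup (MulAut V)}

example : Finite (MulAut V) := inferInstance

theorem card_orbit_eq_relIndex (B : Subgroup (MulAut V)) (v : V) :
    Nat.card (MulAction.orbit B v) = (MulAction.stabilizer (MulAut V) v).relIndex B := by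
  have h1 : MulAction.stabilizer B v = (MulAction.stabilizer (MulAut V) v).subgroupOf B := by
    ext ⟨g, hg⟩
    simp [Subgroup.mem_subgroupOf, MulAction.mem_stabilizer_iff, Subgroup.smul_def]
  rw [Subgroup.relIndex, ← h1, MulAction.index_stabilizer, Nat.card_coe_set_eq]

/-- T3: a Sylow `p`-subgroup is transitive on each `A`-orbit. -/
theorem orbit_syl (h : TH p q V A) (hP : IsSyl p P A) (a : MulAut V) (ha : a ∈ A) (v : V) :
    ∃ g ∈ P, a v = g v := by
  obtain ⟨hPA, hPp, hPi⟩ := hP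
  have hp := h.hp
  have : Fact p.Prime := ⟨hp⟩
  obtain ⟨n, hn⟩ := h.horb v
  set S := MulAction.stabilizer (MulAut V) v with hS
  have hA : S.relIndex A = p ^ n := by rw [← card_orbit_eq_relIndex, hn]
  obtain ⟨b, hb⟩ : ∃ b, S.relIndex P = p ^ b := hPp.index (S.subgroupOf P)
  have e1 : (P ⊓ S).relIndex P * P.relIndex A = (P ⊓ S).relIndex A :=
    Subgroup.relIndex_mul_relIndex _ _ _ inf_le_left hPA
  have e2 : (P ⊓ S).relIndex (A ⊓ S) * (A ⊓ S).relIndex A = (P ⊓ S).relIndex A :=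
    Subgroup.relIndex_mul_relIndex _ _ _ (inf_le_inf_right _ hPA) inf_le_left
  rw [Subgroup.inf_relIndex_left, hb] at e1
  rw [Subgroup.inf_relIndex_left, hA] at e2
  have hdvd : p ^ n ∣ p ^ b := by
    have : p ^ n ∣ p ^ b * P.relIndex A := by rw [e1, ← e2]; exact dvd_mul_left _ _
    exact (Nat.Coprime.pow_left n ((Nat.Prime.coprime_iff_not_dvd hp).mpr hPi)).dvd_of_dvd_mul_right this
  have hle : p ^ n ≤ p ^ b := Nat.le_of_dvd (pow_pos hp.pos _) hdvd
  have hsub : MulAction.orbit P v ⊆ MulAction.orbit A v := by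
    rintro _ ⟨g, rfl⟩
    exact ⟨⟨g.1, hPA g.2⟩, rfl⟩
  have hfin : (MulAction.orbit A v).Finite := Set.toFinite _
  have heq : MulAction.orbit P v = MulAction.orbit A v := by
    apply Set.eq_of_subset_of_ncard_le hsub _ hfin
    rw [← Nat.card_coe_set_eq, ← Nat.card_coe_set_eq, hn, card_orbit_eq_relIndex, ← hS, hb]
    exact hle
  have hmem : a v ∈ MulAction.orbit A v := ⟨⟨a, ha⟩, rfl⟩
  rw [← heq] at hmem
  obtain ⟨g, hg⟩ := hmem
  exact ⟨g.1, g.2, hg.symm⟩

section Indep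

variable {ι : Type} [Fintype ι] (W : ι → Subgroup V)

/-- Unique decomposition for an independent family of subgroups. -/
theorem ud
    (hind : ∀ (f : ι → V), (∀ i, f i ∈ W i) → (∏ i, f i = 1) → ∀ i, f i = 1)
    {α β α' β' : ι} (hαβ : α ≠ β) {x y x' y' : V} (hx : x ∈ W α) (hy : y ∈ W β)
    (hx' : x' ∈ W α') (hy' : y' ∈ W β') (hx1 : x ≠ 1) (hy1 : y ≠ 1) (heq : x * y = x' * y') :
    (α = α' ∧ β = β') ∨ (α = β' ∧ β = α') := by
  classical
  set f : ι → V := fun k => (if k = α then x else 1) * (if k = β then y else 1) *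
    (if k = α' then x'⁻¹ else 1) * (if k = β' then y'⁻¹ else 1) with hf
  have hmem : ∀ k, f k ∈ W k := by
    intro k
    simp only [hf]
    refine (W k).mul_mem ((W k).mul_mem ((W k).mul_mem ?_ ?_) ?_) ?_
    · split_ifs with hk
      · rw [hk]; exact hx
      · exact (W k).one_mem
    · split_ifs with hk
      · rw [hk]; exact hy
      · exact (W k).one_mem
    · split_ifs with hk
      · rw [hk]; exact (W α').inv_mem hx'
      · exact (W k).one_mem
    · split_ifs with hk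
      · rw [hk]; exact (W β').inv_mem hy'
      · exact (W k).one_mem
  have hprod : ∏ k, f k = 1 := by
    simp only [hf, Finset.prod_mul_distrib, Finset.prod_ite_eq', Finset.mem_univ, if_true]
    rw [heq, mul_comm x' y', mul_assoc y', mul_inv_cancel, mul_one, mul_inv_cancel]
  have hall := hind f hmem hprod
  have hα := hall α
  have hβ := hall β
  simp only [hf, if_true, if_neg hαβ, if_neg hαβ.symm, mul_one, one_mul] at hα hβ
  have h1 : α = α' ∨ α = β' := by
    by_contra hcon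
    push Not at hcon
    rw [if_neg hcon.1, if_neg hcon.2, mul_one, mul_one] at hα
    exact hx1 hα
  have h2 : β = α' ∨ β = β' := by
    by_contra hcon
    push Not at hcon
    rw [if_neg hcon.1, if_neg hcon.2, mul_one, mul_one] at hβ
    exact hy1 hβ
  rcases h1 with h1 | h1 <;> rcases h2 with h2 | h2
  · exact absurd (h1.trans h2.symm) hαβ
  · exact Or.inl ⟨h1, h2⟩
  · exact Or.inr ⟨h1, h2⟩
  · exact absurd (h1.trans h2.symm) hαβ

/-- Distinct blocks meet trivially. -/
theorem blocks_disjoint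
    (hind : ∀ (f : ι → V), (∀ i, f i ∈ W i) → (∏ i, f i = 1) → ∀ i, f i = 1)
    {i j : ι} {x : V} (hi : x ∈ W i) (hj : x ∈ W j) (hx : x ≠ 1) : i = j := by
  by_contra hij
  rcases ud W hind hij hi hj ((W j).mul_mem hj hj) (W j).one_mem hx hx (mul_one _).symm with
    ⟨h1, _⟩ | ⟨h1, _⟩ <;> exact hij h1

/-- A subgroup inside the union of the blocks lies in one block. -/
theorem le_of_union [Nonempty ι]
    (hind : ∀ (f : ι → V), (∀ i, f i ∈ W i) → (∏ i, f i = 1) → ∀ i, f i = 1)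
    (U : Subgroup V) (hU : ∀ u ∈ U, ∃ j, u ∈ W j) : ∃ j, U ≤ W j := by
  by_cases hb : U = ⊥
  · exact ⟨Classical.arbitrary ι, hb ▸ bot_le⟩
  · obtain ⟨⟨u, hu⟩, hu1⟩ := (Subgroup.ne_bot_iff_exists_ne_one).mp hb
    have hu1' : u ≠ 1 := fun h => hu1 (Subtype.ext h)
    obtain ⟨j, huj⟩ := hU u hu
    refine ⟨j, fun u' hu' => ?_⟩
    by_cases h1 : u' = 1
    · rw [h1]; exact (W j).one_mem
    obtain ⟨j', huj'⟩ := hU u' hu'
    by_cases hjj : j = j'
    · rw [hjj]; exact huj'
    obtain ⟨k, hk⟩ := hU (u * u') (U.mul_mem hu hu')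
    rcases ud W hind hjj huj huj' hk (W k).one_mem hu1' h1 (mul_one _).symm with
      ⟨h2, h3⟩ | ⟨h2, h3⟩ <;> exact absurd (h2.trans h3.symm) hjj

/-- The block reached from block `i` under `a`. -/
noncomputable def blk (hA : ∀ a ∈ A, ∀ i, ∃ j, ∀ w, w ∈ W i ↔ a w ∈ W j) (a : A) (i : ι) : ι :=
  Classical.choose (hA a.1 a.2 i)

theorem blk_spec (hA : ∀ a ∈ A, ∀ i, ∃ j, ∀ w, w ∈ W i ↔ a w ∈ W j) (a : A) (i : ι) (w : V) :
    w ∈ W i ↔ (a : MulAut V) w ∈ W (blk W hA a i) :=
  Classical.choose_spec (hA a.1 a.2 i) w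

/-- The permutation action of `A` on the blocks. -/
noncomputable def blkAction
    (hdis : ∀ (i j : ι) (x : V), x ∈ W i → x ∈ W j → x ≠ 1 → i = j) (hne : ∀ i, W i ≠ ⊥)
    (hA : ∀ a ∈ A, ∀ i, ∃ j, ∀ w, w ∈ W i ↔ a w ∈ W j) : MulAction A ι where
  smul := blk W hA
  one_smul i := by
    obtain ⟨⟨w, hw⟩, hw1⟩ := (Subgroup.ne_bot_iff_exists_ne_one).mp (hne i)
    have hw1' : w ≠ 1 := fun h => hw1 (Subtype.ext h)
    have h1 := (blk_spec W hA 1 i w).mp hw
    exact hdis _ _ w h1 hw hw1'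
  mul_smul a b i := by
    obtain ⟨⟨w, hw⟩, hw1⟩ := (Subgroup.ne_bot_iff_exists_ne_one).mp (hne i)
    have hw1' : w ≠ 1 := fun h => hw1 (Subtype.ext h)
    have h1 := (blk_spec W hA b i w).mp hw
    have h2 := (blk_spec W hA a _ _).mp h1
    have h3 := (blk_spec W hA (a * b) i w).mp hw
    refine hdis _ _ _ h3 h2 ?_
    intro h4
    apply hw1'
    have : ((a * b : A) : MulAut V) w = ((a * b : A) : MulAut V) 1 := by rw [h4, map_one]
    exact (MulEquiv.injective _) this

end Indep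

theorem card_dvd_two_of_unique {T : Type*} [Group T] [Finite T]
    (h : ∀ a b : T, a ≠ 1 → b ≠ 1 → a = b) : Nat.card T ∣ 2 := by
  classical
  have h2 : Nat.card T ≤ 2 := by
    have hinj : Function.Injective (fun a : T => decide (a = 1)) := by
      intro a b hab
      simp only [decide_eq_decide] at hab
      by_cases ha : a = 1
      · rw [ha, (hab.mp ha)]
      · exact h a b ha (fun hb => ha (hab.mpr hb))
    have := Nat.card_le_card_of_injective _ hinj
    simpa using this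
  have h0 : 0 < Nat.card T := Nat.card_pos
  interval_cases (Nat.card T) <;> simp

/-- A permutation group of prime degree `p` containing a transitive `p`-subgroup `R`, in which
point stabilizers move points only "along `R`", is solvable. -/
theorem perm_solvable {ι : Type} [Fintype ι] {p : ℕ} (hp : p.Prime) (hι : Fintype.card ι = p)
    (B R : Subgroup (Equiv.Perm ι)) (hRB : R ≤ B) (hR : IsPGroup p R)
    (htr : ∀ i j, ∃ g ∈ R, g i = j)
    (hstar : ∀ σ ∈ B, ∀ i k, σ i = i → k ≠ i →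
      ∃ g ∈ R, (g i = i ∧ σ k = g k) ∨ (g k = i ∧ σ k = g i)) :
    Group.IsSolvable B := by
  classical
  have : Fact p.Prime := ⟨hp⟩
  suffices hcard : Nat.card B ∣ p ^ 1 * 2 ^ 1 by
    obtain ⟨i, j, hij⟩ := Cfsg.Agent.H4.dvd_prime_pow_mul_prime_pow hp Nat.prime_two hcard
    exact Cfsg.Agent.H4.isSolvable_of_card_eq_prime_pow_mul_prime_pow p 2 i j hp Nat.prime_two hij
  have hperm : Nat.card (Equiv.Perm ι) = p.factorial := by
    rw [Nat.card_eq_fintype_card, Fintype.card_perm, hι]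
  rcases hp.eq_two_or_odd' with rfl | hodd
  · have h1 : Nat.card B ∣ Nat.card (Equiv.Perm ι) := Subgroup.card_subgroup_dvd_card B
    rw [hperm] at h1
    exact h1.trans (by decide)
  have horb : ∀ (H : Subgroup (Equiv.Perm ι)), R ≤ H → ∀ i0 : ι,
      Nat.card (MulAction.stabilizer H i0) * p = Nat.card H := by
    intro H hRH i0
    have h1 := Subgroup.card_mul_index (MulAction.stabilizer H i0)
    rw [MulAction.index_stabilizer] at h1
    have h2 : MulAction.orbit H i0 = Set.univ := by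
      ext j
      simp only [Set.mem_univ, iff_true]
      obtain ⟨g, hg, hgj⟩ := htr i0 j
      exact ⟨⟨g, hRH hg⟩, hgj⟩
    have hcι : Nat.card ι = p := by rw [Nat.card_eq_fintype_card, hι]
    rw [h2, Set.ncard_univ, hcι] at h1
    exact h1
  obtain ⟨i0⟩ : Nonempty ι := by
    rw [← Fintype.card_pos_iff, hι]; exact hp.pos
  have hRcard : Nat.card R = p := by
    obtain ⟨n, hn⟩ := IsPGroup.iff_card.mp hR
    have h1 := horb R le_rfl i0
    have h2 : Nat.card R ∣ p.factorial := hperm ▸ Subgroup.card_subgroup_dvd_card R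
    rw [hn] at h1 h2
    have hn1 : n ≤ 1 := by
      by_contra hcon
      push Not at hcon
      have h3 : p ^ 2 ∣ p.factorial := (pow_dvd_pow p hcon).trans h2
      have h4 : p.factorial = p * (p - 1).factorial := by
        obtain ⟨m, hm⟩ : ∃ m, p = m + 1 := ⟨p - 1, by have := hp.pos; omega⟩
        rw [hm, Nat.factorial_succ, Nat.add_sub_cancel]
      rw [h4, pow_two] at h3
      have h5 : p ∣ (p - 1).factorial := Nat.dvd_of_mul_dvd_mul_left hp.pos h3
      have h6 := (hp.dvd_factorial).mp h5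
      have := hp.pos
      omega
    have hn0 : n ≠ 0 := by
      rintro rfl
      rw [pow_zero] at h1
      have : p ∣ 1 := ⟨_, h1.symm.trans (mul_comm _ _)⟩
      exact hp.one_lt.ne' (Nat.dvd_one.mp this)
    have : n = 1 := by omega
    rw [hn, this, pow_one]
  have hreg : ∀ g ∈ R, ∀ i, g i = i → g = 1 := by
    intro g hg i hgi
    have h1 := horb R le_rfl i
    rw [hRcard] at h1
    have h2 : Nat.card (MulAction.stabilizer R i) = 1 :=
      Nat.eq_of_mul_eq_mul_right hp.pos (by rw [h1, one_mul])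
    have h3 : (⟨g, hg⟩ : R) ∈ MulAction.stabilizer R i := by
      rw [MulAction.mem_stabilizer_iff]; exact hgi
    rw [Subgroup.card_eq_one.mp h2, Subgroup.mem_bot] at h3
    exact congrArg Subtype.val h3
  have hpow : ∀ g ∈ R, g ^ p = 1 := by
    intro g hg
    have h1 : (⟨g, hg⟩ : R) ^ Nat.card R = 1 := pow_card_eq_one'
    rw [hRcard] at h1
    exact congrArg Subtype.val h1
  obtain ⟨m, hm⟩ := hodd
  have hhalf : ∀ g ∈ R, g = (g * g) ^ (m + 1) := by
    intro g hg
    have h1 : g ^ (p + 1) = g := by rw [pow_succ, hpow g hg, one_mul]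
    rw [← pow_two, ← pow_mul]
    have : 2 * (m + 1) = p + 1 := by omega
    rw [this, h1]
  have hsq : ∀ g ∈ R, ∀ h ∈ R, g * g = h * h → g = h := by
    intro g hg h hh hgh
    rw [hhalf g hg, hgh, ← hhalf h hh]
  have fix2 : ∀ σ ∈ B, ∀ i j, i ≠ j → σ i = i → σ j = j → σ = 1 := by
    intro σ hσ i j hij hi hj
    ext k
    rw [Equiv.Perm.one_apply]
    by_contra hk
    have hki : k ≠ i := fun h => hk (h ▸ hi)
    have hkj : k ≠ j := fun h => hk (h ▸ hj)
    obtain ⟨g, hg, hcase⟩ := hstar σ hσ i k hi hki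
    obtain ⟨g', hg', hcase'⟩ := hstar σ hσ j k hj hkj
    rcases hcase with ⟨h1, h2⟩ | ⟨h1, h2⟩
    · rw [hreg g hg i h1] at h2; exact hk h2
    rcases hcase' with ⟨h1', h2'⟩ | ⟨h1', h2'⟩
    · rw [hreg g' hg' j h1'] at h2'; exact hk h2'
    have h3 : (g * g) k = (g' * g') k := by
      simp only [Equiv.Perm.mul_apply]; rw [h1, h1', ← h2, ← h2']
    have h4 : (g' * g')⁻¹ * (g * g) = 1 :=
      hreg _ (R.mul_mem (R.inv_mem (R.mul_mem hg' hg')) (R.mul_mem hg hg)) k
        (by rw [Equiv.Perm.mul_apply, h3]; simp)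
    have h5 : g * g = g' * g' := by rw [inv_mul_eq_one] at h4; exact h4.symm
    have h6 := hsq g hg g' hg' h5
    exact hij (by rw [← h1, ← h1', h6])
  have hS : Nat.card (MulAction.stabilizer B i0) ∣ 2 := by
    apply card_dvd_two_of_unique
    intro a b ha hb
    have hai : a.1.1 i0 = i0 := a.2
    have hbi : b.1.1 i0 = i0 := b.2
    have ha1 : a.1.1 ≠ 1 := fun h => ha (Subtype.ext (Subtype.ext h))
    have hb1 : b.1.1 ≠ 1 := fun h => hb (Subtype.ext (Subtype.ext h))
    apply Subtype.ext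
    apply Subtype.ext
    ext k
    by_cases hk : k = i0
    · rw [hk, hai, hbi]
    have hak : a.1.1 k ≠ k := fun h => ha1 (fix2 _ a.1.2 i0 k (Ne.symm hk) hai h)
    have hbk : b.1.1 k ≠ k := fun h => hb1 (fix2 _ b.1.2 i0 k (Ne.symm hk) hbi h)
    obtain ⟨g, hg, hcase⟩ := hstar _ a.1.2 i0 k hai hk
    obtain ⟨g', hg', hcase'⟩ := hstar _ b.1.2 i0 k hbi hk
    rcases hcase with ⟨h1, h2⟩ | ⟨h1, h2⟩
    · rw [hreg g hg i0 h1] at h2; exact absurd h2 hak
    rcases hcase' with ⟨h1', h2'⟩ | ⟨h1', h2'⟩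
    · rw [hreg g' hg' i0 h1'] at h2'; exact absurd h2' hbk
    have h4 : g'⁻¹ * g = 1 :=
      hreg _ (R.mul_mem (R.inv_mem hg') hg) k
        (by rw [Equiv.Perm.mul_apply, h1, ← h1']; simp)
    have h5 : g' = g := by rw [inv_mul_eq_one] at h4; exact h4
    rw [h2, h2', h5]
  have h1 := horb B hRB i0
  rw [pow_one, pow_one, ← h1, mul_comm]
  exact mul_dvd_mul_left p hS

/-- T5: `p` independent blocks permuted transitively by `P` force solvability. -/
theorem MC.solvable_of_blocks (h : MC p q V A P) {ι : Type} [Fintype ι]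
    (hι : Fintype.card ι = p) (W : ι → Subgroup V) (hne : ∀ i, W i ≠ ⊥)
    (hind : ∀ (f : ι → V), (∀ i, f i ∈ W i) → (∏ i, f i = 1) → ∀ i, f i = 1)
    (hperm : ∀ g ∈ P, ∀ i, ∃ j, (W i).map (g : V ≃* V).toMonoidHom = W j)
    (htrans : ∀ i j, ∃ g ∈ P, (W i).map (g : V ≃* V).toMonoidHom = W j) :
    Group.IsSolvable A := by
  classical
  have hp := h.th.hp
  obtain ⟨hPA, hPp, hPi⟩ := h.syl
  have hnonempty : Nonempty ι := by
    rw [← Fintype.card_pos_iff, hι]; exact hp.pos
  have hdis : ∀ (i j : ι) (x : V), x ∈ W i → x ∈ W j → x ≠ 1 → i = j :=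
    fun i j x hi hj hx => blocks_disjoint W hind hi hj hx
  have hex : ∀ i, ∃ w ∈ W i, w ≠ 1 := by
    intro i
    obtain ⟨⟨w, hw⟩, hw1⟩ := (Subgroup.ne_bot_iff_exists_ne_one).mp (hne i)
    exact ⟨w, hw, fun h => hw1 (Subtype.ext h)⟩
  have hmapP : ∀ g ∈ P, ∀ i j, (W i).map (g : V ≃* V).toMonoidHom = W j →
      ∀ w ∈ W i, g w ∈ W j := by
    intro g _ i j hij w hw
    rw [← hij]
    exact Subgroup.mem_map_of_mem _ hw
  have hfwd : ∀ a ∈ A, ∀ i, ∃ j, ∀ w ∈ W i, a w ∈ W j := by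
    intro a ha i
    have hU : ∀ u ∈ (W i).map (a : V ≃* V).toMonoidHom, ∃ j, u ∈ W j := by
      rintro u ⟨w, hw, rfl⟩
      obtain ⟨g, hg, hgw⟩ := orbit_syl h.th h.syl a ha w
      obtain ⟨j, hj⟩ := hperm g hg i
      refine ⟨j, ?_⟩
      show a w ∈ W j
      rw [hgw]
      exact hmapP g hg i j hj w hw
    obtain ⟨j, hj⟩ := le_of_union W hind _ hU
    exact ⟨j, fun w hw => hj (Subgroup.mem_map_of_mem _ hw)⟩
  have hA : ∀ a ∈ A, ∀ i, ∃ j, ∀ w, w ∈ W i ↔ a w ∈ W j := by
    intro a ha i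
    obtain ⟨j, hj⟩ := hfwd a ha i
    obtain ⟨i', hi'⟩ := hfwd a⁻¹ (A.inv_mem ha) j
    have hii : i = i' := by
      obtain ⟨w, hw, hw1⟩ := hex i
      have h1 := hi' _ (hj w hw)
      rw [MulAut.inv_apply_self] at h1
      exact hdis _ _ w hw h1 hw1
    refine ⟨j, fun w => ⟨hj w, fun hw => ?_⟩⟩
    have h1 := hi' _ hw
    rw [MulAut.inv_apply_self, ← hii] at h1
    exact h1
  let act : MulAction A ι := blkAction W hdis hne hA
  let φ : A →* Equiv.Perm ι := MulAction.toPermHom A ι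
  have hφ : ∀ (a : A) (i : ι) (w : V), w ∈ W i ↔ (a : MulAut V) w ∈ W (φ a i) :=
    fun a i w => blk_spec W hA a i w
  have hφeq : ∀ (a : A) (i j : ι) (w : V), w ∈ W i → w ≠ 1 → (a : MulAut V) w ∈ W j →
      φ a i = j := by
    intro a i j w hw hw1 hj
    refine hdis _ _ _ ((hφ a i w).mp hw) hj ?_
    intro h4
    apply hw1
    have : (a : MulAut V) w = (a : MulAut V) 1 := by rw [h4, map_one]
    exact (MulEquiv.injective _) this
  have hφP : ∀ (g : MulAut V) (hg : g ∈ P) (i j : ι),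
      (W i).map (g : V ≃* V).toMonoidHom = W j → φ ⟨g, hPA hg⟩ i = j := by
    intro g hg i j hij
    obtain ⟨w, hw, hw1⟩ := hex i
    exact hφeq ⟨g, hPA hg⟩ i j w hw hw1 (hmapP g hg i j hij w hw)
  -- the kernel is solvable
  have hker : Group.IsSolvable φ.ker := by
    have hN : Group.IsSolvable (φ.ker.map A.subtype) := by
      apply h.ih
      · refine ⟨?_, ?_⟩
        · rintro _ ⟨k, _, rfl⟩
          exact k.2
        · rintro a ha _ ⟨k, hk, rfl⟩
          refine ⟨⟨a, ha⟩ * k * ⟨a, ha⟩⁻¹, ?_, rfl⟩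
          exact (MonoidHom.normal_ker φ).conj_mem k hk ⟨a, ha⟩
      · intro hcon
        have hp2 := hp.two_le
        obtain ⟨i, j, hij⟩ : ∃ i j : ι, i ≠ j := by
          have : 1 < Fintype.card ι := by omega
          exact Fintype.exists_pair_of_one_lt_card this
        obtain ⟨g, hg, hgij⟩ := htrans i j
        have h1 : g ∈ φ.ker.map A.subtype := by rw [hcon]; exact hPA hg
        obtain ⟨k, hk, hkg⟩ := h1
        have h2 : k = ⟨g, hPA hg⟩ := Subtype.ext hkg
        have h3 := hφP g hg i j hgij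
        rw [← h2, MonoidHom.mem_ker.mp hk] at h3
        exact hij h3
    exact Group.isSolvable_of_isSolvable_injective
      (f := (φ.ker.equivMapOfInjective A.subtype Subtype.val_injective).toMonoidHom)
      (MulEquiv.injective _)
  -- the image is solvable
  have hrange : Group.IsSolvable φ.range := by
    apply perm_solvable hp hι φ.range ((P.subgroupOf A).map φ)
    · rintro _ ⟨a, _, rfl⟩
      exact ⟨a, rfl⟩
    · exact (hPp.comap_subtype).map φ
    · intro i j
      obtain ⟨g, hg, hgij⟩ := htrans i j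
      exact ⟨φ ⟨g, hPA hg⟩, ⟨⟨g, hPA hg⟩, hg, rfl⟩, hφP g hg i j hgij⟩
    · rintro _ ⟨a, rfl⟩ i k hi hki
      obtain ⟨wi, hwi, hwi1⟩ := hex i
      obtain ⟨wk, hwk, hwk1⟩ := hex k
      obtain ⟨g, hg, hgw⟩ := orbit_syl h.th h.syl a.1 a.2 (wi * wk)
      have hne1 : ∀ (b : MulAut V) (w : V), w ≠ 1 → b w ≠ 1 := by
        intro b w hw h4
        apply hw
        have : b w = b 1 := by rw [h4, map_one]
        exact (MulEquiv.injective _) this
      have h1 : (a : MulAut V) wi ∈ W i := by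
        have := (hφ a i wi).mp hwi
        rwa [hi] at this
      have h2 : (a : MulAut V) wk ∈ W (φ a k) := (hφ a k wk).mp hwk
      have h3 : g wi ∈ W (φ ⟨g, hPA hg⟩ i) := (hφ ⟨g, hPA hg⟩ i wi).mp hwi
      have h4 : g wk ∈ W (φ ⟨g, hPA hg⟩ k) := (hφ ⟨g, hPA hg⟩ k wk).mp hwk
      have h5 : i ≠ φ a k := by
        intro h5
        apply hki
        apply (φ a).injective
        rw [hi, ← h5]
      have h6 : (a : MulAut V) wi * (a : MulAut V) wk = g wi * g wk := by
        rw [← map_mul, ← map_mul, hgw]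
      refine ⟨φ ⟨g, hPA hg⟩, ⟨⟨g, hPA hg⟩, hg, rfl⟩, ?_⟩
      rcases ud W hind h5 h1 h2 h3 h4 (hne1 _ _ hwi1) (hne1 _ _ hwk1) h6 with
        ⟨e1, e2⟩ | ⟨e1, e2⟩
      · exact Or.inl ⟨e1.symm, e2⟩
      · exact Or.inr ⟨e1.symm, e2⟩
  exact Group.isSolvable_of_ker_le_range φ.ker.subtype φ.rangeRestrict
    (by rw [MonoidHom.ker_rangeRestrict, Subgroup.range_subtype])

end Cfsg.Agent.H64.Baer
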