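import Mathlib
import Cfsg.Agent.H72.BaerDefs
import Cfsg.Agent.H64.BaerT5

set_option autoImplicit false
set_option linter.unusedSectionVars false

namespace Cfsg.Agent.H64.Baer

open Cfsg.Agent.H72.BaerT

universe u

variable {p q : ℕ} {V : Type u} [CommGroup V] [Finite V] {A P : Subgroup (MulAut V)}

/-- Fixed points of an automorphism. -/
def fixS (b : MulAut V) : Subgroup V where
  carrier := {v | b v = v}
  mul_mem' := by
    intro x y hx hy
    simp only [Set.mem_ofPred_eq] at *
    rw [map_mul, hx, hy]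
  one_mem' := map_one b
  inv_mem' := by
    intro x hx
    simp only [Set.mem_ofPred_eq] at *
    rw [map_inv, hx]

theorem mem_fixS {b : MulAut V} {v : V} : v ∈ fixS b ↔ b v = v := Iff.rfl

theorem map_fixS (g b : MulAut V) :
    (fixS b).map (g : V ≃* V).toMonoidHom = fixS (g * b * g⁻¹) := by
  ext x
  constructor
  · rintro ⟨w, hw, rfl⟩
    show (g * b * g⁻¹) (g w) = g w
    rw [MulAut.mul_apply, MulAut.mul_apply, MulAut.inv_apply_self, (hw : b w = w)]
  · intro hx
    refine ⟨g⁻¹ x, ?_, MulAut.apply_inv_self V g x⟩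
    show b (g⁻¹ x) = g⁻¹ x
    have h1 : (g * b * g⁻¹) x = x := hx
    rw [MulAut.mul_apply, MulAut.mul_apply] at h1
    have h2 := congrArg (g⁻¹ : MulAut V) h1
    rw [MulAut.inv_apply_self] at h2
    exact h2

/-- A nontrivial automorphism centralized by `P` is fixed-point-free (`V` is `P`-irreducible). -/
theorem central_fpf (h : MC p q V A P) (z : MulAut V) (hz1 : z ≠ 1)
    (hzc : ∀ g ∈ P, g * z = z * g) : ∀ v, z v = v → v = 1 := by
  have hinv : Inv P (fixS z) := by
    intro g hg w hw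
    rw [mem_fixS] at hw ⊢
    have h1 : (z * g) w = (g * z) w := by rw [hzc g hg]
    rw [MulAut.mul_apply, MulAut.mul_apply, hw] at h1
    exact h1
  rcases h.irr _ hinv with h1 | h1
  · intro v hv
    have h2 : v ∈ fixS z := hv
    rw [h1, Subgroup.mem_bot] at h2
    exact h2
  · exfalso
    apply hz1
    ext v
    have h2 : v ∈ fixS z := by rw [h1]; exact Subgroup.mem_top v
    exact h2

/-- A nontrivial normal subgroup of a finite `p`-group contains a nontrivial central element. -/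
theorem normal_inf_center {Q : Type*} [Group Q] [Finite Q] {p : ℕ} [Fact p.Prime]
    (hQ : IsPGroup p Q) (N : Subgroup Q) [hN : N.Normal] (hne : N ≠ ⊥) :
    ∃ c ∈ N, c ≠ 1 ∧ ∀ g : Q, g * c = c * g := by
  have hNp : IsPGroup p N := hQ.to_subgroup N
  have hnt : Nontrivial N := (Subgroup.nontrivial_iff_ne_bot N).mpr hne
  have hdvd : p ∣ Nat.card N := by
    obtain ⟨k, hk⟩ := IsPGroup.iff_card.mp hNp
    rw [hk]
    have hk0 : k ≠ 0 := by
      rintro rfl
      rw [pow_zero] at hk
      have := Finite.one_lt_card (α := N)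
      omega
    exact dvd_pow_self p hk0
  have hC : IsPGroup p (ConjAct Q) := hQ
  have h1 : (1 : N) ∈ MulAction.fixedPoints (ConjAct Q) N := fun g => smul_one g
  obtain ⟨b, hb, hb1⟩ := hC.exists_fixed_point_of_prime_dvd_card_of_fixed_point (α := N) hdvd h1
  refine ⟨b, b.2, fun h => hb1 (Subtype.ext h.symm), fun g => ?_⟩
  have h2 := hb (ConjAct.toConjAct g)
  have h3 : g * (b : Q) * g⁻¹ = b := by
    have h4 := congrArg Subtype.val h2
    rw [ConjAct.Subgroup.val_conj_smul, ConjAct.smul_def, ConjAct.ofConjAct_toConjAct] at h4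
    exact h4
  calc g * (b : Q) = (g * (b : Q) * g⁻¹) * g := by group
    _ = (b : Q) * g := by rw [h3]

/-- Subgroup version. -/
theorem exists_central {H : Type*} [Group H] [Finite H] {p : ℕ} [Fact p.Prime] (S N : Subgroup H)
    (hS : IsPGroup p S) (hN : N ≤ S) (hnorm : ∀ g ∈ S, ∀ x ∈ N, g * x * g⁻¹ ∈ N)
    (hne : N ≠ ⊥) : ∃ c ∈ N, c ≠ 1 ∧ ∀ g ∈ S, g * c = c * g := by
  have hn : (N.subgroupOf S).Normal := ⟨fun x hx g => by
    rw [Subgroup.mem_subgroupOf] at hx ⊢
    exact hnorm g.1 g.2 x.1 hx⟩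
  have hne' : N.subgroupOf S ≠ ⊥ := by
    intro hb
    apply hne
    rw [eq_bot_iff]
    intro x hx
    have h1 : (⟨x, hN hx⟩ : S) ∈ N.subgroupOf S := Subgroup.mem_subgroupOf.mpr hx
    rw [hb, Subgroup.mem_bot] at h1
    exact congrArg Subtype.val h1
  obtain ⟨c, hc, hc1, hcc⟩ := normal_inf_center hS (N.subgroupOf S) hne'
  exact ⟨c.1, Subgroup.mem_subgroupOf.mp hc, fun h => hc1 (Subtype.ext h),
    fun g hg => congrArg Subtype.val (hcc ⟨g, hg⟩)⟩

/-- An element of `N` outside `⟨z⟩` which is central modulo `⟨z⟩`. -/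
theorem exists_second_central {H : Type*} [Group H] [Finite H] {p : ℕ} [Fact p.Prime]
    (S N : Subgroup H) (hS : IsPGroup p S) (hN : N ≤ S)
    (hnorm : ∀ g ∈ S, ∀ x ∈ N, g * x * g⁻¹ ∈ N)
    (z : H) (hzS : z ∈ S) (hzc : ∀ g ∈ S, g * z = z * g) (hlt : ¬ N ≤ Subgroup.zpowers z) :
    ∃ e ∈ N, e ∉ Subgroup.zpowers z ∧ ∀ g ∈ S, g * e * g⁻¹ * e⁻¹ ∈ Subgroup.zpowers z := by
  let z' : S := ⟨z, hzS⟩
  let Z : Subgroup S := Subgroup.zpowers z'
  have hval : ∀ x : S, x ∈ Z ↔ x.1 ∈ Subgroup.zpowers z := by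
    intro x
    constructor
    · intro hx
      obtain ⟨k, hk⟩ := Subgroup.mem_zpowers_iff.mp hx
      refine Subgroup.mem_zpowers_iff.mpr ⟨k, ?_⟩
      have := congrArg Subtype.val hk
      simpa [z'] using this
    · intro hx
      obtain ⟨k, hk⟩ := Subgroup.mem_zpowers_iff.mp hx
      refine Subgroup.mem_zpowers_iff.mpr ⟨k, Subtype.ext ?_⟩
      simpa [z'] using hk
  have hZn : Z.Normal := by
    refine ⟨fun x hx g => ?_⟩
    have h1 : g * x * g⁻¹ = x := by
      obtain ⟨k, rfl⟩ := Subgroup.mem_zpowers_iff.mp hx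
      have hc : Commute g z' := Subtype.ext (hzc g.1 g.2)
      rw [(hc.zpow_right k).eq, mul_inv_cancel_right]
    rw [h1]
    exact hx
  let N' : Subgroup S := N.subgroupOf S
  have hN'n : N'.Normal := ⟨fun x hx g => by
    rw [Subgroup.mem_subgroupOf] at hx ⊢
    exact hnorm g.1 g.2 x.1 hx⟩
  let π := QuotientGroup.mk' Z
  let Nbar : Subgroup (S ⧸ Z) := N'.map π
  have hNbn : Nbar.Normal := Subgroup.Normal.map hN'n π (QuotientGroup.mk'_surjective Z)
  have hQ : IsPGroup p (S ⧸ Z) := hS.to_quotient Z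
  have hne : Nbar ≠ ⊥ := by
    intro hbot
    apply hlt
    intro x hx
    have h1 : π ⟨x, hN hx⟩ ∈ Nbar :=
      Subgroup.mem_map_of_mem π (Subgroup.mem_subgroupOf.mpr hx)
    rw [hbot, Subgroup.mem_bot, QuotientGroup.mk'_apply, QuotientGroup.eq_one_iff] at h1
    exact (hval _).mp h1
  obtain ⟨c, hcN, hc1, hcc⟩ := normal_inf_center hQ Nbar hne
  obtain ⟨x, hxN, rfl⟩ := hcN
  refine ⟨x.1, Subgroup.mem_subgroupOf.mp hxN, ?_, ?_⟩
  · intro hx
    apply hc1
    rw [QuotientGroup.mk'_apply, QuotientGroup.eq_one_iff]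
    exact (hval _).mpr hx
  · intro g hg
    have h1 := hcc (π ⟨g, hg⟩)
    have h2 : π (⟨g, hg⟩ * x * ⟨g, hg⟩⁻¹ * x⁻¹) = 1 := by
      rw [map_mul, map_mul, map_mul, map_inv, map_inv, h1]
      group
    rw [QuotientGroup.mk'_apply, QuotientGroup.eq_one_iff] at h2
    exact (hval _).mp h2

/-- The norm product over a cyclic group of automorphisms is fixed. -/
theorem normProd_fixed (y : MulAut V) (n : ℕ) (hy : y ^ n = 1) (v : V) :
    y (∏ k ∈ Finset.range n, (y ^ k) v) = ∏ k ∈ Finset.range n, (y ^ k) v := by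
  rw [map_prod]
  have h1 : ∀ k, y ((y ^ k) v) = (y ^ (k + 1)) v := by
    intro k
    rw [pow_succ', MulAut.mul_apply]
  simp only [h1]
  have h2 := Finset.prod_range_succ (fun k => (y ^ k) v) n
  have h3 := Finset.prod_range_succ' (fun k => (y ^ k) v) n
  rw [h2] at h3
  simp only [hy, pow_zero] at h3
  exact (mul_right_cancel h3).symm

/-- T6: a normal elementary abelian subgroup of order `p²` of `P` forces solvability. -/
theorem MC.solvable_of_elem (h : MC p q V A P) (E : Subgroup (MulAut V)) (hE : NormalIn E P)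
    (hcard : Nat.card E = p ^ 2) (hexp : ∀ e ∈ E, e ^ p = 1) : Group.IsSolvable A := by
  classical
  have hp := h.th.hp
  have : Fact p.Prime := ⟨hp⟩
  obtain ⟨hPA, hPp, hPi⟩ := h.syl
  obtain ⟨hEP, hnorm⟩ := hE
  have hpA : p ∣ Nat.card A := by
    have h1 : Nat.card E ∣ Nat.card A := Subgroup.card_dvd_of_le (hEP.trans hPA)
    rw [hcard] at h1
    exact (dvd_pow_self p two_ne_zero).trans h1
  have hpq : p ≠ q := by
    rintro rfl
    have h1 := Nat.dvd_gcd hpA (dvd_refl p)
    rw [Nat.Coprime.gcd_eq_one h.th.hA] at h1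
    exact hp.one_lt.ne' (Nat.dvd_one.mp h1)
  have hVp : ∀ v : V, v ^ p = 1 → v = 1 := by
    intro v hv
    obtain ⟨k, hk⟩ := h.th.hV v
    have h1 : orderOf v ∣ p := orderOf_dvd_of_pow_eq_one hv
    have h2 : orderOf v ∣ q ^ k := orderOf_dvd_of_pow_eq_one hk
    have h3 : Nat.Coprime p (q ^ k) :=
      Nat.Coprime.pow_right k ((Nat.coprime_primes hp h.th.hq).mpr hpq)
    have h4 : orderOf v ∣ 1 := by
      rw [← Nat.Coprime.gcd_eq_one h3]
      exact Nat.dvd_gcd h1 h2
    exact orderOf_eq_one_iff.mp (Nat.dvd_one.mp h4)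
  have hpp : p < p ^ 2 := by
    have := hp.one_lt
    nlinarith
  have hEne : E ≠ ⊥ := by
    intro hb
    rw [hb, Subgroup.card_bot] at hcard
    have := hp.one_lt
    omega
  obtain ⟨z, hzE, hz1, hzc⟩ := exists_central P E hPp hEP hnorm hEne
  have hzP : z ∈ P := hEP hzE
  have hzp : z ^ p = 1 := hexp z hzE
  have hzcc : ∀ g ∈ P, Commute g z := hzc
  have hzd : ∀ d, 0 < d → d < p → ∀ v, (z ^ d) v = v → v = 1 := by
    intro d hd0 hdp
    apply central_fpf h (z ^ d)
    · intro hcon
      apply hz1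
      have h1 : orderOf z ∣ d := orderOf_dvd_of_pow_eq_one hcon
      have h2 : orderOf z ∣ p := orderOf_dvd_of_pow_eq_one hzp
      rcases (Nat.dvd_prime hp).mp h2 with h3 | h3
      · exact orderOf_eq_one_iff.mp h3
      · rw [h3] at h1
        have := Nat.le_of_dvd hd0 h1
        omega
    · intro g hg
      exact ((hzcc g hg).pow_right d).eq
  have hlt : ¬ E ≤ Subgroup.zpowers z := by
    intro hle
    have h1 : Nat.card E ≤ Nat.card (Subgroup.zpowers z) :=
      Nat.card_le_card_of_injective (Subgroup.inclusion hle) (Subgroup.inclusion_injective hle)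
    rw [hcard, Nat.card_zpowers] at h1
    have h2 : orderOf z ≤ p := Nat.le_of_dvd hp.pos (orderOf_dvd_of_pow_eq_one hzp)
    omega
  obtain ⟨e, heE, heZ, hec⟩ := exists_second_central P E hPp hEP hnorm z hzP hzc hlt
  have heP : e ∈ P := hEP heE
  have hep : e ^ p = 1 := hexp e heE
  have hez : Commute e z := hzc e heP
  have hconj : ∀ g ∈ P, ∃ c : ℕ, g * e * g⁻¹ = e * z ^ c := by
    intro g hg
    obtain ⟨k, hk⟩ := Subgroup.mem_zpowers_iff.mp (hec g hg)
    refine ⟨(k % (p : ℤ)).toNat, ?_⟩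
    have h1 : z ^ k = z ^ (k % (p : ℤ)) := zpow_eq_zpow_emod' k hzp
    have h2 : (0 : ℤ) ≤ k % (p : ℤ) := Int.emod_nonneg _ (by exact_mod_cast hp.ne_zero)
    have h3 : z ^ (k % (p : ℤ)) = z ^ (k % (p : ℤ)).toNat := by
      conv_lhs => rw [← Int.toNat_of_nonneg h2]
      rw [zpow_natCast]
    have h4 : Commute e (z ^ k) := hez.zpow_right k
    rw [← h3, ← h1, hk]
    rw [hk] at h4
    rw [h4.eq]
    group
  let b : ℕ → MulAut V := fun k => e * z ^ k
  have hbP : ∀ k, b k ∈ P := fun k => P.mul_mem heP (P.pow_mem hzP k)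
  have hbp : ∀ k, b k ^ p = 1 := by
    intro k
    show (e * z ^ k) ^ p = 1
    rw [(hez.pow_right k).mul_pow, hep, one_mul, ← pow_mul, mul_comm, pow_mul, hzp, one_pow]
  have hbmod : ∀ k, b k = b (k % p) := by
    intro k
    show e * z ^ k = e * z ^ (k % p)
    congr 1
    conv_lhs => rw [← Nat.mod_add_div k p]
    rw [pow_add, pow_mul, hzp, one_pow, mul_one]
  have hb1 : ∀ k, b k ≠ 1 := by
    intro k hk
    apply heZ
    have h1 : e = (z ^ k)⁻¹ := eq_inv_of_mul_eq_one_left hk
    rw [h1]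
    exact (Subgroup.zpowers z).inv_mem (Subgroup.pow_mem _ (Subgroup.mem_zpowers z) k)
  have hbcomm : ∀ j k, Commute (b k) (b j) := by
    intro j k
    show Commute (e * z ^ k) (e * z ^ j)
    exact Commute.mul_left ((Commute.refl e).mul_right (hez.pow_right j))
      ((hez.symm.pow_left k).mul_right ((Commute.refl z).pow_pow k j))
  let Wn : ℕ → Subgroup V := fun k => fixS (b k)
  have hWmod : ∀ k, Wn k = Wn (k % p) := fun k => by
    show fixS (b k) = fixS (b (k % p))
    rw [← hbmod]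
  have hmove : ∀ g ∈ P, ∀ c : ℕ, g * e * g⁻¹ = e * z ^ c → ∀ k,
      (Wn k).map (g : V ≃* V).toMonoidHom = Wn (c + k) := by
    intro g hg c hc k
    have h1 : g * b k * g⁻¹ = b (c + k) := by
      show g * (e * z ^ k) * g⁻¹ = e * z ^ (c + k)
      have h2 : g * z ^ k = z ^ k * g := ((hzcc g hg).pow_right k).eq
      calc g * (e * z ^ k) * g⁻¹ = (g * e * g⁻¹) * (g * z ^ k) * g⁻¹ := by group
        _ = e * z ^ c * (z ^ k * g) * g⁻¹ := by rw [hc, h2]
        _ = e * z ^ (c + k) := by rw [pow_add]; simp [mul_assoc]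
    show (fixS (b k)).map (g : V ≃* V).toMonoidHom = fixS (b (c + k))
    rw [map_fixS, h1]
  let W : Fin p → Subgroup V := fun i => Wn i.val
  have hnorm_fix : ∀ k v, ∏ i ∈ Finset.range p, (b k ^ i) v ∈ Wn k :=
    fun k v => normProd_fixed (b k) p (hbp k) v
  have hD : ∀ v : V, ∏ k ∈ Finset.range p, ∏ i ∈ Finset.range p, (b k ^ i) v = v ^ p := by
    intro v
    rw [Finset.prod_comm]
    rw [Finset.prod_eq_single 0]
    · simp
    · intro i hi hi0
      have hip : i < p := Finset.mem_range.mp hi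
      have h1 : ∀ k, (b k ^ i) v = (e ^ i) (((z ^ i) ^ k) v) := by
        intro k
        show ((e * z ^ k) ^ i) v = _
        rw [(hez.pow_right k).mul_pow, MulAut.mul_apply, ← pow_mul, ← pow_mul, mul_comm k i]
      simp only [h1]
      rw [← map_prod]
      have h2 : ∏ k ∈ Finset.range p, ((z ^ i) ^ k) v = 1 := by
        apply hzd i (Nat.pos_of_ne_zero hi0) hip
        apply normProd_fixed
        rw [← pow_mul, mul_comm, pow_mul, hzp, one_pow]
      rw [h2, map_one]
    · intro h0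
      exact absurd (Finset.mem_range.mpr hp.pos) h0
  obtain ⟨k0, hk0p, hk0⟩ : ∃ k0, k0 < p ∧ Wn k0 ≠ ⊥ := by
    by_contra hcon
    push Not at hcon
    apply hz1
    have hV : ∀ v : V, v = 1 := by
      intro v
      apply hVp
      rw [← hD v]
      apply Finset.prod_eq_one
      intro k hk
      have h1 := hnorm_fix k v
      rw [hcon k (Finset.mem_range.mp hk), Subgroup.mem_bot] at h1
      exact h1
    ext v
    rw [hV (z v), hV ((1 : MulAut V) v)]
  obtain ⟨g0, hg0, c0, hc0, hpc0⟩ : ∃ g0 ∈ P, ∃ c0 : ℕ, g0 * e * g0⁻¹ = e * z ^ c0 ∧ ¬ p ∣ c0 := by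
    by_contra hcon
    push Not at hcon
    apply hk0
    have hcen : ∀ g ∈ P, g * b k0 = b k0 * g := by
      intro g hg
      obtain ⟨c, hc⟩ := hconj g hg
      obtain ⟨m, hm⟩ := hcon g hg c hc
      have h1 : g * e * g⁻¹ = e := by rw [hc, hm, pow_mul, hzp, one_pow, mul_one]
      have h2 : g * e = e * g := by
        calc g * e = (g * e * g⁻¹) * g := by group
          _ = e * g := by rw [h1]
      show g * (e * z ^ k0) = e * z ^ k0 * g
      rw [← mul_assoc, h2, mul_assoc, ((hzcc g hg).pow_right k0).eq, mul_assoc]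
    rw [eq_bot_iff]
    intro v hv
    exact central_fpf h (b k0) (hb1 k0) hcen v hv
  have hpow : ∀ t : ℕ, g0 ^ t * e * (g0 ^ t)⁻¹ = e * z ^ (t * c0) := by
    intro t
    induction t with
    | zero => simp
    | succ t ih =>
      have hz' : g0 * z ^ (t * c0) = z ^ (t * c0) * g0 :=
        ((hzcc g0 hg0).pow_right _).eq
      calc g0 ^ (t + 1) * e * (g0 ^ (t + 1))⁻¹
          = g0 * (g0 ^ t * e * (g0 ^ t)⁻¹) * g0⁻¹ := by rw [pow_succ']; group
        _ = g0 * (e * z ^ (t * c0)) * g0⁻¹ := by rw [ih]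
        _ = (g0 * e * g0⁻¹) * (g0 * z ^ (t * c0)) * g0⁻¹ := by group
        _ = e * z ^ c0 * (z ^ (t * c0) * g0) * g0⁻¹ := by rw [hc0, hz']
        _ = e * z ^ ((t + 1) * c0) := by
          rw [show (t + 1) * c0 = c0 + t * c0 by ring, pow_add]
          simp [mul_assoc]
  have hg0t : ∀ t, g0 ^ t ∈ P := fun t => P.pow_mem hg0 t
  have htr : ∀ i j : ℕ, i < p → j < p →
      ∃ g ∈ P, (Wn i).map (g : V ≃* V).toMonoidHom = Wn j := by
    intro i j hi hj
    have hcop : Nat.Coprime c0 p :=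
      Nat.Coprime.symm ((Nat.Prime.coprime_iff_not_dvd hp).mpr hpc0)
    obtain ⟨u, -, hu⟩ := Nat.exists_mul_mod_eq_one_of_coprime hcop hp.one_lt
    refine ⟨g0 ^ (u * (j + p - i)), hg0t _, ?_⟩
    rw [hmove _ (hg0t _) _ (hpow _) i, hWmod (u * (j + p - i) * c0 + i), hWmod j]
    congr 1
    have h1 : (c0 * u) % p = 1 % p := by rw [hu, Nat.mod_eq_of_lt hp.one_lt]
    have h2 : u * (j + p - i) * c0 = (c0 * u) * (j + p - i) := by ring
    rw [h2]
    have h3 : ((c0 * u) * (j + p - i) + i) ≡ (1 * (j + p - i) + i) [MOD p] :=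
      Nat.ModEq.add_right _ (Nat.ModEq.mul_right _ h1)
    have h4 : 1 * (j + p - i) + i = j + p := by omega
    rw [h4] at h3
    exact h3.trans (Nat.add_mod_right j p)
  have hne : ∀ i : Fin p, W i ≠ ⊥ := by
    intro i
    obtain ⟨g, hg, hgm⟩ := htr k0 i.val hk0p i.isLt
    intro hbot
    apply hk0
    have h1 : (Wn k0).map (g : V ≃* V).toMonoidHom = ⊥ := by rw [hgm]; exact hbot
    exact (Subgroup.map_eq_bot_iff_of_injective _ (MulEquiv.injective g)).mp h1
  have hind : ∀ (f : Fin p → V), (∀ i, f i ∈ W i) → (∏ i, f i = 1) → ∀ i, f i = 1 := by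
    intro f hf hprod j
    apply hVp
    let N : V →* V := ∏ i ∈ Finset.range p, ((b j.val ^ i : MulAut V) : V ≃* V).toMonoidHom
    have hN : ∀ v, N v = ∏ i ∈ Finset.range p, (b j.val ^ i) v := by
      intro v
      simp only [N, MonoidHom.finsetProd_apply]
      rfl
    have h1 : N (∏ k, f k) = 1 := by rw [hprod, map_one]
    rw [map_prod] at h1
    rw [Finset.prod_eq_single j] at h1
    · rw [hN] at h1
      have h2 : ∀ i, (b j.val ^ i) (f j) = f j := by
        intro i
        induction i with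
        | zero => simp
        | succ i ih => rw [pow_succ, MulAut.mul_apply, (hf j : b j.val (f j) = f j), ih]
      simp only [h2, Finset.prod_const, Finset.card_range] at h1
      exact h1
    · intro k _ hkj
      have hu1 : b j.val (N (f k)) = N (f k) := by
        rw [hN]
        exact normProd_fixed (b j.val) p (hbp _) (f k)
      have hu2 : b k.val (N (f k)) = N (f k) := by
        rw [hN, map_prod]
        apply Finset.prod_congr rfl
        intro i _
        have hcomm : Commute (b k.val) (b j.val ^ i) := (hbcomm j.val k.val).pow_right i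
        have h3 : (b k.val) ((b j.val ^ i) (f k)) = (b j.val ^ i) ((b k.val) (f k)) :=
          DFunLike.congr_fun hcomm.eq (f k)
        rw [h3, (hf k : b k.val (f k) = f k)]
      have hkj' : k.val ≠ j.val := fun hh => hkj (Fin.ext hh)
      rcases Nat.lt_or_gt_of_ne hkj' with hlt' | hgt'
      · have h3 : b j.val = b k.val * z ^ (j.val - k.val) := by
          show e * z ^ j.val = e * z ^ k.val * z ^ (j.val - k.val)
          rw [mul_assoc, ← pow_add]
          congr 2
          omega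
        rw [h3, MulAut.mul_apply] at hu1
        have h4 : (z ^ (j.val - k.val)) (N (f k)) = N (f k) := by
          apply (MulEquiv.injective (b k.val))
          rw [hu1, hu2]
        exact hzd _ (by omega) (by have := j.isLt; omega) _ h4
      · have h3 : b k.val = b j.val * z ^ (k.val - j.val) := by
          show e * z ^ k.val = e * z ^ j.val * z ^ (k.val - j.val)
          rw [mul_assoc, ← pow_add]
          congr 2
          omega
        rw [h3, MulAut.mul_apply] at hu2
        have h4 : (z ^ (k.val - j.val)) (N (f k)) = N (f k) := by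
          apply (MulEquiv.injective (b j.val))
          rw [hu2, hu1]
        exact hzd _ (by omega) (by have := k.isLt; omega) _ h4
    · intro hj
      exact absurd (Finset.mem_univ j) hj
  refine MC.solvable_of_blocks h (ι := Fin p) (Fintype.card_fin p) W hne hind ?_ ?_
  · intro g hg i
    obtain ⟨c, hc⟩ := hconj g hg
    refine ⟨⟨(c + i.val) % p, Nat.mod_lt _ hp.pos⟩, ?_⟩
    show (Wn i.val).map _ = Wn ((c + i.val) % p)
    rw [hmove g hg c hc i.val, ← hWmod]
  · intro i j
    exact htr i.val j.val i.isLt j.isLt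

end Cfsg.Agent.H64.Baer
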