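import Mathlib
import Cfsg.Agent.H2.CensusStmts
import Cfsg.Agent.H11.SmallSimple
import Cfsg.Agent.H64.M11TI

/-!
# S0983-D1 (helper64 for helper2): thick lines in a simple group of order 5400
-/

set_option autoImplicit false
set_option linter.style.haveILetI false

namespace Cfsg.Agent.H64.Census

open Cfsg Cfsg.Agent.H2.Census Subgroup

universe u

/-- **S0983-D1**. -/
theorem thick5400 (hA : StmtSylowThrough.{u}) (hB : StmtUniqueSylow5.{u}) :
    StmtThick5400.{u} := by
  intro G _ _ _ hG P L hLP hL5 R hRP hLR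
  haveI : Fact (Nat.Prime 5) := ⟨by norm_num⟩
  have h25 : ∀ Q : Sylow 5 G, Nat.card (Q : Subgroup G) = 5 ^ 2 := fun Q =>
    Cfsg.Agent.H64.M11.card_sylow_eq Q 2 216 (by rw [hG]; norm_num) (by norm_num)
  have hcomm : IsMulCommutative ↥(P : Subgroup G) :=
    IsPGroup.isMulCommutative_of_card_eq_prime_sq (h25 P)
  have hle : ∀ Q : Sylow 5 G, L ≤ (Q : Subgroup G) →
      (Q : Subgroup G) ≤ centralizer (L : Set G) := by
    intro Q hLQ y hy
    rw [Subgroup.mem_centralizer_iff]
    intro l hl
    exact Cfsg.Agent.H64.M11.comm_of_card_sq (Q : Subgroup G) (h25 Q) (hLQ hl) hy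
  have hPC := hle P hLP
  have hRC := hle R hLR
  obtain ⟨hs5, hsm⟩ := hA G 5 P hcomm L hLP
  -- `s ≥ 2`
  have hs2 : 1 < Set.ncard {R' : Sylow 5 G | L ≤ (R' : Subgroup G)} := by
    rw [Set.one_lt_ncard_iff (Set.toFinite _)]
    exact ⟨P, R, hLP, hLR, fun h => hRP h.symm⟩
  -- `25 ∣ |N(P) ⊓ C|`
  have h25dvd : 25 ∣ Nat.card ↥(normalizer ((P : Subgroup G) : Set G) ⊓
      centralizer (L : Set G)) := by
    have h1 : (P : Subgroup G) ≤ normalizer ((P : Subgroup G) : Set G) ⊓
        centralizer (L : Set G) := le_inf Subgroup.le_normalizer hPC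
    have h2 := Subgroup.card_dvd_of_le h1
    rw [h25 P] at h2
    simpa using h2
  -- the normalizer of `L`
  have hNL : normalizer (L : Set G) ≠ ⊤ := by
    intro h
    rw [Subgroup.normalizer_eq_top_iff] at h
    rcases h.eq_bot_or_eq_top with h1 | h1
    · rw [h1, Subgroup.card_bot] at hL5
      omega
    · rw [h1, Subgroup.card_top, hG] at hL5
      omega
  have hfact := Cfsg.Agent.H11.card_dvd_factorial_index (normalizer (L : Set G)) hNL
  rw [hG] at hfact
  have hidx := Subgroup.card_mul_index (normalizer (L : Set G))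
  rw [hG] at hidx
  have hidx10 : 10 ≤ (normalizer (L : Set G)).index := by
    by_contra hlt
    push Not at hlt
    have h1 : (normalizer (L : Set G)).index.factorial ∣ Nat.factorial 9 :=
      Nat.factorial_dvd_factorial (by omega)
    have h2 : 5400 ∣ Nat.factorial 9 := hfact.trans h1
    revert h2
    decide
  have hCN : centralizer (L : Set G) ≤ normalizer (L : Set G) :=
    Subgroup.centralizer_le_normalizer _
  have hCdvd : Nat.card ↥(centralizer (L : Set G)) ∣ Nat.card ↥(normalizer (L : Set G)) :=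
    Subgroup.card_dvd_of_le hCN
  have hC5400 : Nat.card ↥(centralizer (L : Set G)) ∣ 5400 := by
    rw [← hG]
    exact Subgroup.card_subgroup_dvd_card _
  have hNpos : 0 < Nat.card ↥(normalizer (L : Set G)) := Nat.card_pos
  have hCpos : 0 < Nat.card ↥(centralizer (L : Set G)) := Nat.card_pos
  have hN540 : Nat.card ↥(normalizer (L : Set G)) ≤ 540 := by nlinarith
  have hC540 : Nat.card ↥(centralizer (L : Set G)) ≤ 540 :=
    (Nat.le_of_dvd hNpos hCdvd).trans hN540
  obtain ⟨w, hw⟩ := h25dvd
  -- arithmetic: `s = 6`, `w ∈ {1, 2, 3}`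
  generalize hsdef : Set.ncard {R' : Sylow 5 G | L ≤ (R' : Subgroup G)} = s at hs5 hsm hs2 ⊢
  rw [hw] at hsm
  have hwpos : 0 < w := by
    rcases Nat.eq_zero_or_pos w with h0 | h0
    · rw [h0] at hsm
      omega
    · exact h0
  have hs21 : s ≤ 21 := by nlinarith
  have hw21 : w ≤ 21 := by nlinarith
  have hs6 : s = 6 := by
    have hcases : s = 6 ∨ s = 11 ∨ s = 16 ∨ s = 21 := by omega
    rcases hcases with h | h | h | h
    · exact h
    · exfalso
      rw [h] at hsm
      rw [← hsm] at hC5400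
      have : 11 ∣ 5400 := Dvd.dvd.trans (Dvd.intro _ rfl) hC5400
      omega
    · exfalso
      rw [h] at hsm
      rw [← hsm] at hC5400
      have : 400 ∣ 5400 := Dvd.dvd.trans (Dvd.intro w (by ring)) hC5400
      omega
    · exfalso
      rw [h] at hsm
      rw [← hsm] at hC5400
      have : 7 ∣ 5400 := Dvd.dvd.trans (Dvd.intro (3 * (25 * w)) (by ring)) hC5400
      omega
  subst hs6
  have hw3 : w = 1 ∨ w = 2 ∨ w = 3 := by omega
  have huniq : Nat.card ↥(centralizer (L : Set G)) = 150 ∨
      Nat.card ↥(centralizer (L : Set G)) = 450 → False := by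
    intro hcard
    have h1 := hB ↥(centralizer (L : Set G)) hcard (P.subtype hPC) (R.subtype hRC)
    have h2 : ((P.subtype hPC : Sylow 5 ↥(centralizer (L : Set G))) :
        Subgroup ↥(centralizer (L : Set G))) = (R.subtype hRC : Sylow 5 _) := by rw [h1]
    rw [Sylow.coe_subtype, Sylow.coe_subtype] at h2
    have h3 := congrArg (Subgroup.map (centralizer (L : Set G)).subtype) h2
    rw [Subgroup.map_subgroupOf_eq_of_le hPC, Subgroup.map_subgroupOf_eq_of_le hRC] at h3
    exact hRP (Sylow.ext h3).symm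
  rcases hw3 with rfl | rfl | rfl
  · exact absurd (Or.inl hsm.symm) (fun h => huniq h)
  · refine ⟨rfl, ?_⟩
    have hC300 : Nat.card ↥(centralizer (L : Set G)) = 300 := hsm.symm
    have hNC : centralizer (L : Set G) = normalizer (L : Set G) := by
      apply Subgroup.eq_of_le_of_card_ge hCN
      rw [hC300] at hCdvd ⊢
      obtain ⟨k, hk⟩ := hCdvd
      have : k = 1 := by omega
      omega
    rw [← hNC, hw]
  · exact absurd (Or.inr hsm.symm) (fun h => huniq h)

example (hA : StmtSylowThrough.{u}) (hB : StmtUniqueSylow5.{u}) : StmtThick5400.{u} :=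
  thick5400 hA hB

end Cfsg.Agent.H64.Census
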