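import Cfsg.Agent.H64.Lamp

set_option autoImplicit false

namespace Cfsg.Agent.H64

open Function

namespace Lamp

variable {p q : ℕ}

/-- The base group: elements of `Lamp.sub p q`. -/
theorem sub_orders [Fact p.Prime] [Fact q.Prime] (a : ↥(Lamp.sub p q)) :
    orderOf a = 1 ∨ orderOf a = p ∨ orderOf a = q := by
  have : NeZero p := ⟨(Fact.out : p.Prime).ne_zero⟩
  by_cases hi : (a : Lamp p q).i = 0
  · have h1 : a ^ p = 1 := Subtype.ext (by simpa using pow_p_eq_one (a : Lamp p q) hi)
    have h2 := orderOf_dvd_of_pow_eq_one h1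
    rcases (Nat.dvd_prime (Fact.out : p.Prime)).mp h2 with h | h
    · exact Or.inl h
    · exact Or.inr (Or.inl h)
  · have h1 : a ^ q = 1 := Subtype.ext (by simpa using pow_q_eq_one (a : Lamp p q) a.2 hi)
    have h2 := orderOf_dvd_of_pow_eq_one h1
    rcases (Nat.dvd_prime (Fact.out : q.Prime)).mp h2 with h | h
    · exact Or.inl h
    · exact Or.inr (Or.inr h)

theorem sub_exists_p [Fact p.Prime] [Fact q.Prime] : ∃ a : ↥(Lamp.sub p q), orderOf a = p := by
  have : NeZero p := ⟨(Fact.out : p.Prime).ne_zero⟩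
  have : Nontrivial (ZMod q) := ZMod.nontrivial_iff.mpr (Fact.out : q.Prime).ne_one
  have : Nontrivial (ZMod p) := ZMod.nontrivial_iff.mpr (Fact.out : p.Prime).ne_one
  let a0 : Lamp p q := ⟨Pi.single 0 1 - Pi.single 1 1, 0⟩
  have hmem : a0 ∈ Lamp.sub p q := by
    rw [mem_sub]
    simp [a0, Finset.sum_sub_distrib]
  refine ⟨⟨a0, hmem⟩, ?_⟩
  apply orderOf_eq_prime
  · exact Subtype.ext (by simpa using pow_p_eq_one a0 rfl)
  · intro h
    have h1 : a0.v 0 = 0 := by
      have := congrArg (fun x : ↥(Lamp.sub p q) => (x : Lamp p q).v 0) h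
      simpa using this
    simp [a0] at h1

theorem sub_exists_q [Fact p.Prime] [Fact q.Prime] : ∃ a : ↥(Lamp.sub p q), orderOf a = q := by
  have : Nontrivial (ZMod q) := ZMod.nontrivial_iff.mpr (Fact.out : q.Prime).ne_one
  let b0 : Lamp p q := ⟨0, 1⟩
  have hmem : b0 ∈ Lamp.sub p q := by
    rw [mem_sub]
    simp [b0]
  refine ⟨⟨b0, hmem⟩, ?_⟩
  apply orderOf_eq_prime
  · exact Subtype.ext (by simpa using pow_q_eq_one b0 hmem (by simp [b0]))
  · intro h
    have h1 : b0.i = 0 := by
      have := congrArg (fun x : ↥(Lamp.sub p q) => (x : Lamp p q).i) h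
      simpa using this
    simp [b0] at h1

theorem sub_normP [Fact p.Prime] [Fact q.Prime] (hpq : p ≠ q) (x y : ↥(Lamp.sub p q))
    (hx : x ^ p = 1) (hy : y ^ p = 1) : (x * y) ^ p = 1 := by
  have : NeZero p := ⟨(Fact.out : p.Prime).ne_zero⟩
  have hx' : (x : Lamp p q).i = 0 := i_eq_zero_of_pow_p hpq _ (by simpa using congrArg Subtype.val hx)
  have hy' : (y : Lamp p q).i = 0 := i_eq_zero_of_pow_p hpq _ (by simpa using congrArg Subtype.val hy)
  apply Subtype.ext
  have := pow_p_eq_one ((x : Lamp p q) * (y : Lamp p q)) (by simp [hx', hy'])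
  simpa using this

end Lamp

/-- A finite group critical for `{1, P, Q}` whose `P`-elements are closed under
multiplication. -/
structure CritGroup (P Q : ℕ) where
  carrier : Type
  [grp : Group carrier]
  [fin : Finite carrier]
  orders : ∀ z : carrier, orderOf z = 1 ∨ orderOf z = P ∨ orderOf z = Q
  exP : ∃ z : carrier, orderOf z = P
  exQ : ∃ z : carrier, orderOf z = Q
  normP : ∀ x y : carrier, x ^ P = 1 → y ^ P = 1 → (x * y) ^ P = 1
  crit : ∀ (W : Type) [Group W] (K : Subgroup carrier) (g : ↥K →* W), Function.Surjective g →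
    (∃ w : W, orderOf w = P) → (∃ w : W, orderOf w = Q) → K = ⊤ ∧ Function.Injective g

attribute [instance] CritGroup.grp CritGroup.fin

/-- `n` is the order of a section of `X` having elements of orders `P` and `Q`. -/
def IsSecCard (X : Type) [Group X] (P Q n : ℕ) : Prop :=
  ∃ (Z : Type) (_ : Group Z) (H : Subgroup X) (f : ↥H →* Z), Surjective f ∧
    (∃ z : Z, orderOf z = P) ∧ (∃ z : Z, orderOf z = Q) ∧ Nat.card Z = n

theorem nonempty_critGroup_of (X : Type) [Group X] [Finite X] (P Q : ℕ) (hP : P.Prime)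
    (hQ : Q.Prime) (hPQ : P ≠ Q)
    (horders : ∀ z : X, orderOf z = 1 ∨ orderOf z = P ∨ orderOf z = Q)
    (hexP : ∃ z : X, orderOf z = P) (hexQ : ∃ z : X, orderOf z = Q)
    (hnormP : ∀ x y : X, x ^ P = 1 → y ^ P = 1 → (x * y) ^ P = 1) :
    Nonempty (CritGroup P Q) := by
  classical
  have hex : ∃ n, IsSecCard X P Q n :=
    ⟨Nat.card X, X, inferInstance, ⊤, (Subgroup.topEquiv : ↥(⊤ : Subgroup X) ≃* X).toMonoidHom,
      (Subgroup.topEquiv : ↥(⊤ : Subgroup X) ≃* X).surjective, hexP, hexQ, rfl⟩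
  have hmin : ∀ m, IsSecCard X P Q m → Nat.find hex ≤ m := fun m hm => Nat.find_min' hex hm
  obtain ⟨Z, instZ, H, f, hf, hZP, hZQ, hn⟩ := Nat.find_spec hex
  have hfin : Finite Z := Finite.of_surjective f hf
  have hcop : Nat.Coprime P Q := (Nat.coprime_primes hP hQ).mpr hPQ
  have hordH : ∀ h : ↥H, orderOf h = 1 ∨ orderOf h = P ∨ orderOf h = Q := by
    intro h
    rw [← Subgroup.orderOf_coe]
    exact horders _
  refine ⟨{ carrier := Z, orders := ?_, exP := hZP, exQ := hZQ, normP := ?_, crit := ?_ }⟩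
  · intro z
    obtain ⟨h, rfl⟩ := hf z
    have hd := orderOf_map_dvd f h
    rcases hordH h with h1 | h1 | h1
    · rw [h1] at hd
      exact Or.inl (Nat.dvd_one.mp hd)
    · rw [h1] at hd
      rcases (Nat.dvd_prime hP).mp hd with h2 | h2
      · exact Or.inl h2
      · exact Or.inr (Or.inl h2)
    · rw [h1] at hd
      rcases (Nat.dvd_prime hQ).mp hd with h2 | h2
      · exact Or.inl h2
      · exact Or.inr (Or.inr h2)
  · -- lifting `P`-elements
    have lift : ∀ z : Z, z ^ P = 1 → ∃ h : ↥H, f h = z ∧ h ^ P = 1 := by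
      intro z hz
      obtain ⟨h, rfl⟩ := hf z
      rcases hordH h with h1 | h1 | h1
      · refine ⟨h, rfl, ?_⟩
        rw [orderOf_eq_one_iff] at h1
        rw [h1, one_pow]
      · refine ⟨h, rfl, ?_⟩
        rw [← h1]
        exact pow_orderOf_eq_one h
      · refine ⟨1, ?_, one_pow _⟩
        have h2 : orderOf (f h) ∣ Q := by
          rw [← h1]
          exact orderOf_map_dvd f h
        have h3 : orderOf (f h) ∣ P := orderOf_dvd_of_pow_eq_one hz
        have h4 : orderOf (f h) = 1 := Nat.eq_one_of_dvd_coprimes hcop h3 h2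
        rw [orderOf_eq_one_iff] at h4
        rw [h4, map_one]
    intro x y hx hy
    obtain ⟨a, rfl, ha⟩ := lift x hx
    obtain ⟨b, rfl, hb⟩ := lift y hy
    have hab : (a * b) ^ P = 1 := by
      apply Subtype.ext
      have h1 := hnormP (a : X) (b : X) (by simpa using congrArg Subtype.val ha)
        (by simpa using congrArg Subtype.val hb)
      simpa using h1
    rw [← map_mul, ← map_pow, hab, map_one]
  · intro W instW K g hg hWP hWQ
    have hsec : IsSecCard X P Q (Nat.card W) := by
      refine ⟨W, instW, (K.comap f).map H.subtype,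
        g.comp ((f.subgroupComap K).comp
          ((K.comap f).equivMapOfInjective H.subtype H.subtype_injective).symm.toMonoidHom),
        ?_, hWP, hWQ, rfl⟩
      rw [MonoidHom.coe_comp, MonoidHom.coe_comp]
      exact hg.comp ((f.subgroupComap_surjective_of_surjective K hf).comp
        ((K.comap f).equivMapOfInjective H.subtype H.subtype_injective).symm.surjective)
    have h1 : Nat.card Z ≤ Nat.card W := by
      rw [hn]
      exact hmin _ hsec
    have h2 : Nat.card W ≤ Nat.card ↥K := Nat.card_le_card_of_surjective g hg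
    have h3 : Nat.card ↥K ≤ Nat.card Z := Subgroup.card_le_card_group K
    constructor
    · exact Subgroup.eq_top_of_card_eq K (le_antisymm h3 (h1.trans h2))
    · exact ((Nat.bijective_iff_surjective_and_card g).mpr
        ⟨hg, le_antisymm (h3.trans h1) h2⟩).1

theorem nonempty_critGroup (P Q : ℕ) (hP : P.Prime) (hQ : Q.Prime) (hPQ : P ≠ Q) :
    Nonempty (CritGroup P Q) := by
  have : Fact P.Prime := ⟨hP⟩
  have : Fact Q.Prime := ⟨hQ⟩
  have : NeZero P := ⟨hP.ne_zero⟩
  have : NeZero Q := ⟨hQ.ne_zero⟩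
  exact nonempty_critGroup_of ↥(Lamp.sub P Q) P Q hP hQ hPQ Lamp.sub_orders Lamp.sub_exists_p
    Lamp.sub_exists_q (Lamp.sub_normP hPQ)

end Cfsg.Agent.H64
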