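import Cfsg.Agent.H64.Crit

set_option autoImplicit false

namespace Cfsg.Agent.H64

open Function

/-- Order of an element of a finite product with pairwise coprime component orders. -/
theorem pi_orderOf_eq_prod {ι : Type*} [Fintype ι] {X : ι → Type*} [∀ j, Monoid (X j)]
    (x : ∀ j, X j)
    (hc : Pairwise (fun j j' => Nat.Coprime (orderOf (x j)) (orderOf (x j')))) :
    orderOf x = ∏ j, orderOf (x j) := by
  apply Nat.dvd_antisymm
  · apply orderOf_dvd_of_pow_eq_one
    funext j
    rw [Pi.pow_apply, Pi.one_apply]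
    exact orderOf_dvd_iff_pow_eq_one.mp (Finset.dvd_prod_of_mem _ (Finset.mem_univ j))
  · apply Fintype.prod_dvd_of_isRelPrime
    · intro j j' hjj'
      exact Nat.coprime_iff_isRelPrime.mp (hc hjj')
    · intro j
      apply orderOf_dvd_of_pow_eq_one
      have h := congrFun (pow_orderOf_eq_one x) j
      simpa using h

section Prod

variable {ι : Type} [Fintype ι] [DecidableEq ι] (P Q : ι → ℕ)

/-- The exponent killing all components except the `j`-th one. -/
def critE (j : ι) : ℕ := ∏ j' ∈ Finset.univ.erase j, (P j' * Q j')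

variable {P Q}

theorem critE_coprime
    (hcop : ∀ j j', j ≠ j' → (P j).Coprime (P j') ∧ (P j).Coprime (Q j') ∧
      (Q j).Coprime (P j') ∧ (Q j).Coprime (Q j')) (j : ι) :
    (P j).Coprime (critE P Q j) ∧ (Q j).Coprime (critE P Q j) := by
  constructor
  · apply Nat.Coprime.prod_right
    intro j' hj'
    have hne : j ≠ j' := fun h => (Finset.ne_of_mem_erase hj') h.symm
    exact Nat.Coprime.mul_right (hcop j j' hne).1 (hcop j j' hne).2.1
  · apply Nat.Coprime.prod_right
    intro j' hj'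
    have hne : j ≠ j' := fun h => (Finset.ne_of_mem_erase hj') h.symm
    exact Nat.Coprime.mul_right (hcop j j' hne).2.2.1 (hcop j j' hne).2.2.2

variable (C : ∀ j, CritGroup (P j) (Q j))

omit [Fintype ι] [DecidableEq ι] in
theorem crit_pow_mul (j : ι) (x : (C j).carrier) : x ^ (P j * Q j) = 1 := by
  apply orderOf_dvd_iff_pow_eq_one.mp
  rcases (C j).orders x with h | h | h
  · rw [h]; exact one_dvd _
  · rw [h]; exact dvd_mul_right _ _
  · rw [h]; exact dvd_mul_left _ _

theorem crit_pow_E (j : ι) (x : ∀ j, (C j).carrier) :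
    x ^ critE P Q j = Pi.mulSingle j ((x j) ^ critE P Q j) := by
  funext j'
  by_cases h : j' = j
  · subst h
    simp
  · rw [Pi.mulSingle_eq_of_ne h, Pi.pow_apply]
    apply orderOf_dvd_iff_pow_eq_one.mp
    exact (orderOf_dvd_iff_pow_eq_one.mpr (crit_pow_mul C j' (x j'))).trans
      (Finset.dvd_prod_of_mem _ (Finset.mem_erase.mpr ⟨h, Finset.mem_univ _⟩))

omit [DecidableEq ι] in
theorem crit_prod_orders
    (hcop : ∀ j j', j ≠ j' → (P j).Coprime (P j') ∧ (P j).Coprime (Q j') ∧
      (Q j).Coprime (P j') ∧ (Q j).Coprime (Q j')) :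
    Set.range (orderOf : (∀ j, (C j).carrier) → ℕ) =
      {m | ∃ c : ι → ℕ, (∀ j, c j = 1 ∨ c j = P j ∨ c j = Q j) ∧ m = ∏ j, c j} := by
  have key : ∀ x : (∀ j, (C j).carrier), orderOf x = ∏ j, orderOf (x j) := by
    intro x
    apply pi_orderOf_eq_prod
    intro j j' hjj'
    rcases (C j).orders (x j) with h | h | h <;> rcases (C j').orders (x j') with h' | h' | h' <;>
      rw [h, h']
    · exact Nat.coprime_one_left _
    · exact Nat.coprime_one_left _
    · exact Nat.coprime_one_left _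
    · exact Nat.coprime_one_right _
    · exact (hcop j j' hjj').1
    · exact (hcop j j' hjj').2.1
    · exact Nat.coprime_one_right _
    · exact (hcop j j' hjj').2.2.1
    · exact (hcop j j' hjj').2.2.2
  ext m
  constructor
  · rintro ⟨x, rfl⟩
    exact ⟨fun j => orderOf (x j), fun j => (C j).orders (x j), key x⟩
  · rintro ⟨c, hc, rfl⟩
    have hex : ∀ j, ∃ y : (C j).carrier, orderOf y = c j := by
      intro j
      rcases hc j with h | h | h
      · exact ⟨1, by rw [h, orderOf_one]⟩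
      · rw [h]; exact (C j).exP
      · rw [h]; exact (C j).exQ
    choose y hy using hex
    refine ⟨y, ?_⟩
    show orderOf y = _
    rw [key y]
    exact Finset.prod_congr rfl (fun j _ => hy j)

theorem crit_prod_crit (hP : ∀ j, (P j).Prime) (hQ : ∀ j, (Q j).Prime)
    (hcop : ∀ j j', j ≠ j' → (P j).Coprime (P j') ∧ (P j).Coprime (Q j') ∧
      (Q j).Coprime (P j') ∧ (Q j).Coprime (Q j'))
    (H : Subgroup (∀ j, (C j).carrier)) (N : Subgroup ↥H) [N.Normal]
    (hexP : ∀ j, ∃ w : ↥H ⧸ N, orderOf w = P j) (hexQ : ∀ j, ∃ w : ↥H ⧸ N, orderOf w = Q j) :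
    H = ⊤ ∧ N = ⊥ := by
  -- the component maps
  have main : ∀ j, H.comap (MonoidHom.mulSingle (fun j => (C j).carrier) j) = ⊤ ∧
      Injective ((QuotientGroup.mk' N).comp
        ((MonoidHom.mulSingle (fun j => (C j).carrier) j).subgroupComap H)) := by
    intro j
    set fj := (QuotientGroup.mk' N).comp
        ((MonoidHom.mulSingle (fun j => (C j).carrier) j).subgroupComap H) with hfj
    have hrange : ∀ w : ↥H ⧸ N, w ^ critE P Q j ∈ fj.range := by
      intro w
      obtain ⟨h, rfl⟩ := QuotientGroup.mk_surjective w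
      have hmem : ((h : ∀ j, (C j).carrier) j) ^ critE P Q j ∈
          H.comap (MonoidHom.mulSingle (fun j => (C j).carrier) j) := by
        rw [Subgroup.mem_comap, MonoidHom.mulSingle_apply, ← crit_pow_E C j]
        exact H.pow_mem h.2 _
      refine ⟨⟨_, hmem⟩, ?_⟩
      rw [hfj, MonoidHom.comp_apply, QuotientGroup.mk'_apply, ← QuotientGroup.mk_pow]
      congr 1
      apply Subtype.ext
      show MonoidHom.mulSingle (fun j => (C j).carrier) j _ = _
      rw [MonoidHom.mulSingle_apply]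
      simp only [Subgroup.coe_pow]
      exact (crit_pow_E C j _).symm
    have hWP : ∃ w : ↥fj.range, orderOf w = P j := by
      obtain ⟨w, hw⟩ := hexP j
      refine ⟨⟨w ^ critE P Q j, hrange w⟩, ?_⟩
      rw [← Subgroup.orderOf_coe]
      show orderOf (w ^ critE P Q j) = P j
      rw [Nat.Coprime.orderOf_pow (by rw [hw]; exact (critE_coprime hcop j).1), hw]
    have hWQ : ∃ w : ↥fj.range, orderOf w = Q j := by
      obtain ⟨w, hw⟩ := hexQ j
      refine ⟨⟨w ^ critE P Q j, hrange w⟩, ?_⟩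
      rw [← Subgroup.orderOf_coe]
      show orderOf (w ^ critE P Q j) = Q j
      rw [Nat.Coprime.orderOf_pow (by rw [hw]; exact (critE_coprime hcop j).2), hw]
    obtain ⟨h1, h2⟩ := (C j).crit ↥fj.range _ fj.rangeRestrict fj.rangeRestrict_surjective hWP hWQ
    refine ⟨h1, ?_⟩
    intro a b hab
    apply h2
    apply Subtype.ext
    rw [MonoidHom.coe_rangeRestrict, MonoidHom.coe_rangeRestrict]
    exact hab
  have hH : H = ⊤ := by
    rw [eq_top_iff, ← Subgroup.pi_top (Set.univ : Set ι), Subgroup.pi_le_iff]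
    intro j
    rintro _ ⟨x, -, rfl⟩
    have : x ∈ H.comap (MonoidHom.mulSingle (fun j => (C j).carrier) j) := by
      rw [(main j).1]; exact Subgroup.mem_top _
    exact this
  refine ⟨hH, ?_⟩
  rw [Subgroup.eq_bot_iff_forall]
  intro n hn
  apply Subtype.ext
  funext j
  show (n : ∀ j, (C j).carrier) j = 1
  have hmem : ((n : ∀ j, (C j).carrier) j) ^ critE P Q j ∈
      H.comap (MonoidHom.mulSingle (fun j => (C j).carrier) j) := by
    rw [(main j).1]; exact Subgroup.mem_top _
  have h1 : ((QuotientGroup.mk' N).comp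
        ((MonoidHom.mulSingle (fun j => (C j).carrier) j).subgroupComap H))
        ⟨_, hmem⟩ = 1 := by
    rw [MonoidHom.comp_apply, QuotientGroup.mk'_apply, QuotientGroup.eq_one_iff]
    have h2 : (MonoidHom.mulSingle (fun j => (C j).carrier) j).subgroupComap H ⟨_, hmem⟩
        = n ^ critE P Q j := by
      apply Subtype.ext
      show MonoidHom.mulSingle (fun j => (C j).carrier) j _ = _
      rw [MonoidHom.mulSingle_apply]
      simp only [Subgroup.coe_pow]
      exact (crit_pow_E C j _).symm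
    rw [h2]
    exact N.pow_mem hn _
  have h3 := (main j).2 (h1.trans (map_one _).symm)
  have h4 : ((n : ∀ j, (C j).carrier) j) ^ critE P Q j = 1 := congrArg Subtype.val h3
  have h5 := orderOf_dvd_of_pow_eq_one h4
  rw [← orderOf_eq_one_iff]
  rcases (C j).orders ((n : ∀ j, (C j).carrier) j) with h | h | h
  · exact h
  · rw [h] at h5
    exact absurd ((critE_coprime hcop j).1.eq_one_of_dvd h5) (hP j).ne_one
  · rw [h] at h5
    exact absurd ((critE_coprime hcop j).2.eq_one_of_dvd h5) (hQ j).ne_one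

omit [Fintype ι] in
theorem crit_prod_normP (hP : ∀ j, (P j).Prime) (hQ : ∀ j, (Q j).Prime)
    (hcop : ∀ j j', j ≠ j' → (P j).Coprime (P j') ∧ (P j).Coprime (Q j') ∧
      (Q j).Coprime (P j') ∧ (Q j).Coprime (Q j'))
    (j : ι) (x y : ∀ j, (C j).carrier) (hx : x ^ P j = 1) (hy : y ^ P j = 1) :
    (x * y) ^ P j = 1 := by
  have triv : ∀ z : (∀ j, (C j).carrier), z ^ P j = 1 → ∀ j', j' ≠ j → z j' = 1 := by
    intro z hz j' hj'
    have h1 : (z j') ^ P j = 1 := congrFun hz j'
    have h2 := orderOf_dvd_of_pow_eq_one h1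
    rw [← orderOf_eq_one_iff]
    rcases (C j').orders (z j') with h | h | h
    · exact h
    · rw [h] at h2
      exact absurd ((hcop j' j hj').1.eq_one_of_dvd h2) (hP j').ne_one
    · rw [h] at h2
      exact absurd ((hcop j' j hj').2.2.1.eq_one_of_dvd h2) (hQ j').ne_one
  funext j'
  by_cases h : j' = j
  · subst h
    exact (C j').normP (x j') (y j') (congrFun hx j') (congrFun hy j')
  · rw [Pi.pow_apply, Pi.mul_apply, triv x hx j' h, triv y hy j' h, one_mul, one_pow]
    rfl

omit [Fintype ι] [DecidableEq ι] in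
theorem CritGroup.not_normQ {P Q : ℕ} (C : CritGroup P Q) (hP : P.Prime) (hQ : Q.Prime)
    (hPQ : P ≠ Q) :
    ¬ ∀ x y : C.carrier, x ^ Q = 1 → y ^ Q = 1 → (x * y) ^ Q = 1 := by
  intro hN
  obtain ⟨a, ha⟩ := C.exP
  obtain ⟨b, hb⟩ := C.exQ
  have haP : a ^ P = 1 := orderOf_dvd_iff_pow_eq_one.mp (dvd_of_eq ha)
  have hbQ : b ^ Q = 1 := orderOf_dvd_iff_pow_eq_one.mp (dvd_of_eq hb)
  have h1 : (a * (b * a⁻¹ * b⁻¹)) ^ P = 1 := by
    apply C.normP _ _ haP
    rw [conj_pow, inv_pow, haP]
    simp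
  have h2 : ((a * b * a⁻¹) * b⁻¹) ^ Q = 1 := by
    apply hN
    · rw [conj_pow, hbQ]
      simp
    · rw [inv_pow, hbQ, inv_one]
  have h3 : a * (b * a⁻¹ * b⁻¹) = (a * b * a⁻¹) * b⁻¹ := by group
  rw [h3] at h1
  have h4 : orderOf ((a * b * a⁻¹) * b⁻¹) = 1 :=
    Nat.eq_one_of_dvd_coprimes ((Nat.coprime_primes hP hQ).mpr hPQ)
      (orderOf_dvd_of_pow_eq_one h1) (orderOf_dvd_of_pow_eq_one h2)
  rw [orderOf_eq_one_iff] at h4
  have hcomm : Commute a b := by
    show a * b = b * a
    have : a * b = ((a * b * a⁻¹) * b⁻¹) * (b * a) := by group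
    rw [this, h4, one_mul]
  have h5 := hcomm.orderOf_mul_eq_mul_orderOf_of_coprime
    (by rw [ha, hb]; exact (Nat.coprime_primes hP hQ).mpr hPQ)
  rw [ha, hb] at h5
  rcases C.orders (a * b) with h | h | h
  · rw [h] at h5
    have := Nat.eq_one_of_mul_eq_one_right h5.symm
    exact hP.ne_one this
  · rw [h] at h5
    have : P * 1 = P * Q := by rw [mul_one]; exact h5
    exact hQ.ne_one (Nat.eq_of_mul_eq_mul_left hP.pos this).symm
  · rw [h] at h5
    have : 1 * Q = P * Q := by rw [one_mul]; exact h5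
    exact hP.ne_one (Nat.eq_of_mul_eq_mul_right hQ.pos this).symm

omit [Fintype ι] in
theorem crit_prod_not_normQ (hP : ∀ j, (P j).Prime) (hQ : ∀ j, (Q j).Prime)
    (hPQ : ∀ j, P j ≠ Q j) (j : ι) :
    ¬ ∀ x y : (∀ j, (C j).carrier), x ^ Q j = 1 → y ^ Q j = 1 → (x * y) ^ Q j = 1 := by
  intro h
  apply (C j).not_normQ (hP j) (hQ j) (hPQ j)
  intro x y hx hy
  have h1 := h (Pi.mulSingle j x) (Pi.mulSingle j y)
    (by rw [← Pi.mulSingle_pow, hx, Pi.mulSingle_one])
    (by rw [← Pi.mulSingle_pow, hy, Pi.mulSingle_one])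
  have h2 := congrFun h1 j
  simpa using h2

end Prod

/-- Closure of `n`-torsion under multiplication is an isomorphism invariant. -/
theorem normP_of_mulEquiv {A B : Type*} [Group A] [Group B] (φ : A ≃* B) (n : ℕ)
    (h : ∀ x y : A, x ^ n = 1 → y ^ n = 1 → (x * y) ^ n = 1) :
    ∀ x y : B, x ^ n = 1 → y ^ n = 1 → (x * y) ^ n = 1 := by
  intro x y hx hy
  have h1 := h (φ.symm x) (φ.symm y) (by rw [← map_pow, hx, map_one]) (by rw [← map_pow, hy, map_one])
  rw [← map_mul, ← map_pow] at h1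
  exact (MulEquiv.map_eq_one_iff φ.symm).mp h1

end Cfsg.Agent.H64
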