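import Cfsg.Agent.H64.DU2
import Cfsg.Agent.S0803
import Cfsg.Agent.S0804

/-!
# Downstream of Dickson, part 3: the maximality criterion

Given Dickson's list for every subgroup `M` of `PSL_2(F)` (`DkConcl`), a subgroup `H ≅ T` with
`T` neither `SqComm` nor `CP p` is maximal as soon as an arithmetic condition `MaxArith` holds.
-/

set_option autoImplicit false

namespace Cfsg.Agent.H64.DU

open scoped MatrixGroups
open Matrix

/-- The conclusion of Dickson's theorem for a subgroup `H` of `PSL_2(F)`, `|F| = q`, char `p`. -/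
def DkConcl {F : Type*} [Field F] [Fintype F] (q p : ℕ) [Fact p.Prime]
    (H : Subgroup (Matrix.ProjectiveSpecialLinearGroup (Fin 2) F)) : Prop :=
  (∃ k : ℕ, (k ∣ (q + 1) / Nat.gcd 2 (q - 1) ∨ k ∣ (q - 1) / Nat.gcd 2 (q - 1)) ∧ ((IsCyclic H ∧ Nat.card H = k) ∨ Nonempty (H ≃* DihedralGroup k))) ∨ (∃ (P : Sylow p (Matrix.ProjectiveSpecialLinearGroup (Fin 2) F)) (K : Subgroup (Matrix.ProjectiveSpecialLinearGroup (Fin 2) F)), K ≤ Subgroup.normalizer ((P : Subgroup (Matrix.ProjectiveSpecialLinearGroup (Fin 2) F)) : Set (Matrix.ProjectiveSpecialLinearGroup (Fin 2) F)) ∧ Nonempty (H ≃* K)) ∨ Nonempty (H ≃* alternatingGroup (Fin 4)) ∨ Nonempty (H ≃* Equiv.Perm (Fin 4)) ∨ Nonempty (H ≃* alternatingGroup (Fin 5)) ∨ (∃ (K : Type) (_ : Field K) (_ : Fintype K) (m : ℕ), Fintype.card K ^ m = q ∧ (Nonempty (H ≃* Matrix.ProjectiveSpecialLinearGroup (Fin 2) K) ∨ Nonempty (H ≃* Matrix.ProjGenLinGroup (Fin 2) K)))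

/-- The numerical alternatives left for a subgroup of order `N` that is neither `SqComm` nor
`CP p`. -/
def Alt (p n N : ℕ) : Prop :=
  N = 12 ∨ (N = 24 ∧ (p ^ n) ^ 2 % 16 = 1) ∨ (N = 60 ∧ 5 ∣ p ^ n * ((p ^ n) ^ 2 - 1)) ∨
    ∃ a m : ℕ, a * m = n ∧ (N * Nat.gcd 2 (p ^ a - 1) = p ^ a * ((p ^ a) ^ 2 - 1) ∨
      (N = p ^ a * ((p ^ a) ^ 2 - 1) ∧ (p ≠ 2 → Even m)))

/-- The arithmetic condition making a subgroup of order `h` of `PSL_2(p^n)` maximal. -/
def MaxArith (p n h : ℕ) : Prop :=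
  ∀ g : ℕ, g * Nat.gcd 2 (p ^ n - 1) = p ^ n * ((p ^ n) ^ 2 - 1) →
    h < g ∧ ∀ N : ℕ, h ∣ N → N ∣ g → h < N → Alt p n N → N = g

theorem dk_numeric {F : Type*} [Field F] [Fintype F] (p n : ℕ) [Fact p.Prime] [CharP F p]
    (hF : Fintype.card F = p ^ n) (M : Subgroup PSL(2, F)) (hD : DkConcl (p ^ n) p M)
    (hsq : ¬ SqComm M) (hcp : ¬ CP p M) : Alt p n (Nat.card M) := by
  have hp : p.Prime := Fact.out
  have hq2 : 2 ≤ p ^ n := hF ▸ Fintype.one_lt_card
  rcases hD with ⟨k, -, ⟨hc, -⟩ | ⟨⟨e⟩⟩⟩ | ⟨P, K, hK, ⟨e⟩⟩ | ⟨⟨e⟩⟩ | ⟨⟨e⟩⟩ | ⟨⟨e⟩⟩ |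
    ⟨K, _, _, m, hKm, ⟨⟨e⟩⟩ | ⟨⟨e⟩⟩⟩
  · exact absurd (sqComm_of_isCyclic M) hsq
  · exact absurd ((sqComm_dihedral k).of_injective e.toMonoidHom e.injective) hsq
  · exact absurd ((cp_of_le_normalizer p P K hK).of_injective e.toMonoidHom e.injective) hcp
  · left
    rw [Nat.card_congr e.toEquiv, card_A4]
  · right; left
    exact ⟨by rw [Nat.card_congr e.toEquiv, card_S4], (Cfsg.Agent.S0803.result hF).mp ⟨M, ⟨e⟩⟩⟩
  · right; right; left
    exact ⟨by rw [Nat.card_congr e.toEquiv, card_A5], (Cfsg.Agent.S0804.result hF).mp ⟨M, ⟨e⟩⟩⟩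
  all_goals
    right; right; right
    have hm0 : m ≠ 0 := by
      rintro rfl
      rw [pow_zero] at hKm
      omega
    have hdvd : Fintype.card K ∣ p ^ n := hKm ▸ dvd_pow_self _ hm0
    obtain ⟨a, -, ha⟩ := (Nat.dvd_prime_pow hp).mp hdvd
    have ham : a * m = n := by
      apply Nat.pow_right_injective hp.two_le
      show p ^ (a * m) = p ^ n
      rw [pow_mul, ← ha, hKm]
    refine ⟨a, m, ham, ?_⟩
  · left
    rw [Nat.card_congr e.toEquiv, ← ha]
    exact card_PSL2_gcd K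
  · right
    refine ⟨by rw [Nat.card_congr e.toEquiv, ← ha]; exact card_PGL2 K, fun hp2 => ?_⟩
    have hodd : Odd (p ^ n) := (hp.odd_of_ne_two hp2).pow
    exact (Cfsg.Agent.S0805.result (F := F) (K := K) hF hodd m (by omega) hKm).2.mp ⟨M, ⟨e⟩⟩

theorem isCoatom_of_dk {F : Type*} [Field F] [Fintype F] (p n : ℕ) [Fact p.Prime] [CharP F p]
    (hF : Fintype.card F = p ^ n)
    (hD : ∀ M : Subgroup PSL(2, F), DkConcl (p ^ n) p M)
    (H : Subgroup PSL(2, F)) {T : Type*} [Group T] (e : H ≃* T) (hsq : ¬ SqComm T)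
    (hcp : ¬ CP p T) (harith : MaxArith p n (Nat.card T)) : IsCoatom H := by
  have hg := card_PSL2_gcd F
  rw [hF] at hg
  obtain ⟨hlt, hN⟩ := harith (Nat.card PSL(2, F)) hg
  have hcardH : Nat.card H = Nat.card T := Nat.card_congr e.toEquiv
  constructor
  · intro htop
    rw [htop, Subgroup.card_top] at hcardH
    omega
  · intro M hM
    have hle : H ≤ M := hM.le
    have hlt' : Nat.card H < Nat.card M := by
      rcases (Subgroup.card_le_of_le hle).lt_or_eq with h | h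
      · exact h
      · exact absurd (Subgroup.eq_of_le_of_card_ge hle h.ge) hM.ne
    have hMsq : ¬ SqComm M := fun h => hsq
      ((h.of_injective (Subgroup.inclusion hle) (Subgroup.inclusion_injective hle)).of_injective
        e.symm.toMonoidHom e.symm.injective)
    have hMcp : ¬ CP p M := fun h => hcp
      ((h.of_injective (Subgroup.inclusion hle) (Subgroup.inclusion_injective hle)).of_injective
        e.symm.toMonoidHom e.symm.injective)
    have := hN (Nat.card M) (hcardH ▸ Subgroup.card_dvd_of_le hle)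
      (Subgroup.card_subgroup_dvd_card M) (hcardH ▸ hlt') (dk_numeric p n hF M (hD M) hMsq hMcp)
    exact (Subgroup.card_eq_iff_eq_top M).mp this

theorem charP_of_card_eq_prime_pow {F : Type*} [Field F] [Fintype F] (p n : ℕ) [Fact p.Prime]
    (h : Fintype.card F = p ^ n) : CharP F p := by
  rw [CharP.charP_iff_prime_eq_zero (Fact.out : p.Prime)]
  have h0 : ((Fintype.card F : ℕ) : F) = 0 := FiniteField.cast_card_eq_zero F
  rw [h] at h0
  push_cast at h0
  exact eq_zero_of_pow_eq_zero h0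

end Cfsg.Agent.H64.DU
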