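import Cfsg.Agent.H64.DU3

/-!
# Downstream of Dickson, part 4: the arithmetic (`MaxArith`) for each maximality statement
-/

set_option autoImplicit false

namespace Cfsg.Agent.H64.DU

theorem gcd_two_odd {Q : ℕ} (hQ : Odd Q) : Nat.gcd 2 (Q - 1) = 2 := by
  have hev : 2 ∣ Q - 1 := by
    rcases hQ with ⟨k, hk⟩
    exact ⟨k, by omega⟩
  exact Nat.gcd_eq_left hev

theorem gcd_two_even {Q : ℕ} (hQ : Even Q) (h0 : 0 < Q) : Nat.gcd 2 (Q - 1) = 1 := by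
  have hodd : Odd (Q - 1) := by
    rcases hQ with ⟨k, hk⟩
    exact ⟨k - 1, by omega⟩
  exact (Nat.coprime_two_left).mpr hodd

theorem fQ_lt {A B : ℕ} (hAB : A < B) (hA : 1 ≤ A) : A * (A ^ 2 - 1) < B * (B ^ 2 - 1) := by
  have h1 : A ^ 2 < B ^ 2 := Nat.pow_lt_pow_left hAB (by norm_num)
  have h2 : A ^ 2 - 1 ≤ B ^ 2 - 1 := by omega
  have h3 : 0 < B ^ 2 - 1 := by
    have : 1 ≤ A ^ 2 := Nat.one_le_pow _ _ hA
    omega
  calc A * (A ^ 2 - 1) ≤ A * (B ^ 2 - 1) := Nat.mul_le_mul_left A h2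
    _ < B * (B ^ 2 - 1) := Nat.mul_lt_mul_of_pos_right hAB h3

theorem full_field_case (Q g N : ℕ) (hg : g * Nat.gcd 2 (Q - 1) = Q * (Q ^ 2 - 1))
    (hgpos : 0 < g) (hNg : N ∣ g)
    (h : N * Nat.gcd 2 (Q - 1) = Q * (Q ^ 2 - 1) ∨ N = Q * (Q ^ 2 - 1)) : N = g := by
  have hc : 0 < Nat.gcd 2 (Q - 1) := Nat.gcd_pos_of_pos_left _ (by norm_num)
  rcases h with h | h
  · exact Nat.eq_of_mul_eq_mul_right hc (h.trans hg.symm)
  · have hle := Nat.le_of_dvd hgpos hNg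
    rw [h, ← hg] at hle
    have h1 : Nat.gcd 2 (Q - 1) ≤ 1 := by
      have : g * Nat.gcd 2 (Q - 1) ≤ g * 1 := by rwa [mul_one]
      exact Nat.le_of_mul_le_mul_left this hgpos
    have h2 : Nat.gcd 2 (Q - 1) = 1 := by omega
    rw [h, ← hg, h2, mul_one]

theorem pow_sub_one_coprime (p : ℕ) (hp : p.Prime) (x a : ℕ) (hx : p ∣ x) (hx0 : 0 < x) :
    Nat.Coprime (x - 1) (p ^ a) := by
  apply Nat.Coprime.pow_right
  rw [Nat.coprime_comm]
  apply (Nat.Prime.coprime_iff_not_dvd hp).mpr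
  intro h
  have h1 : p ∣ (x - 1) + 1 := by rwa [Nat.sub_add_cancel hx0]
  have h2 : p ∣ 1 := (Nat.dvd_add_right h).mp h1
  exact hp.one_lt.ne' (Nat.dvd_one.mp h2)

theorem subfield_dvd (p : ℕ) (hp : p.Prime) (e a : ℕ) (he : 1 ≤ e)
    (hd : p ^ e * ((p ^ e) ^ 2 - 1) ∣ 2 * (p ^ a * ((p ^ a) ^ 2 - 1))) : e ∣ a := by
  have hp2 : 2 ≤ p := hp.two_le
  have h1 : (p ^ e) ^ 2 - 1 ∣ 2 * (p ^ a * ((p ^ a) ^ 2 - 1)) := (Dvd.intro_left _ rfl).trans hd
  have hcop : Nat.Coprime ((p ^ e) ^ 2 - 1) (p ^ a) :=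
    pow_sub_one_coprime p hp _ a (dvd_pow (dvd_pow_self p (by omega)) two_ne_zero)
      (by positivity)
  have h2 : (p ^ e) ^ 2 - 1 ∣ 2 * ((p ^ a) ^ 2 - 1) := by
    have e1 : 2 * (p ^ a * ((p ^ a) ^ 2 - 1)) = p ^ a * (2 * ((p ^ a) ^ 2 - 1)) := by ring
    rw [e1] at h1
    exact hcop.dvd_of_dvd_mul_left h1
  rw [← pow_mul, ← pow_mul] at h2
  have h3 : p ^ (e * 2) - 1 ∣ 2 * (p ^ (Nat.gcd e a * 2) - 1) := by
    have h := Nat.dvd_gcd (Dvd.intro_left 2 rfl : p ^ (e * 2) - 1 ∣ 2 * (p ^ (e * 2) - 1)) h2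
    rwa [Nat.gcd_mul_left, Nat.pow_sub_one_gcd_pow_sub_one, Nat.gcd_mul_right] at h
  by_contra hne
  obtain ⟨c, hc⟩ := Nat.gcd_dvd_left e a
  have hg0 : 0 < Nat.gcd e a := Nat.gcd_pos_of_pos_left a he
  have hc2 : 2 ≤ c := by
    rcases c with _ | _ | c
    · simp at hc
      omega
    · exfalso
      apply hne
      have hc' : e = Nat.gcd e a := by simpa using hc
      have := Nat.gcd_dvd_right e a
      rwa [← hc'] at this
    · omega
  have hle : Nat.gcd e a * 2 ≤ e := by nlinarith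
  have hX : 2 ≤ p ^ e := le_trans hp2 (Nat.le_self_pow (by omega) p)
  have hY : 2 ≤ p ^ (Nat.gcd e a * 2) := le_trans hp2 (Nat.le_self_pow (by omega) p)
  have hpow : p ^ (Nat.gcd e a * 2) ≤ p ^ e := Nat.pow_le_pow_right hp.pos hle
  have hpos : 0 < 2 * (p ^ (Nat.gcd e a * 2) - 1) := by omega
  have h4 := Nat.le_of_dvd hpos h3
  have h5 : p ^ (e * 2) = p ^ e * p ^ e := by rw [pow_mul, sq]
  have h6 : 2 * p ^ e ≤ p ^ e * p ^ e := Nat.mul_le_mul_right _ hX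
  rw [h5] at h4
  omega

theorem subfield_cases (p : ℕ) (hp : p.Prime) (e r a m : ℕ) (he : 1 ≤ e) (hr : r.Prime)
    (ham : a * m = e * r)
    (hd : p ^ e * ((p ^ e) ^ 2 - 1) ∣ 2 * (p ^ a * ((p ^ a) ^ 2 - 1))) :
    (a = e ∧ m = r) ∨ (a = e * r ∧ m = 1) := by
  obtain ⟨s, rfl⟩ := subfield_dvd p hp e a he hd
  have hsm : s * m = r := by
    have : e * (s * m) = e * r := by rw [← mul_assoc]; exact ham
    exact Nat.eq_of_mul_eq_mul_left (by omega) this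
  have hs : s ∣ r := ⟨m, hsm.symm⟩
  rcases (Nat.dvd_prime hr).mp hs with h1 | h1
  · left
    subst h1
    exact ⟨by ring, by simpa using hsm⟩
  · right
    subst h1
    refine ⟨rfl, ?_⟩
    have : s * m = s * 1 := by rw [hsm, mul_one]
    exact Nat.eq_of_mul_eq_mul_left hr.pos this

theorem arith_5938 (p : ℕ) (hp : p.Prime) (h8 : p % 8 = 1 ∨ p % 8 = 7) : MaxArith p 1 24 := by
  intro g hg
  have hg0 := hg
  simp only [pow_one] at hg
  have hp7 : 7 ≤ p := by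
    have := hp.two_le
    omega
  have hodd : Odd p := Nat.odd_iff.mpr (by omega)
  rw [gcd_two_odd hodd] at hg
  have hsq : 49 ≤ p ^ 2 := by nlinarith
  have hbig : 7 * 48 ≤ p * (p ^ 2 - 1) := Nat.mul_le_mul hp7 (by omega)
  have hg24 : 24 < g := by omega
  refine ⟨hg24, fun N hdN hNg hlt halt => ?_⟩
  rcases halt with rfl | ⟨rfl, -⟩ | ⟨rfl, -⟩ | ⟨a, m, ham, hcase⟩
  · omega
  · omega
  · omega
  · have ha : a = 1 := Nat.dvd_one.mp ⟨m, ham.symm⟩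
    subst ha
    exact full_field_case (p ^ 1) g N hg0 (by omega) hNg (hcase.imp_right And.left)

theorem arith_5940 (p : ℕ) (hp : p.Prime) (h5 : 5 ≤ p) (h8 : p % 8 = 3 ∨ p % 8 = 5)
    (h10 : p % 10 ≠ 1 ∧ p % 10 ≠ 9) : MaxArith p 1 12 := by
  intro g hg
  have hg0 := hg
  simp only [pow_one] at hg
  have hodd : Odd p := Nat.odd_iff.mpr (by omega)
  rw [gcd_two_odd hodd] at hg
  have hsq : 25 ≤ p ^ 2 := by nlinarith
  have hbig : 5 * 24 ≤ p * (p ^ 2 - 1) := Nat.mul_le_mul h5 (by omega)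
  have hg12 : 12 < g := by omega
  refine ⟨hg12, fun N hdN hNg hlt halt => ?_⟩
  rcases halt with rfl | ⟨rfl, h16⟩ | ⟨rfl, hdvd⟩ | ⟨a, m, ham, hcase⟩
  · omega
  · exfalso
    simp only [pow_one] at h16
    have h' : p % 16 = 3 ∨ p % 16 = 11 ∨ p % 16 = 5 ∨ p % 16 = 13 := by omega
    rcases h' with h | h | h | h <;> simp [Nat.pow_mod, h] at h16
  · simp only [pow_one] at hdvd
    rcases (Nat.Prime.dvd_mul Nat.prime_five).mp hdvd with h | h
    · have hp5 : p = 5 := ((Nat.prime_dvd_prime_iff_eq Nat.prime_five hp).mp h).symm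
      subst hp5
      norm_num at hg
      omega
    · exfalso
      have h' : p % 5 = 3 ∨ p % 5 = 0 ∨ p % 5 = 2 := by omega
      have h4 : p ^ 2 % 5 = 4 ∨ p ^ 2 % 5 = 0 := by
        rcases h' with h' | h' | h' <;> simp [Nat.pow_mod, h']
      omega
  · have ha : a = 1 := Nat.dvd_one.mp ⟨m, ham.symm⟩
    subst ha
    exact full_field_case (p ^ 1) g N hg0 (by omega) hNg (hcase.imp_right And.left)

theorem arith_5939a (p : ℕ) (hp : p.Prime) (h10 : p % 10 = 1 ∨ p % 10 = 9) :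
    MaxArith p 1 60 := by
  intro g hg
  have hg0 := hg
  simp only [pow_one] at hg
  have hp9 : 9 ≤ p := by
    have := hp.two_le
    omega
  have hodd : Odd p := Nat.odd_iff.mpr (by omega)
  rw [gcd_two_odd hodd] at hg
  have hsq : 81 ≤ p ^ 2 := by nlinarith
  have hbig : 9 * 80 ≤ p * (p ^ 2 - 1) := Nat.mul_le_mul hp9 (by omega)
  have hg60 : 60 < g := by omega
  refine ⟨hg60, fun N hdN hNg hlt halt => ?_⟩
  rcases halt with rfl | ⟨rfl, -⟩ | ⟨rfl, -⟩ | ⟨a, m, ham, hcase⟩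
  · omega
  · omega
  · omega
  · have ha : a = 1 := Nat.dvd_one.mp ⟨m, ham.symm⟩
    subst ha
    exact full_field_case (p ^ 1) g N hg0 (by omega) hNg (hcase.imp_right And.left)

theorem arith_5939b (p : ℕ) (_hp : p.Prime) (h10 : p % 10 = 3 ∨ p % 10 = 7) :
    MaxArith p 2 60 := by
  intro g hg
  have hg0 := hg
  have hp3 : 3 ≤ p := by omega
  have hodd : Odd p := Nat.odd_iff.mpr (by omega)
  rw [gcd_two_odd hodd.pow] at hg
  have hsq : 9 ≤ p ^ 2 := by nlinarith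
  have hsq2 : 81 ≤ (p ^ 2) ^ 2 := by nlinarith
  have hbig : 9 * 80 ≤ p ^ 2 * ((p ^ 2) ^ 2 - 1) := Nat.mul_le_mul hsq (by omega)
  have hg60 : 60 < g := by omega
  refine ⟨hg60, fun N hdN hNg hlt halt => ?_⟩
  rcases halt with rfl | ⟨rfl, -⟩ | ⟨rfl, -⟩ | ⟨a, m, ham, hcase⟩
  · omega
  · omega
  · omega
  · have ha : a ∣ 2 := ⟨m, ham.symm⟩
    rcases (Nat.dvd_prime Nat.prime_two).mp ha with rfl | rfl
    · exfalso
      have hNdvd : N ∣ p ^ 1 * ((p ^ 1) ^ 2 - 1) := by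
        rcases hcase with h | ⟨h, -⟩
        · exact Dvd.intro _ h
        · exact h ▸ dvd_rfl
      simp only [pow_one] at hNdvd
      have h5 : 5 ∣ p * (p ^ 2 - 1) := (Dvd.intro_left 12 rfl : 5 ∣ 60).trans (hdN.trans hNdvd)
      rcases (Nat.Prime.dvd_mul Nat.prime_five).mp h5 with h | h
      · omega
      · have h' : p % 5 = 3 ∨ p % 5 = 2 := by omega
        have h4 : p ^ 2 % 5 = 4 := by
          rcases h' with h' | h' <;> simp [Nat.pow_mod, h']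
        omega
    · exact full_field_case (p ^ 2) g N hg0 (by omega) hNg (hcase.imp_right And.left)

theorem arith_5941 (p : ℕ) (hp : p.Prime) (hp2 : p ≠ 2) (e : ℕ) (he : 1 ≤ e) :
    MaxArith p (e * 2) (p ^ e * ((p ^ e) ^ 2 - 1)) := by
  intro g hg
  have hg0 := hg
  have hpodd : Odd p := hp.odd_of_ne_two hp2
  have hQodd : Odd (p ^ e) := hpodd.pow
  rw [gcd_two_odd hpodd.pow] at hg
  have hQ3 : 3 ≤ p ^ e := by
    have h1 : p ≤ p ^ e := Nat.le_self_pow (by omega) p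
    have := hp.two_le
    omega
  have hq : p ^ (e * 2) = (p ^ e) ^ 2 := pow_mul p e 2
  rw [hq] at hg
  have hQ9 : 9 ≤ (p ^ e) ^ 2 := by nlinarith
  obtain ⟨Z, hZ⟩ : ∃ Z, (p ^ e) ^ 2 = Z + 1 := ⟨(p ^ e) ^ 2 - 1, by omega⟩
  have hh24 : 3 * 8 ≤ p ^ e * ((p ^ e) ^ 2 - 1) := Nat.mul_le_mul hQ3 (by omega)
  have hfac : g * 2 = (p ^ e * ((p ^ e) ^ 2 - 1)) * (p ^ e * ((p ^ e) ^ 2 + 1)) := by
    rw [hg, hZ]
    have e1 : (Z + 1) ^ 2 - 1 = Z * (Z + 2) := by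
      have : (Z + 1) ^ 2 = Z * (Z + 2) + 1 := by ring
      omega
    have e2 : Z + 1 - 1 = Z := by omega
    rw [e1, e2]
    have e3 : p ^ e * Z * (p ^ e * (Z + 1 + 1)) = (p ^ e) ^ 2 * (Z * (Z + 2)) := by ring
    rw [e3, hZ]
  have h30 : 3 * 10 ≤ p ^ e * ((p ^ e) ^ 2 + 1) := Nat.mul_le_mul hQ3 (by omega)
  have hmul := Nat.mul_le_mul_left (p ^ e * ((p ^ e) ^ 2 - 1)) h30
  rw [← hfac] at hmul
  have hhg : p ^ e * ((p ^ e) ^ 2 - 1) < g := by omega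
  refine ⟨hhg, fun N hdN hNg hlt halt => ?_⟩
  rcases halt with rfl | ⟨rfl, -⟩ | ⟨rfl, -⟩ | ⟨a, m, ham, hcase⟩
  · omega
  · omega
  · exfalso
    have hQ35 : p ^ e = 3 ∨ 5 ≤ p ^ e := by
      obtain ⟨k, hk⟩ := hQodd
      omega
    rcases hQ35 with h3 | h5
    · rw [h3] at hdN
      norm_num at hdN
    · have : 25 ≤ (p ^ e) ^ 2 := by nlinarith
      have : 5 * 24 ≤ p ^ e * ((p ^ e) ^ 2 - 1) := Nat.mul_le_mul h5 (by omega)
      omega
  · have hNdvd : N ∣ p ^ a * ((p ^ a) ^ 2 - 1) := by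
      rcases hcase with h | ⟨h, -⟩
      · exact Dvd.intro _ h
      · exact h ▸ dvd_rfl
    have hd : p ^ e * ((p ^ e) ^ 2 - 1) ∣ 2 * (p ^ a * ((p ^ a) ^ 2 - 1)) :=
      (hdN.trans hNdvd).trans (Dvd.intro_left 2 rfl)
    rcases subfield_cases p hp e 2 a m he Nat.prime_two ham hd with ⟨h1, h2⟩ | ⟨h1, h2⟩
    · subst h1
      rcases hcase with h | ⟨h, -⟩
      · rw [gcd_two_odd hQodd] at h
        omega
      · omega
    · subst h1
      exact full_field_case (p ^ (e * 2)) g N hg0 (by omega) hNg (hcase.imp_right And.left)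

theorem arith_5942 (p : ℕ) (hp : p.Prime) (hp2 : p ≠ 2) (e r : ℕ) (he : 1 ≤ e) (hr : r.Prime)
    (hr2 : r ≠ 2) (h : ℕ) (hh : h * Nat.gcd 2 (p ^ e - 1) = p ^ e * ((p ^ e) ^ 2 - 1)) :
    MaxArith p (e * r) h := by
  intro g hg
  have hg0 := hg
  have hpodd : Odd p := hp.odd_of_ne_two hp2
  have hQodd : Odd (p ^ e) := hpodd.pow
  rw [gcd_two_odd hpodd.pow] at hg
  rw [gcd_two_odd hQodd] at hh
  have hQ3 : 3 ≤ p ^ e := by
    have h1 : p ≤ p ^ e := Nat.le_self_pow (by omega) p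
    have := hp.two_le
    omega
  have hr3 : 3 ≤ r := by
    have := hr.two_le
    omega
  have hrodd : Odd r := hr.odd_of_ne_two hr2
  have hq : p ^ (e * r) = (p ^ e) ^ r := pow_mul p e r
  have hQq : p ^ e < p ^ (e * r) := Nat.pow_lt_pow_right hp.one_lt (by nlinarith)
  have hlt2 : p ^ e * ((p ^ e) ^ 2 - 1) < p ^ (e * r) * ((p ^ (e * r)) ^ 2 - 1) :=
    fQ_lt hQq (by omega)
  have hhg : h < g := by omega
  refine ⟨hhg, fun N hdN hNg hlt halt => ?_⟩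
  have hQ35 : p ^ e = 3 ∨ 5 ≤ p ^ e := by
    obtain ⟨k, hk⟩ := hQodd
    omega
  have hh60 : 5 ≤ p ^ e → 60 ≤ h := by
    intro h5
    have : 25 ≤ (p ^ e) ^ 2 := by nlinarith
    have : 5 * 24 ≤ p ^ e * ((p ^ e) ^ 2 - 1) := Nat.mul_le_mul h5 (by omega)
    omega
  have hpow3 : ∀ k : ℕ, (3 ^ (2 * k + 1)) ^ 2 = (3 ^ 4) ^ k * 9 := by
    intro k
    rw [← pow_mul, show (2 * k + 1) * 2 = 4 * k + 2 by ring, pow_add, pow_mul]
    norm_num
  rcases halt with rfl | ⟨rfl, h16⟩ | ⟨rfl, hdvd⟩ | ⟨a, m, ham, hcase⟩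
  · rcases hQ35 with h3 | h5
    · rw [h3] at hh
      norm_num at hh
      omega
    · have := hh60 h5
      omega
  · rcases hQ35 with h3 | h5
    · exfalso
      rw [hq, h3] at h16
      obtain ⟨k, rfl⟩ := hrodd
      rw [hpow3, Nat.mul_mod, Nat.pow_mod] at h16
      norm_num at h16
    · have := hh60 h5
      omega
  · rcases hQ35 with h3 | h5
    · exfalso
      rw [hq, h3] at hdvd
      obtain ⟨k, rfl⟩ := hrodd
      rcases (Nat.Prime.dvd_mul Nat.prime_five).mp hdvd with h' | h'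
      · have := Nat.Prime.dvd_of_dvd_pow Nat.prime_five h'
        omega
      · have h4 : (3 ^ (2 * k + 1)) ^ 2 % 5 = 4 := by
          rw [hpow3, Nat.mul_mod, Nat.pow_mod]
          norm_num
        omega
    · have := hh60 h5
      omega
  · have hNdvd : N ∣ p ^ a * ((p ^ a) ^ 2 - 1) := by
      rcases hcase with h' | ⟨h', -⟩
      · exact Dvd.intro _ h'
      · exact h' ▸ dvd_rfl
    have hd : p ^ e * ((p ^ e) ^ 2 - 1) ∣ 2 * (p ^ a * ((p ^ a) ^ 2 - 1)) := by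
      rw [← hh, mul_comm h 2]
      exact Nat.mul_dvd_mul_left 2 (hdN.trans hNdvd)
    rcases subfield_cases p hp e r a m he hr ham hd with ⟨h1, h2⟩ | ⟨h1, h2⟩
    · subst h1
      subst h2
      rcases hcase with h' | ⟨h', hev⟩
      · rw [gcd_two_odd hQodd] at h'
        omega
      · exact absurd (hev hp2) (Nat.not_even_iff_odd.mpr hrodd)
    · subst h1
      exact full_field_case (p ^ (e * r)) g N hg0 (by omega) hNg (hcase.imp_right And.left)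

theorem arith_5943 (e r : ℕ) (he : 2 ≤ e) (hr : r.Prime) (h : ℕ)
    (hh : h * Nat.gcd 2 (2 ^ e - 1) = 2 ^ e * ((2 ^ e) ^ 2 - 1)) : MaxArith 2 (e * r) h := by
  intro g hg
  have hg0 := hg
  have hr2 : 2 ≤ r := hr.two_le
  have hQev : Even (2 ^ e) := Nat.even_pow.mpr ⟨even_two, by omega⟩
  have her : e * r ≠ 0 := by positivity
  have hqev : Even (2 ^ (e * r)) := Nat.even_pow.mpr ⟨even_two, her⟩
  have hQ4 : 4 ≤ 2 ^ e := by
    calc 4 = 2 ^ 2 := rfl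
      _ ≤ 2 ^ e := Nat.pow_le_pow_right (by norm_num) he
  have hq0 : 0 < 2 ^ (e * r) := by positivity
  rw [gcd_two_even hQev (by omega), mul_one] at hh
  rw [gcd_two_even hqev hq0, mul_one] at hg
  have hQ16 : 16 ≤ (2 ^ e) ^ 2 := by nlinarith
  have hh60 : 4 * 15 ≤ 2 ^ e * ((2 ^ e) ^ 2 - 1) := Nat.mul_le_mul hQ4 (by omega)
  have hQq : 2 ^ e < 2 ^ (e * r) := Nat.pow_lt_pow_right (by norm_num) (by nlinarith)
  have hlt2 : 2 ^ e * ((2 ^ e) ^ 2 - 1) < 2 ^ (e * r) * ((2 ^ (e * r)) ^ 2 - 1) :=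
    fQ_lt hQq (by omega)
  have hhg : h < g := by omega
  refine ⟨hhg, fun N hdN hNg hlt halt => ?_⟩
  rcases halt with rfl | ⟨rfl, -⟩ | ⟨rfl, -⟩ | ⟨a, m, ham, hcase⟩
  · omega
  · omega
  · omega
  · have hNdvd : N ∣ 2 ^ a * ((2 ^ a) ^ 2 - 1) := by
      rcases hcase with h' | ⟨h', -⟩
      · exact Dvd.intro _ h'
      · exact h' ▸ dvd_rfl
    have hd : 2 ^ e * ((2 ^ e) ^ 2 - 1) ∣ 2 * (2 ^ a * ((2 ^ a) ^ 2 - 1)) := by
      rw [← hh]
      exact (hdN.trans hNdvd).trans (Dvd.intro_left 2 rfl)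
    rcases subfield_cases 2 Nat.prime_two e r a m (by omega) hr ham hd with ⟨h1, h2⟩ | ⟨h1, h2⟩
    · subst h1
      rcases hcase with h' | ⟨h', -⟩
      · rw [gcd_two_even hQev (by omega), mul_one] at h'
        omega
      · omega
    · subst h1
      exact full_field_case (2 ^ (e * r)) g N hg0 (by omega) hNg (hcase.imp_right And.left)

end Cfsg.Agent.H64.DU
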