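import Mathlib

set_option autoImplicit false

namespace Cfsg.Agent.H64.GLk

open Polynomial DirectSum

theorem exists_equiv_of_card_fiber' {X Y C : Type*} [Fintype X] [Fintype Y] [DecidableEq C]
    (f : X → C) (g : Y → C)
    (h : ∀ c, Fintype.card {x // f x = c} = Fintype.card {y // g y = c}) :
    ∃ e : X ≃ Y, ∀ x, g (e x) = f x := by
  have hfib : ∀ c, Nonempty ({x // f x = c} ≃ {y // g y = c}) :=
    fun c => Fintype.card_eq.mp (h c)
  exact ⟨Equiv.ofFiberEquiv (fun c => (hfib c).some), fun x => Equiv.ofFiberEquiv_map _ x⟩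

/-- families of monic irreducible polynomials with equal products agree as multisets. -/
theorem map_eq_of_prod_eq {F : Type*} [Field F] {α β : Type*} (s : Finset α) (s' : Finset β)
    (p : α → F[X]) (p' : β → F[X])
    (hp : ∀ i ∈ s, (p i).Monic ∧ Irreducible (p i))
    (hp' : ∀ i ∈ s', (p' i).Monic ∧ Irreducible (p' i))
    (h : ∏ i ∈ s, p i = ∏ i ∈ s', p' i) : s.val.map p = s'.val.map p' := by
  have h1 : Multiset.Rel Associated (s.val.map p) (s'.val.map p') := by
    apply UniqueFactorizationMonoid.factors_unique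
    · intro x hx
      obtain ⟨i, hi, rfl⟩ := Multiset.mem_map.mp hx
      exact (hp i hi).2
    · intro x hx
      obtain ⟨i, hi, rfl⟩ := Multiset.mem_map.mp hx
      exact (hp' i hi).2
    · have : (s.val.map p).prod = (s'.val.map p').prod := h
      rw [this]
      exact Associated.refl _
  have h2 : Multiset.Rel Eq (s.val.map p) (s'.val.map p') := by
    refine h1.mono ?_
    intro a ha b hb hab
    obtain ⟨i, hi, rfl⟩ := Multiset.mem_map.mp ha
    obtain ⟨j, hj, rfl⟩ := Multiset.mem_map.mp hb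
    exact Polynomial.eq_of_monic_of_associated (hp i hi).1 (hp' j hj).1 hab
  exact Multiset.rel_eq.mp h2

theorem directSum_equiv_of_prod_eq {F : Type*} [Field F] (k k' : ℕ) (p : Fin k → F[X]) (e : Fin k → ℕ)
    (p' : Fin k' → F[X]) (e' : Fin k' → ℕ)
    (hp : ∀ i, (p i).Monic ∧ Irreducible (p i)) (hp' : ∀ i, (p' i).Monic ∧ Irreducible (p' i))
    (h : ∀ m : ℕ, ∏ i ∈ Finset.univ.filter (fun i => e i = m), p i =
      ∏ i ∈ Finset.univ.filter (fun i => e' i = m), p' i) :
    Nonempty ((⨁ i : Fin k, F[X] ⧸ F[X] ∙ p i ^ e i) ≃ₗ[F[X]]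
      (⨁ i : Fin k', F[X] ⧸ F[X] ∙ p' i ^ e' i)) := by
  classical
  have hcount : ∀ c : F[X] × ℕ, Fintype.card {i : Fin k // (p i, e i) = c}
      = Fintype.card {i : Fin k' // (p' i, e' i) = c} := by
    rintro ⟨g, m⟩
    have hM := map_eq_of_prod_eq (Finset.univ.filter (fun i => e i = m))
      (Finset.univ.filter (fun i => e' i = m)) p p' (fun i _ => hp i) (fun i _ => hp' i) (h m)
    have hc := congr_arg (Multiset.count g) hM
    rw [Multiset.count_map, Multiset.count_map] at hc
    rw [Fintype.card_subtype, Fintype.card_subtype]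
    have e1 : ∀ (kk : ℕ) (pp : Fin kk → F[X]) (ee : Fin kk → ℕ),
        (Finset.univ.filter (fun i => (pp i, ee i) = (g, m))).card
          = Multiset.card (Multiset.filter (fun a => g = pp a)
              (Finset.univ.filter (fun i => ee i = m)).val) := by
      intro kk pp ee
      rw [← Finset.filter_val, Finset.card_val, Finset.filter_filter]
      congr 1
      ext i
      simp [eq_comm, and_comm]
    rw [e1, e1, hc]
  obtain ⟨σ, hσ⟩ := exists_equiv_of_card_fiber' (fun i : Fin k => (p i, e i))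
    (fun i : Fin k' => (p' i, e' i)) hcount
  have hpσ : p = fun i => p' (σ i) := funext (fun i => (congr_arg Prod.fst (hσ i)).symm)
  have heσ : e = fun i => e' (σ i) := funext (fun i => (congr_arg Prod.snd (hσ i)).symm)
  subst hpσ heσ
  exact ⟨(DirectSum.lequivCongrLeft F[X] σ.symm
    (M := fun i' : Fin k' => F[X] ⧸ F[X] ∙ p' i' ^ e' i')).symm⟩

example {F : Type*} [Field F] (k k' : ℕ) (p : Fin k → F[X]) (e : Fin k → ℕ)
    (p' : Fin k' → F[X]) (e' : Fin k' → ℕ)
    (hp : ∀ i, (p i).Monic ∧ Irreducible (p i)) (hp' : ∀ i, (p' i).Monic ∧ Irreducible (p' i))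
    (h : ∀ m : ℕ, ∏ i ∈ Finset.univ.filter (fun i => e i = m), p i =
      ∏ i ∈ Finset.univ.filter (fun i => e' i = m), p' i) :
    Nonempty ((⨁ i : Fin k, F[X] ⧸ F[X] ∙ p i ^ e i) ≃ₗ[F[X]]
      (⨁ i : Fin k', F[X] ⧸ F[X] ∙ p' i ^ e' i)) :=
  directSum_equiv_of_prod_eq k k' p e p' e' hp hp' h

end Cfsg.Agent.H64.GLk
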