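import Mathlib
import Cfsg.Agent.H91.JRDefs
import Cfsg.Agent.H64.M11Free
import Cfsg.Agent.S0276
import Cfsg.Agent.S0809

/-!
# S3206-PSLA (helper64 for helper91): the four-group of `PSL₂(q)`, `q ≡ 3, 5 (mod 8)`
-/

set_option autoImplicit false
set_option linter.style.haveILetI false

namespace Cfsg.Agent.H64.JR

open Subgroup Cfsg.Agent.H91.JR

universe u

/-- A four-group `V` whose non-identity elements are fused by elements normalizing `V` is
normalized by an element fixing no non-identity element of `V`. -/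
theorem exists_fpf_of_trans {G : Type*} [Group G] [Finite G] (V : Subgroup G)
    (hcard : Nat.card V = 4) (hexp : ∀ v ∈ V, v * v = 1)
    (htrans : ∀ v₁ ∈ V, ∀ v₂ ∈ V, v₁ ≠ 1 → v₂ ≠ 1 →
      ∃ n : G, (∀ v ∈ V, n * v * n⁻¹ ∈ V) ∧ n * v₁ * n⁻¹ = v₂) :
    ∃ c : G, (∀ v ∈ V, c * v * c⁻¹ ∈ V) ∧ ∀ v ∈ V, c * v * c⁻¹ = v → v = 1 := by
  have hinv : ∀ v ∈ V, v⁻¹ = v := fun v hv => inv_eq_of_mul_eq_one_left (hexp v hv)
  -- a non-identity element `a`
  have hbot : (⊥ : Subgroup G) < V := by
    rw [bot_lt_iff_ne_bot]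
    rintro rfl
    rw [Subgroup.card_bot] at hcard
    omega
  obtain ⟨a, ha, ha1'⟩ := SetLike.exists_of_lt hbot
  have ha1 : a ≠ 1 := by simpa using ha1'
  obtain ⟨K1, hK1mem, hK1card, -, -⟩ :=
    Cfsg.Agent.H64.M11.exists_ext_invol (⊥ : Subgroup G) a (hexp a ha) ha1'
      (by intro h hh; rw [Subgroup.mem_bot] at hh; subst hh; simp)
  have hK1 : ∀ y, y ∈ K1 ↔ y = 1 ∨ y = a := by
    intro y
    rw [hK1mem, Subgroup.mem_bot, Subgroup.mem_bot]
    constructor
    · rintro (h | h)
      · exact Or.inl h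
      · right
        rw [← hinv a ha]
        exact eq_inv_of_mul_eq_one_left h
    · rintro (h | h)
      · exact Or.inl h
      · right
        rw [h]
        exact hexp a ha
  have hK1V : K1 < V := by
    have hle : K1 ≤ V := by
      intro y hy
      rcases (hK1 y).1 hy with rfl | rfl
      · exact V.one_mem
      · exact ha
    refine lt_of_le_of_ne hle ?_
    rintro rfl
    rw [hK1card, Subgroup.card_bot] at hcard
    omega
  obtain ⟨b, hb, hbK1⟩ := SetLike.exists_of_lt hK1V
  have hb1 : b ≠ 1 := fun h => hbK1 ((hK1 b).2 (Or.inl h))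
  have hba : b ≠ a := fun h => hbK1 ((hK1 b).2 (Or.inr h))
  have hab : a * b = b * a := by
    have h1 := hexp (a * b) (V.mul_mem ha hb)
    have h2 := eq_inv_of_mul_eq_one_left h1
    rw [mul_inv_rev, hinv a ha, hinv b hb] at h2
    exact h2
  obtain ⟨K2, hK2mem, hK2card, -, -⟩ :=
    Cfsg.Agent.H64.M11.exists_ext_invol K1 b (hexp b hb) hbK1
      (by
        intro h hh
        rcases (hK1 h).1 hh with rfl | rfl
        · simp
        · exact hab.symm)
  have hK2V : K2 = V := by
    apply Subgroup.eq_of_le_of_card_ge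
    · intro y hy
      rcases (hK2mem y).1 hy with h | h
      · exact hK1V.le h
      · have h1 : y = y * b * b⁻¹ := by group
        rw [h1]
        exact V.mul_mem (hK1V.le h) (V.inv_mem hb)
    · rw [hK2card, hK1card, Subgroup.card_bot, hcard]
  have hall : ∀ v ∈ V, v = 1 ∨ v = a ∨ v = b ∨ v = a * b := by
    intro v hv
    rw [← hK2V, hK2mem] at hv
    rcases hv with h | h
    · rcases (hK1 v).1 h with h | h
      · exact Or.inl h
      · exact Or.inr (Or.inl h)
    · rcases (hK1 _).1 h with h | h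
      · right; right; left
        rw [← hinv b hb]
        exact eq_inv_of_mul_eq_one_left h
      · right; right; right
        have h1 : v = a * b⁻¹ := by rw [← h]; group
        rw [h1, hinv b hb]
  have hab1 : a * b ≠ a := by
    intro h
    apply hb1
    have : b = a⁻¹ * (a * b) := by group
    rw [this, h, inv_mul_cancel]
  have hab2 : a * b ≠ b := by
    intro h
    apply ha1
    have : a = (a * b) * b⁻¹ := by group
    rw [this, h, mul_inv_cancel]
  have hbab : b * (a * b) = a := by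
    rw [hab, ← mul_assoc, hexp b hb, one_mul]
  have haba : (a * b) * a = b := by
    rw [hab, mul_assoc, hexp a ha, mul_one]
  have hconj : ∀ c x y : G, c * (x * y) * c⁻¹ = (c * x * c⁻¹) * (c * y * c⁻¹) := by
    intro c x y
    group
  -- criterion
  have crit : ∀ c : G, (∀ v ∈ V, c * v * c⁻¹ ∈ V) → c * a * c⁻¹ ≠ a → c * b * c⁻¹ ≠ b →
      c * (a * b) * c⁻¹ ≠ a * b →
      ∃ c : G, (∀ v ∈ V, c * v * c⁻¹ ∈ V) ∧ ∀ v ∈ V, c * v * c⁻¹ = v → v = 1 := by
    intro c hc h1 h2 h3
    refine ⟨c, hc, fun v hv hfix => ?_⟩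
    rcases hall v hv with rfl | rfl | rfl | rfl
    · rfl
    · exact absurd hfix h1
    · exact absurd hfix h2
    · exact absurd hfix h3
  have hinj : ∀ c x y : G, c * x * c⁻¹ = c * y * c⁻¹ → x = y := by
    intro c x y h
    have : x = c⁻¹ * (c * x * c⁻¹) * c := by group
    rw [this, h]
    group
  have hc1 : ∀ c x : G, c * x * c⁻¹ = 1 → x = 1 := by
    intro c x h
    have : x = c⁻¹ * (c * x * c⁻¹) * c := by group
    rw [this, h]
    group
  obtain ⟨n, hn, hna⟩ := htrans a ha b hb ha1 hb1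
  rcases hall _ (hn b hb) with h | h | h | h
  · exact absurd (hc1 n b h) hb1
  · -- n swaps a and b
    obtain ⟨n', hn', hn'a⟩ := htrans a ha (a * b) (V.mul_mem ha hb) ha1
      (by
        intro h
        apply hba
        rw [← hinv a ha]
        exact (eq_inv_of_mul_eq_one_right h))
    rcases hall _ (hn' b hb) with h' | h' | h' | h'
    · exact absurd (hc1 n' b h') hb1
    · -- n' : a ↦ ab, b ↦ a
      refine crit n' hn' ?_ ?_ ?_
      · rw [hn'a]; exact hab1
      · rw [h']; exact fun h => hba h.symm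
      · rw [hconj, hn'a, h', haba]
        exact fun h => hab2 h.symm
    · -- n' : a ↦ ab, b ↦ b ; c := n' * n
      have e1 : (n' * n) * a * (n' * n)⁻¹ = b := by
        have : (n' * n) * a * (n' * n)⁻¹ = n' * (n * a * n⁻¹) * n'⁻¹ := by group
        rw [this, hna, h']
      have e2 : (n' * n) * b * (n' * n)⁻¹ = a * b := by
        have : (n' * n) * b * (n' * n)⁻¹ = n' * (n * b * n⁻¹) * n'⁻¹ := by group
        rw [this, h, hn'a]
      refine crit (n' * n) ?_ ?_ ?_ ?_
      · intro v hv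
        have : (n' * n) * v * (n' * n)⁻¹ = n' * (n * v * n⁻¹) * n'⁻¹ := by group
        rw [this]
        exact hn' _ (hn v hv)
      · rw [e1]; exact hba
      · rw [e2]; exact hab2
      · rw [hconj, e1, e2, hbab]
        exact fun h => hab1 h.symm
    · -- n' a n'⁻¹ = n' b n'⁻¹
      exact absurd (hinj n' b a (h'.trans hn'a.symm)) hba
  · exact absurd (hinj n a b (hna.trans h.symm)) (fun h => hba h.symm)
  · -- n : a ↦ b ↦ ab
    refine crit n hn ?_ ?_ ?_
    · rw [hna]; exact hba
    · rw [h]; exact hab2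
    · rw [hconj, hna, h, hbab]
      exact fun h => hab1 h.symm

/-- **S3206-PSLA**. -/
theorem pslA : PslAStmt.{u} := by
  intro F _ _ hq3 hq8
  have hodd : Odd (Fintype.card F) := by
    rw [Nat.odd_iff]
    omega
  haveI : Fact (Nat.Prime 2) := ⟨Nat.prime_two⟩
  refine ⟨Matrix.ProjectiveSpecialLinearGroup.rank_two_simple
    (by rw [Nat.card_eq_fintype_card]; omega), fun V => ?_⟩
  have hK := Cfsg.Agent.S0276.result (F := F) rfl hq8 V
  have hcard : Nat.card ↥(V : Subgroup (Matrix.ProjectiveSpecialLinearGroup (Fin 2) F)) = 4 :=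
    hK.card_four
  have hexp : ∀ v ∈ (V : Subgroup (Matrix.ProjectiveSpecialLinearGroup (Fin 2) F)),
      v * v = 1 := by
    intro v hv
    have h1 := Monoid.pow_exponent_eq_one
      (⟨v, hv⟩ : ↥(V : Subgroup (Matrix.ProjectiveSpecialLinearGroup (Fin 2) F)))
    rw [hK.exponent_two] at h1
    have h2 := congrArg Subtype.val h1
    simpa [pow_two] using h2
  refine ⟨⟨hcard, hexp⟩, exists_fpf_of_trans _ hcard hexp ?_⟩
  intro v₁ hv₁ v₂ hv₂ h1 h2
  have ho1 : orderOf v₁ = 2 := orderOf_eq_prime (by rw [pow_two]; exact hexp v₁ hv₁) h1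
  have ho2 : orderOf v₂ = 2 := orderOf_eq_prime (by rw [pow_two]; exact hexp v₂ hv₂) h2
  obtain ⟨c, hc⟩ := isConj_iff.mp (Cfsg.Agent.S0809.part4 hodd v₁ v₂ ho1 ho2)
  haveI : IsMulCommutative ↥(V : Subgroup (Matrix.ProjectiveSpecialLinearGroup (Fin 2) F)) := by
    refine ⟨⟨fun x y => ?_⟩⟩
    have hx := hexp x x.2
    have hy := hexp y y.2
    have hxy := hexp (x * y) (x * y).2
    apply Subtype.ext
    have h3 := eq_inv_of_mul_eq_one_left hxy
    rw [mul_inv_rev] at h3
    have h4 : ((x : Matrix.ProjectiveSpecialLinearGroup (Fin 2) F))⁻¹ = x :=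
      inv_eq_of_mul_eq_one_left hx
    have h5 : ((y : Matrix.ProjectiveSpecialLinearGroup (Fin 2) F))⁻¹ = y :=
      inv_eq_of_mul_eq_one_left hy
    simpa [h4, h5] using h3
  obtain ⟨n, hn, hnx⟩ := Sylow.conj_eq_normalizer_conj_of_mem V v₁ c⁻¹ hv₁ (by
    rw [inv_inv, hc]; exact hv₂)
  rw [inv_inv, hc] at hnx
  refine ⟨n⁻¹, ?_, ?_⟩
  · intro v hv
    have hn' := Subgroup.inv_mem _ hn
    exact ((Subgroup.mem_normalizer_iff).1 hn' v).1 hv
  · rw [inv_inv, ← hnx]

example : PslAStmt.{u} := pslA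

end Cfsg.Agent.H64.JR
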