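import Mathlib
import Cfsg.Agent.H91.JRDefs

/-!
# S3206-TRANS (helper64 for helper91): `PslCfg` is invariant under isomorphism
-/

set_option autoImplicit false
set_option linter.style.haveILetI false

namespace Cfsg.Agent.H64.JR

open Subgroup Cfsg.Agent.H91.JR

universe u v

/-- **S3206-TRANS**. -/
theorem trans : TransStmt.{u, v} := by
  intro N _ N₂ _ hN e
  obtain ⟨hsimp, hV⟩ := hN
  refine ⟨e.symm.isSimpleGroup, fun V₂ => ?_⟩
  -- the corresponding Sylow subgroup of `N`
  let V : Sylow 2 N := V₂.comapOfInjective e.toMonoidHom e.injective (by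
    rw [MonoidHom.range_eq_top.2 e.surjective]
    exact le_top)
  have hVmem : ∀ x : N, x ∈ (V : Subgroup N) ↔ e x ∈ (V₂ : Subgroup N₂) := by
    intro x
    have : (V : Subgroup N) = Subgroup.comap e.toMonoidHom (V₂ : Subgroup N₂) :=
      Sylow.coe_comapOfInjective _ _ _ _
    rw [this]
    rfl
  have hVmem' : ∀ y : N₂, y ∈ (V₂ : Subgroup N₂) → e.symm y ∈ (V : Subgroup N) := by
    intro y hy
    rw [hVmem, MulEquiv.apply_symm_apply]
    exact hy
  obtain ⟨⟨hcard, hexp⟩, ⟨c, hc1, hc2⟩, hα⟩ := hV V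
  refine ⟨⟨?_, ?_⟩, ⟨e c, ?_, ?_⟩, ?_⟩
  · have hmap : Subgroup.map e.toMonoidHom (V : Subgroup N) = (V₂ : Subgroup N₂) := by
      ext y
      constructor
      · rintro ⟨x, hx, rfl⟩
        exact (hVmem x).1 hx
      · intro hy
        exact ⟨e.symm y, hVmem' y hy, by simp⟩
    rw [← hmap, Subgroup.card_map_of_injective e.injective]
    exact hcard
  · intro v hv
    have h1 := hexp _ (hVmem' v hv)
    have h2 := congrArg e h1
    simpa using h2
  · intro v hv
    have h1 := hc1 _ (hVmem' v hv)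
    rw [hVmem] at h1
    simpa using h1
  · intro v hv hfix
    have h1 : c * e.symm v * c⁻¹ = e.symm v := by
      have h2 := congrArg e.symm hfix
      simpa using h2
    have h3 := hc2 _ (hVmem' v hv) h1
    have h4 := congrArg e h3
    simpa using h4
  · intro α₂ k hα₂ hfix
    have hpow : (MulAut.congr e.symm α₂) ^ (2 ^ k) = 1 := by
      rw [← map_pow, hα₂, map_one]
    have happ : ∀ x : N, (MulAut.congr e.symm α₂) x = e.symm (α₂ (e x)) := fun x => rfl
    obtain ⟨w, hw, hwx⟩ := hα (MulAut.congr e.symm α₂) k hpow (by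
      intro v hv
      rw [happ, hfix _ ((hVmem v).1 hv), MulEquiv.symm_apply_apply])
    refine ⟨e w, (hVmem w).1 hw, fun y => ?_⟩
    have h1 := hwx (e.symm y)
    rw [happ, MulEquiv.apply_symm_apply] at h1
    have h2 := congrArg e h1
    simpa using h2

example : TransStmt.{u, v} := trans

end Cfsg.Agent.H64.JR
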