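import Mathlib

set_option autoImplicit false

namespace Cfsg.Agent.H64

open MulAction
open scoped Pointwise

/-- A quasiprimitive action (every nontrivial normal subgroup is transitive) that has a Jordan set
`Γ` with more than one point on which the pointwise stabilizer of the complement acts primitively
is primitive. -/
theorem isPreprimitive_of_quasi_of_jordan {G Ω : Type*} [Group G] [MulAction G Ω] [Finite Ω]
    (hqp : ∀ N : Subgroup G, N.Normal → N ≠ ⊥ → MulAction.IsPretransitive ↥N Ω)
    (Γ : Set Ω) (hΓ1 : 1 < Γ.ncard)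
    (hJp : MulAction.IsPreprimitive ↥(fixingSubgroup G Γᶜ) ↥(SubMulAction.ofFixingSubgroup G Γᶜ)) :
    MulAction.IsPreprimitive G Ω := by
  classical
  obtain ⟨a, a', ha, ha', haa'⟩ := (Set.one_lt_ncard_iff (Set.toFinite Γ)).mp hΓ1
  -- membership in the sub-action
  have memΓ : ∀ x : Ω, x ∈ SubMulAction.ofFixingSubgroup G Γᶜ ↔ x ∈ Γ := by
    intro x
    rw [SubMulAction.mem_ofFixingSubgroup_iff]
    simp
  -- H preserves Γ
  have hpres : ∀ h ∈ fixingSubgroup G Γᶜ, ∀ x ∈ Γ, h • x ∈ Γ := by
    intro h hh x hx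
    have := (SubMulAction.ofFixingSubgroup G Γᶜ).smul_mem (⟨h, hh⟩ : fixingSubgroup G Γᶜ)
      ((memΓ x).mpr hx)
    exact (memΓ _).mp this
  -- H fixes the complement pointwise
  have hfix : ∀ h ∈ fixingSubgroup G Γᶜ, ∀ x, x ∉ Γ → h • x = x := by
    intro h hh x hx
    exact (mem_fixingSubgroup_iff G).mp hh x (by simpa using hx)
  -- transitivity of H on Γ
  have htrans : ∀ x ∈ Γ, ∀ y ∈ Γ, ∃ h ∈ fixingSubgroup G Γᶜ, h • x = y := by
    intro x hx y hy
    have := hJp.toIsPretransitive
    obtain ⟨⟨h, hh⟩, hxy⟩ := MulAction.exists_smul_eq (fixingSubgroup G Γᶜ)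
      (⟨x, (memΓ x).mpr hx⟩ : SubMulAction.ofFixingSubgroup G Γᶜ) ⟨y, (memΓ y).mpr hy⟩
    refine ⟨h, hh, ?_⟩
    have := congrArg Subtype.val hxy
    simpa using this
  -- H is nontrivial
  obtain ⟨h0, hh0, hh0a⟩ := htrans a ha a' ha'
  have hHne : fixingSubgroup G Γᶜ ≠ ⊥ := by
    intro hbot
    rw [hbot, Subgroup.mem_bot] at hh0
    rw [hh0, one_smul] at hh0a
    exact haa' hh0a
  -- G is transitive
  have hGtrans : MulAction.IsPretransitive G Ω := by
    have htop : (⊤ : Subgroup G) ≠ ⊥ := by
      intro h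
      apply hHne
      rw [eq_bot_iff, ← h]
      exact le_top
    have := hqp ⊤ inferInstance htop
    refine ⟨fun x y => ?_⟩
    obtain ⟨⟨g, _⟩, hg⟩ := MulAction.exists_smul_eq (⊤ : Subgroup G) x y
    exact ⟨g, hg⟩
  refine MulAction.IsPreprimitive.of_isTrivialBlock_base a ?_
  intro B haB hB
  -- the trace of B on Γ is a block for H
  have hB' : IsBlock (fixingSubgroup G Γᶜ)
      ((SubMulAction.ofFixingSubgroup_equivariantMap G Γᶜ) ⁻¹' B) :=
    hB.preimage (SubMulAction.ofFixingSubgroup_equivariantMap G Γᶜ)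
  rcases hJp.isTrivialBlock_of_isBlock hB' with hsub | huniv
  · -- B ∩ Γ is a subsingleton: B is a subsingleton
    left
    have hsub' : ∀ x ∈ B, x ∈ Γ → x = a := by
      intro x hxB hxΓ
      have := @hsub ⟨x, (memΓ x).mpr hxΓ⟩ hxB ⟨a, (memΓ a).mpr ha⟩ haB
      exact congrArg Subtype.val this
    by_contra hns
    rw [Set.not_subsingleton_iff] at hns
    obtain ⟨x, hx, y, hy, hxy⟩ := hns
    -- there is δ ∈ B with δ ≠ a, hence δ ∉ Γ
    obtain ⟨δ, hδB, hδa⟩ : ∃ δ ∈ B, δ ≠ a := by
      by_cases hxa : x = a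
      · exact ⟨y, hy, fun h => hxy (hxa.trans h.symm)⟩
      · exact ⟨x, hx, hxa⟩
    have hδΓ : δ ∉ Γ := fun h => hδa (hsub' δ hδB h)
    -- h0 fixes δ, hence B, hence a
    have hδ : h0 • δ = δ := hfix h0 hh0 δ hδΓ
    have hBB : h0 • B = B := by
      rcases (isBlock_iff_smul_eq_or_disjoint.mp hB) h0 with h | h
      · exact h
      · exfalso
        rw [Set.disjoint_left] at h
        exact h (Set.smul_mem_smul_set hδB) (by rw [hδ]; exact hδB)
    have : h0 • a ∈ B := by
      rw [← hBB]
      exact Set.smul_mem_smul_set haB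
    have := hsub' (h0 • a) this (hpres h0 hh0 a ha)
    rw [hh0a] at this
    exact haa' this.symm
  · -- Γ ⊆ B : then B = univ
    right
    have hΓB : Γ ⊆ B := by
      intro x hx
      have : (⟨x, (memΓ x).mpr hx⟩ : SubMulAction.ofFixingSubgroup G Γᶜ) ∈
          (SubMulAction.ofFixingSubgroup_equivariantMap G Γᶜ) ⁻¹' B := by
        rw [huniv]; trivial
      exact this
    -- the kernel of the action on the translates of B
    let M : Subgroup G :=
      { carrier := {m | ∀ g : G, m • g • B = g • B}
        one_mem' := by intro g; simp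
        mul_mem' := by
          intro x y hx hy g
          rw [mul_smul, hy g, hx g]
        inv_mem' := by
          intro x hx g
          rw [inv_smul_eq_iff, hx g] }
    have hMn : M.Normal := by
      constructor
      intro m hm k g
      have := hm (k⁻¹ * g)
      rw [mul_smul, mul_smul, ← mul_smul k⁻¹ g, this, smul_smul]
      simp
    have hHM : fixingSubgroup G Γᶜ ≤ M := by
      intro h hh g
      by_cases hdisj : ∃ x ∈ g • B, x ∈ Γ
      · obtain ⟨x, hxg, hxΓ⟩ := hdisj
        have hgB : g • B = B := by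
          rcases (isBlock_iff_smul_eq_or_disjoint.mp hB) g with h | h
          · exact h
          · exfalso
            rw [Set.disjoint_left] at h
            exact h hxg (hΓB hxΓ)
        rw [hgB]
        rcases (isBlock_iff_smul_eq_or_disjoint.mp hB) h with h' | h'
        · exact h'
        · exfalso
          rw [Set.disjoint_left] at h'
          exact h' (Set.smul_mem_smul_set haB) (hΓB (hpres h hh a ha))
      · push Not at hdisj
        ext y
        constructor
        · rintro ⟨x, hx, rfl⟩
          change h • x ∈ g • B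
          rw [hfix h hh x (hdisj x hx)]
          exact hx
        · intro hy
          refine ⟨y, hy, ?_⟩
          exact hfix h hh y (hdisj y hy)
    have hMne : M ≠ ⊥ := by
      intro hbot
      apply hHne
      rw [eq_bot_iff, ← hbot]
      exact hHM
    have hMtrans := hqp M hMn hMne
    rw [Set.eq_univ_iff_forall]
    intro x
    obtain ⟨⟨m, hm⟩, hmx⟩ := MulAction.exists_smul_eq M a x
    have hmB : m • B = B := by
      have := hm 1
      simpa using this
    rw [← hmB]
    exact ⟨a, haB, hmx⟩

end Cfsg.Agent.H64
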