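import Mathlib

set_option autoImplicit false

namespace Cfsg.Agent.H64

/-- The wreath product `ZMod p ≀ ZMod q`, written by hand. -/
@[ext]
structure Lamp (p q : ℕ) where
  v : ZMod q → ZMod p
  i : ZMod q

namespace Lamp

variable {p q : ℕ}

instance : Mul (Lamp p q) := ⟨fun a b => ⟨fun k => a.v k + b.v (k - a.i), a.i + b.i⟩⟩
instance : One (Lamp p q) := ⟨⟨fun _ => 0, 0⟩⟩
instance : Inv (Lamp p q) := ⟨fun a => ⟨fun k => - a.v (k + a.i), - a.i⟩⟩

@[simp] theorem mul_v (a b : Lamp p q) (k : ZMod q) : (a * b).v k = a.v k + b.v (k - a.i) := rfl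
@[simp] theorem mul_i (a b : Lamp p q) : (a * b).i = a.i + b.i := rfl
@[simp] theorem one_v (k : ZMod q) : (1 : Lamp p q).v k = 0 := rfl
@[simp] theorem one_i : (1 : Lamp p q).i = 0 := rfl
@[simp] theorem inv_v (a : Lamp p q) (k : ZMod q) : (a⁻¹).v k = - a.v (k + a.i) := rfl
@[simp] theorem inv_i (a : Lamp p q) : (a⁻¹).i = - a.i := rfl

instance : Group (Lamp p q) :=
  Group.ofLeftAxioms
    (by
      intro a b c
      ext k
      · simp [add_assoc, sub_sub]
      · simp [add_assoc])
    (by
      intro a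
      ext k
      · simp
      · simp)
    (by
      intro a
      ext k
      · simp
      · simp)

theorem pow_i (a : Lamp p q) (n : ℕ) : (a ^ n).i = n • a.i := by
  induction n with
  | zero => simp
  | succ n ih => rw [pow_succ, mul_i, ih, succ_nsmul]

theorem pow_v (a : Lamp p q) (n : ℕ) (k : ZMod q) :
    (a ^ n).v k = ∑ m ∈ Finset.range n, a.v (k - m • a.i) := by
  induction n generalizing k with
  | zero => simp
  | succ n ih => rw [pow_succ, mul_v, ih, Finset.sum_range_succ, pow_i]

instance [NeZero p] [NeZero q] : Finite (Lamp p q) :=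
  Finite.of_injective (fun a : Lamp p q => (a.v, a.i)) (by
    intro a b h
    simp only [Prod.mk.injEq] at h
    exact Lamp.ext h.1 h.2)

/-- Summing over `range q` of natural casts is summing over `ZMod q`. -/
theorem sum_range_cast {M : Type*} [AddCommMonoid M] [NeZero q] (g : ZMod q → M) :
    ∑ m ∈ Finset.range q, g (m : ZMod q) = ∑ x : ZMod q, g x := by
  refine Finset.sum_bij (fun m _ => (m : ZMod q)) (fun _ _ => Finset.mem_univ _) ?_ ?_ (fun _ _ => rfl)
  · intro m1 h1 m2 h2 h
    rw [Finset.mem_range] at h1 h2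
    rw [ZMod.natCast_eq_natCast_iff'] at h
    rwa [Nat.mod_eq_of_lt h1, Nat.mod_eq_of_lt h2] at h
  · intro x _
    exact ⟨x.val, Finset.mem_range.mpr (ZMod.val_lt x), ZMod.natCast_zmod_val x⟩

/-- The augmentation subgroup. -/
def sub (p q : ℕ) [NeZero q] : Subgroup (Lamp p q) where
  carrier := {a | ∑ k, a.v k = 0}
  one_mem' := by simp
  mul_mem' := by
    intro a b ha hb
    simp only [Set.mem_ofPred_eq, mul_v] at *
    rw [Finset.sum_add_distrib, ha, zero_add, ← hb]
    exact Fintype.sum_equiv (Equiv.subRight a.i) _ _ (fun k => rfl)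
  inv_mem' := by
    intro a ha
    simp only [Set.mem_ofPred_eq, inv_v] at *
    rw [Finset.sum_neg_distrib, neg_eq_zero, ← ha]
    exact Fintype.sum_equiv (Equiv.addRight a.i) _ _ (fun k => rfl)

theorem mem_sub [NeZero q] (a : Lamp p q) : a ∈ sub p q ↔ ∑ k, a.v k = 0 := Iff.rfl

theorem pow_p_eq_one [NeZero p] (a : Lamp p q) (hi : a.i = 0) : a ^ p = 1 := by
  ext k
  · rw [pow_v, one_v]
    simp [hi]
  · rw [pow_i, hi]
    simp

theorem pow_q_eq_one [Fact q.Prime] (a : Lamp p q) (ha : a ∈ sub p q) (hi : a.i ≠ 0) :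
    a ^ q = 1 := by
  ext k
  · rw [pow_v, one_v]
    have h1 : ∑ m ∈ Finset.range q, a.v (k - m • a.i) =
        ∑ m ∈ Finset.range q, (fun x : ZMod q => a.v (k - x * a.i)) (m : ZMod q) := by
      apply Finset.sum_congr rfl
      intro m _
      simp [nsmul_eq_mul]
    rw [h1, sum_range_cast (fun x : ZMod q => a.v (k - x * a.i))]
    rw [mem_sub] at ha
    rw [← ha]
    refine Fintype.sum_bijective (fun x : ZMod q => k - x * a.i) ?_ _ _ (fun x => rfl)
    apply Finite.injective_iff_bijective.mp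
    intro x y hxy
    have h2 : x * a.i = y * a.i := by
      have := congrArg (fun t => k - t) hxy
      simpa using this
    exact mul_right_cancel₀ hi h2
  · rw [pow_i]
    simp

theorem i_eq_zero_of_pow_p [Fact p.Prime] [Fact q.Prime] (hpq : p ≠ q) (a : Lamp p q)
    (ha : a ^ p = 1) : a.i = 0 := by
  have h := congrArg Lamp.i ha
  rw [pow_i, one_i, nsmul_eq_mul] at h
  rcases mul_eq_zero.mp h with h | h
  · exfalso
    rw [ZMod.natCast_eq_zero_iff] at h
    exact hpq ((Nat.prime_dvd_prime_iff_eq (Fact.out : q.Prime) (Fact.out : p.Prime)).mp h).symm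
  · exact h

end Lamp

end Cfsg.Agent.H64
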