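import Cfsg.Agent.H64.MgDefs

/-!
# Marggraf (S3620) team project: assembly of the piece statements.
-/

set_option autoImplicit false
open scoped Pointwise
open MulAction

namespace Cfsg.Agent.H64.Mg

universe u v

/-- gluing orbits: `T ⊆ W ⊂ Δ`, `W` a `JC` set and transitivity inside `Δ` give `JC T`. -/
theorem fin_glue {M : Type u} {α : Type v} [Group M] [MulAction M α]
    {T W Δ : Finset α} (hTW : T ⊆ W) (hWΔ : W ⊆ Δ) (hw : ∃ w₀ ∈ Δ, w₀ ∉ W) (hW : JC M W)
    (hT : ∀ x ∈ Δ, x ∉ T → ∀ y ∈ Δ, y ∉ T → ∃ h : M, (∀ z ∈ T, h • z = z) ∧ h • x = y) :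
    JC M T := by
  obtain ⟨w₀, hw₀Δ, hw₀W⟩ := hw
  have hw₀T : w₀ ∉ T := fun h => hw₀W (hTW h)
  have key : ∀ x, x ∉ T → ∃ g : M, (∀ z ∈ T, g • z = z) ∧ g • x = w₀ := by
    intro x hx
    by_cases hxΔ : x ∈ Δ
    · exact hT x hxΔ hx w₀ hw₀Δ hw₀T
    · have hxW : x ∉ W := fun h => hxΔ (hWΔ h)
      obtain ⟨g, hg, hgx⟩ := hW x hxW w₀ hw₀W
      exact ⟨g, fun z hz => hg z (hTW hz), hgx⟩
  intro x hx y hy
  obtain ⟨g, hg, hgx⟩ := key x hx
  obtain ⟨k, hk, hky⟩ := key y hy
  refine ⟨k⁻¹ * g, ?_, ?_⟩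
  · intro w hw
    rw [mul_smul, hg w hw]
    exact inv_smul_eq_iff.mpr (hk w hw).symm
  · rw [mul_smul, hgx]
    exact inv_smul_eq_iff.mpr hky.symm

/-- The primitive case in every degree, from the pieces. -/
theorem mstmt_all (hJT2 : JT2Stmt.{u, v}) (hLC : LCStmt.{u, v}) (hGOOD : GOODStmt.{u, v})
    (hA3 : A3Stmt.{u, v}) (hB3T : B3TStmt.{u, v}) (hU1 : U1Stmt.{u, v})
    (hTR1 : TR1Stmt.{u, v}) (hCLS : CLSStmt.{u, v}) (hC1 : C1SUBStmt.{u, v})
    (hDA : DAStmt.{u, v}) (hDB : DBStmt.{u, v}) : ∀ N, MStmt.{u, v} N := by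
  intro N
  induction N using Nat.strong_induction_on with
  | _ N ih =>
  intro M α _ _ _ _ hN hprim Δ hΔ1 hΔ2 hJC
  have hKT2 : KT M α 2 := hJT2 M α hprim Δ (by omega) (by omega) hJC
  have hΔne : Δ.Nonempty := Finset.card_pos.mp (by omega)
  obtain ⟨a, ha⟩ := hΔne
  have hLCa := hLC M α hKT2 Δ hJC (by omega) (by omega) a ha
  by_cases hgood : N + 1 < 2 * Δ.card
  · obtain ⟨N', rfl⟩ : ∃ N', N = N' + 1 := ⟨N - 1, by omega⟩
    exact hA3 M α hprim
      (hGOOD N' (ih N' (by omega)) M α hN Δ hJC (by omega) (by omega) a ha hLCa)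
  · obtain ⟨m, hm⟩ : ∃ m, Δ.card = m + 1 := ⟨Δ.card - 1, by omega⟩
    have hNm : N = 2 * m + 1 := by omega
    have hm2 : 2 ≤ m := by omega
    have hcard : Fintype.card α = 2 * m + 1 := by omega
    have hKT3 : KT M α 3 := hB3T M α hKT2 Δ hJC (by omega) (by omega) a ha hLCa
    have hdiv2 : ∀ c, c ∣ m → c < m → 2 * c ≤ m := by
      intro c hc hcm
      obtain ⟨q, hq⟩ := hc
      rcases q with _ | _ | q
      · omega
      · omega
      · nlinarith
    have key : ∀ t, 3 ≤ t → 2 * t ≤ m + 2 → KT M α t → KT M α (t + 1) := by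
      intro t ht3 ht hKTt
      by_contra hnot
      have hnoT : ∀ T : Finset α, T.card = t → ¬ JC M T :=
        fun T hT hJ => hnot (hTR1 M α t hKTt T hT hJ)
      obtain ⟨W, hWsub, hWJC, hWmax⟩ : ∃ W : Finset α, W ⊂ Δ ∧ JC M W ∧
          ∀ X : Finset α, X ⊂ Δ → JC M X → X.card ≤ W.card := by
        classical
        let P : Finset (Finset α) := Δ.powerset.filter (fun X => X ⊂ Δ ∧ JC M X)
        have hPne : P.Nonempty := ⟨∅, by
          simp only [P, Finset.mem_filter, Finset.mem_powerset, Finset.empty_subset, true_and]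
          refine ⟨?_, hKTt ∅ (by simp; omega)⟩
          exact Finset.ssubset_iff_subset_ne.mpr
            ⟨Finset.empty_subset _, fun h => by rw [← h] at hm; simp at hm⟩⟩
        obtain ⟨W, hWP, hWmax⟩ := Finset.exists_max_image P Finset.card hPne
        simp only [P, Finset.mem_filter, Finset.mem_powerset] at hWP
        refine ⟨W, hWP.2.1, hWP.2.2, fun X hX hXJ => hWmax X ?_⟩
        simp only [P, Finset.mem_filter, Finset.mem_powerset]
        exact ⟨hX.subset, hX, hXJ⟩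
      have hWcard : W.card < Δ.card := Finset.card_lt_card hWsub
      have hw1 : t - 1 ≤ W.card := by
        obtain ⟨S, hSΔ, hScard⟩ :=
          Finset.exists_subset_card_eq (s := Δ) (n := t - 1) (by omega)
        have hSs : S ⊂ Δ := Finset.ssubset_iff_subset_ne.mpr
          ⟨hSΔ, fun h => by rw [h] at hScard; omega⟩
        have := hWmax S hSs (hKTt S (by omega))
        omega
      have hwt : W.card ≠ t := fun h => hnoT W h hWJC
      have hdvd : (Δ.card - W.card) ∣ (Fintype.card α - Δ.card) :=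
        hCLS M α Δ W hJC hWJC hWsub hWmax (by omega)
      have hdvd' : (m + 1 - W.card) ∣ m := by
        have : Fintype.card α - Δ.card = m := by omega
        rw [this, hm] at hdvd; exact hdvd
      have hw2 : t + 1 ≤ W.card := by
        by_contra h
        have hwe : W.card = t - 1 := by omega
        have := hdiv2 (m + 1 - W.card) hdvd' (by omega)
        omega
      obtain ⟨T, hTW, hTcard⟩ := Finset.exists_subset_card_eq (s := W) (n := t) (by omega)
      by_cases hc : W.card = m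
      · obtain ⟨δ, hδ, hW⟩ : ∃ δ ∈ Δ, W = Δ.erase δ := by
          obtain ⟨δ, hδΔ, hδW⟩ := Finset.exists_of_ssubset hWsub
          refine ⟨δ, hδΔ, Finset.eq_of_subset_of_card_le ?_ ?_⟩
          · intro z hz
            exact Finset.mem_erase.mpr ⟨fun h => hδW (h ▸ hz), hWsub.subset hz⟩
          · rw [Finset.card_erase_of_mem hδΔ]; omega
        have hS := hC1 M α hKT2 Δ hJC (by omega) (by omega) δ hδ (hW ▸ hWJC) T
          (hTW.trans hWsub.subset)
        exact hnoT T hTcard hS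
      · have hwm : W.card + 2 ≤ Δ.card := by omega
        have h2c := hdiv2 (m + 1 - W.card) hdvd' (by omega)
        obtain ⟨hDA1, hDA2⟩ := hDA M α hKT2 Δ hJC (by omega) W hWsub.subset hWJC (by omega)
        have hDBr := hDB M α Δ W (ih Δ.card (by omega)) hWsub.subset hwm (by omega) hDA1 hDA2
          T (hTW.trans hWsub.subset) (by omega)
        obtain ⟨w₀, hw₀⟩ : ∃ w₀ ∈ Δ, w₀ ∉ W := Finset.exists_of_ssubset hWsub
        exact hnoT T hTcard (fin_glue hTW hWsub.subset ⟨w₀, hw₀⟩ hWJC hDBr)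
    have hall : ∀ t, 3 ≤ t → t ≤ m / 2 + 2 → KT M α t := by
      intro t ht3
      induction t, ht3 using Nat.le_induction with
      | base => intro _; exact hKT3
      | succ t ht3 iht =>
        intro htm
        exact key t ht3 (by omega) (iht (by omega))
    exact hU1 M α (m / 2 + 2) (hall _ (by omega) le_rfl) (by omega) (by omega) Δ hJC
      (by omega) (by omega)

/-- The statement of S3620 from the primitive case and the quasiprimitive reduction. -/
theorem marggraf (hall : ∀ N, MStmt.{u, v} N) (hall' : ∀ N, MStmt.{u, u} N)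
    (hCONV : CONV1Stmt.{u, v}) (hQPA : QPAStmt.{u, v}) (hQPB : QPBStmt.{u, v})
    {G : Type u} {Ω : Type v} [Group G] [Finite G] [MulAction G Ω] [FaithfulSMul G Ω]
    [Fintype Ω] [DecidableEq Ω]
    (hqp : ∀ N : Subgroup G, N.Normal → N ≠ ⊥ → MulAction.IsPretransitive ↥N Ω)
    (Γ : Set Ω) (hΓ1 : 1 < Γ.ncard) (hΓ2 : 2 * Γ.ncard < Fintype.card Ω)
    (hJ : MulAction.IsPretransitive ↥(fixingSubgroup G Γᶜ)
      ↥(SubMulAction.ofFixingSubgroup G Γᶜ)) :
    ∀ σ : Equiv.Perm Ω, Equiv.Perm.sign σ = 1 →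
      ∃ x : G, (MulAction.toPerm x : Equiv.Perm Ω) = σ := by
  classical
  obtain ⟨Δ, hΔc⟩ : ∃ Δ : Finset Ω, (Δ : Set Ω) = Γᶜ := ⟨Γᶜ.toFinset, Set.coe_toFinset _⟩
  have hJC : JC G Δ := by
    rw [hCONV G Ω Δ]
    have : ∀ s : Set Ω, s = Γᶜ →
        IsPretransitive (fixingSubgroup G s) (SubMulAction.ofFixingSubgroup G s) := by
      rintro s rfl; exact hJ
    exact this _ hΔc
  have hmem : ∀ x, x ∈ Δ ↔ x ∉ Γ := by
    intro x
    rw [← Finset.mem_coe, hΔc, Set.mem_compl_iff]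
  have hcard : Δ.card = Fintype.card Ω - Γ.ncard := by
    rw [← Set.ncard_coe_finset Δ, hΔc, Set.ncard_compl, Nat.card_eq_fintype_card]
  have hΓle : Γ.ncard ≤ Fintype.card Ω := by
    have := Set.ncard_le_card Γ
    rwa [Nat.card_eq_fintype_card] at this
  -- transitivity of `G`
  obtain ⟨x, y, hx, hy, hxy⟩ := (Set.one_lt_ncard_iff (Set.toFinite Γ)).mp hΓ1
  obtain ⟨g₀, -, hg₀⟩ := hJC x (fun h => (hmem x).mp h hx) y (fun h => (hmem y).mp h hy)
  have hne : (⊤ : Subgroup G) ≠ ⊥ := by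
    intro h
    have : g₀ ∈ (⊥ : Subgroup G) := h ▸ Subgroup.mem_top g₀
    rw [Subgroup.mem_bot] at this
    rw [this, one_smul] at hg₀
    exact hxy hg₀
  have htop := hqp ⊤ inferInstance hne
  have htrans : IsPretransitive G Ω := by
    refine ⟨fun x y => ?_⟩
    obtain ⟨g, hg⟩ := htop.exists_smul_eq x y
    exact ⟨(g : G), hg⟩
  by_cases hprim : IsPreprimitive G Ω
  · intro σ hσ
    obtain ⟨g, hg⟩ := hall (Fintype.card Ω) G Ω rfl hprim Δ (by omega) (by omega) hJC σ hσ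
    exact ⟨g, Equiv.ext fun z => by rw [MulAction.toPerm_apply]; exact hg z⟩
  · exfalso
    obtain ⟨𝔅, _, _, _, π, h1, h2, h3, h4, h5⟩ := hQPA G Ω hqp htrans hprim
    exact hQPB hall' G Ω 𝔅 π h1 h2 h3 h4 h5 Δ hJC (by omega) (by omega)

end Cfsg.Agent.H64.Mg
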