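import Cfsg.Agent.H64.MgDefs

/-!
# Marggraf (S3620) piece MG-GOOD: induction through a point stabilizer gives a 3-cycle.
-/

set_option autoImplicit false
open scoped Pointwise
open MulAction

namespace Cfsg.Agent.H64.Mg

universe u v

theorem good : GOODStmt.{u, v} := by
  intro N hM M α _ _ _ _ hcard Δ hJC h1 h2 a ha hprim
  classical
  letI : Fintype ↥(SubMulAction.ofStabilizer M a) := Fintype.ofFinite _
  have hβ : Fintype.card ↥(SubMulAction.ofStabilizer M a) = N := by
    have := SubMulAction.nat_card_ofStabilizer_add_one_eq M a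
    rw [Nat.card_eq_fintype_card, Nat.card_eq_fintype_card] at this
    omega
  let Δ' : Finset ↥(SubMulAction.ofStabilizer M a) :=
    Finset.univ.filter (fun x => (x : α) ∈ Δ)
  have hmem : ∀ x : ↥(SubMulAction.ofStabilizer M a), x ∈ Δ' ↔ (x : α) ∈ Δ := by
    intro x; simp [Δ']
  have hΔ'card : Δ'.card = Δ.card - 1 := by
    have hmap : Δ'.map ⟨Subtype.val, Subtype.val_injective⟩ = Δ.erase a := by
      ext x
      simp only [Finset.mem_map, Function.Embedding.coeFn_mk, Finset.mem_erase]
      constructor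
      · rintro ⟨y, hy, rfl⟩
        exact ⟨y.prop, (hmem y).mp hy⟩
      · rintro ⟨hxa, hx⟩
        exact ⟨⟨x, hxa⟩, (hmem _).mpr hx, rfl⟩
    rw [← Finset.card_map ⟨Subtype.val, Subtype.val_injective⟩, hmap,
      Finset.card_erase_of_mem ha]
  have hJC' : JC (stabilizer M a) Δ' := by
    intro x hx y hy
    rw [hmem] at hx hy
    obtain ⟨g, hg, hgx⟩ := hJC (x : α) hx (y : α) hy
    have hga : g ∈ stabilizer M a := hg a ha
    refine ⟨⟨g, hga⟩, ?_, ?_⟩
    · intro z hz
      apply Subtype.ext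
      rw [SubMulAction.val_smul]
      exact hg _ ((hmem z).mp hz)
    · apply Subtype.ext
      rw [SubMulAction.val_smul]
      exact hgx
  have hAE := hM (stabilizer M a) ↥(SubMulAction.ofStabilizer M a) hβ hprim Δ'
    (by omega) (by omega) hJC'
  obtain ⟨x₁, x₂, x₃, h12, h13, h23⟩ :=
    Fintype.two_lt_card_iff.mp (show 2 < Fintype.card ↥(SubMulAction.ofStabilizer M a) by omega)
  have h3 : (Equiv.swap x₂ x₁ * Equiv.swap x₂ x₃).IsThreeCycle :=
    Equiv.Perm.isThreeCycle_swap_mul_swap_same h12.symm h23 h13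
  obtain ⟨g, hg⟩ := hAE _ h3.sign
  refine ⟨(g : M), ?_⟩
  have h3' : (Equiv.swap (x₂ : α) (x₁ : α) * Equiv.swap (x₂ : α) (x₃ : α)).IsThreeCycle :=
    Equiv.Perm.isThreeCycle_swap_mul_swap_same
      (fun h => h12.symm (Subtype.ext h)) (fun h => h23 (Subtype.ext h))
      (fun h => h13 (Subtype.ext h))
  have heq : (MulAction.toPerm (g : M) : Equiv.Perm α) =
      Equiv.swap (x₂ : α) (x₁ : α) * Equiv.swap (x₂ : α) (x₃ : α) := by
    ext z
    rw [MulAction.toPerm_apply]
    by_cases hz : z = a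
    · have e1 : a ≠ (x₁ : α) := fun h => x₁.prop h.symm
      have e2 : a ≠ (x₂ : α) := fun h => x₂.prop h.symm
      have e3 : a ≠ (x₃ : α) := fun h => x₃.prop h.symm
      rw [hz, Equiv.Perm.mul_apply, Equiv.swap_apply_of_ne_of_ne e2 e3,
        Equiv.swap_apply_of_ne_of_ne e2 e1]
      exact g.prop
    · have := congrArg Subtype.val (hg ⟨z, hz⟩)
      rw [SubMulAction.val_smul] at this
      rw [Equiv.Perm.mul_apply] at this ⊢
      rw [← Subtype.val_injective.swap_apply, ← Subtype.val_injective.swap_apply] at this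
      exact this
  rw [heq]
  exact h3'

end Cfsg.Agent.H64.Mg
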