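import Mathlib
import Cfsg.Agent.H64.MX4
import Cfsg.Agent.H64.PSL2Odd
import Cfsg.Agent.H7.Hall23
import Cfsg.Agent.H21.Transfer

/-!
# Normalisers of subgroups of `PSL(2, 13)` are maximal (helper64)
-/

set_option autoImplicit false
set_option linter.unusedSectionVars false
set_option linter.unusedVariables false
set_option linter.style.haveILetI false

namespace Cfsg.Agent.H64.NM

open Matrix Cfsg.Agent.H65.SL2 Cfsg.Agent.H29.Dk Cfsg.Agent.H18.Dk Cfsg.Agent.H64.MX
open scoped MatrixGroups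

/-! ### General group theory -/

section General

variable {G : Type*} [Group G] [Finite G]

/-- A `p`-subgroup of full `p`-power order is (the carrier of) a Sylow subgroup. -/
theorem exists_sylow_eq (p : ℕ) [Fact p.Prime] (H : Subgroup G) (n : ℕ)
    (hH : Nat.card H = p ^ n) (hn : ¬ p ^ (n + 1) ∣ Nat.card G) :
    ∃ P : Sylow p G, (P : Subgroup G) = H := by
  have hidx : ¬ p ∣ H.index := by
    intro h
    apply hn
    rw [← Subgroup.card_mul_index H, hH, pow_succ]
    exact Nat.mul_dvd_mul_left _ h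
  exact ⟨(IsPGroup.of_card hH).toSylow hidx, rfl⟩

/-- Burnside: in a non-abelian simple group an abelian Sylow subgroup is not self-normalising. -/
theorem card_normalizer_ne [IsSimpleGroup G] (hG : ¬ ∀ a b : G, a * b = b * a) (p : ℕ)
    [Fact p.Prime] (H : Subgroup G) (n : ℕ) (hH : Nat.card H = p ^ n)
    (hn : ¬ p ^ (n + 1) ∣ Nat.card G) (hH1 : H ≠ ⊥)
    (hab : ∀ a ∈ H, ∀ b ∈ H, a * b = b * a) :
    Nat.card (Subgroup.normalizer (H : Set G)) ≠ Nat.card H := by
  intro hcard
  obtain ⟨P, hP⟩ := exists_sylow_eq p H n hH hn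
  have hNH : H = Subgroup.normalizer (H : Set G) :=
    Subgroup.eq_of_le_of_card_ge Subgroup.le_normalizer (le_of_eq hcard)
  apply Cfsg.Agent.H21.simple_not_normalizer_le_centralizer (G := G) (p := p)
    (fun h => hG (fun a b => mul_comm' a b)) P (by rw [hP]; exact hH1)
  show Subgroup.normalizer ((P : Subgroup G) : Set G) ≤
    Subgroup.centralizer ((P : Subgroup G) : Set G)
  rw [hP, ← hNH]
  intro g hg
  rw [Subgroup.mem_centralizer_iff]
  intro h hh
  exact hab h hh g hg

/-- A normal subgroup of `H` is normalised by `H`. -/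
theorem le_normalizer_map_subtype (H : Subgroup G) (Q : Subgroup H) [Q.Normal] :
    H ≤ Subgroup.normalizer ((Q.map H.subtype : Subgroup G) : Set G) := by
  have h1 := Subgroup.le_normalizer_map (H := Q) H.subtype
  have h2 : Subgroup.normalizer (Q : Set H) = ⊤ := Subgroup.normalizer_eq_top_iff.mpr inferInstance
  rw [h2, ← MonoidHom.range_eq_map, Subgroup.range_subtype] at h1
  exact h1


theorem abelian_of_card_prime (H : Subgroup G) (p : ℕ) [Fact p.Prime] (h : Nat.card H = p) :
    ∀ a ∈ H, ∀ b ∈ H, a * b = b * a := by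
  intro a ha b hb
  haveI := isCyclic_of_prime_card h
  exact congrArg Subtype.val (mul_comm' (⟨a, ha⟩ : H) ⟨b, hb⟩)

theorem abelian_of_card_sq (H : Subgroup G) (p : ℕ) [Fact p.Prime] (h : Nat.card H = p ^ 2) :
    ∀ a ∈ H, ∀ b ∈ H, a * b = b * a := by
  intro a ha b hb
  haveI := IsPGroup.isMulCommutative_of_card_eq_prime_sq h
  exact congrArg Subtype.val (mul_comm' (⟨a, ha⟩ : H) ⟨b, hb⟩)

theorem mem_normalizer_of_comm (H : Subgroup G) (g : G) (h : ∀ x ∈ H, g * x = x * g) :
    g ∈ Subgroup.normalizer (H : Set G) := by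
  rw [Subgroup.mem_normalizer_iff]
  intro x
  constructor
  · intro hx
    rw [h x hx, mul_inv_cancel_right]
    exact hx
  · intro hx
    have h1 := h _ hx
    have h2 : x = g * x * g⁻¹ := by
      calc x = g⁻¹ * (g * x * g⁻¹ * g) := by group
        _ = g⁻¹ * (g * (g * x * g⁻¹)) := by rw [h1]
        _ = g * x * g⁻¹ := by group
    rw [h2]
    exact hx

theorem card_subgroupOf_of_le {H K : Subgroup G} (h : H ≤ K) :
    Nat.card (H.subgroupOf K) = Nat.card H := by
  rw [← card_inf_eq_subgroupOf, inf_eq_right.mpr h]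


theorem centralizer_le_normalizer_of_prime (H : Subgroup G) (p : ℕ) [Fact p.Prime]
    (hH : Nat.card H = p) (t : G) (ht : t ∈ H) (ht1 : t ≠ 1) :
    Subgroup.centralizer ({t} : Set G) ≤ Subgroup.normalizer (H : Set G) ∧
      Subgroup.centralizer (H : Set G) = Subgroup.centralizer ({t} : Set G) := by
  have hpow : ∀ g : G, g * t = t * g → ∀ x ∈ H, g * x = x * g := by
    intro g hgt x hx
    have hx' : (⟨x, hx⟩ : H) ∈ Subgroup.zpowers (⟨t, ht⟩ : H) :=
      mem_zpowers_of_prime_card hH (fun h => ht1 (congrArg Subtype.val h))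
    obtain ⟨k, hk⟩ := Subgroup.mem_zpowers_iff.mp hx'
    have hk' : t ^ k = x := by
      have := congrArg Subtype.val hk
      simpa using this
    rw [← hk']
    exact (Commute.zpow_right hgt k).eq
  constructor
  · intro g hg
    exact mem_normalizer_of_comm H g (hpow g (Subgroup.mem_centralizer_singleton_iff.mp hg))
  · ext g
    rw [Subgroup.mem_centralizer_iff, Subgroup.mem_centralizer_singleton_iff]
    constructor
    · intro h
      exact (h t ht).symm
    · intro h x hx
      exact (hpow g h x hx).symm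

end General

variable {F : Type*} [Field F] [Fintype F]

theorem card_G (hq : Fintype.card F = 13) : Nat.card PSL(2, F) = 1092 := by
  have h := card_PSL2_mul (F := F)
  rw [hq] at h
  norm_num at h
  omega

theorem two_ne_zero_13 [CharP F 13] : (2 : F) ≠ 0 := by
  intro h
  have h2 : ((2 : ℕ) : F) = 0 := by exact_mod_cast h
  rw [CharP.cast_eq_zero_iff F 13 2] at h2
  omega

/-- Orders of proper subgroups of `PSL(2, 13)`. -/
theorem card_mem_of_ne_top [CharP F 13] (hq : Fintype.card F = 13) (L : Subgroup PSL(2, F))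
    (hL : L ≠ ⊤) :
    Nat.card L ∈ ({1, 2, 3, 4, 6, 7, 12, 13, 14, 26, 39, 78} : Finset ℕ) := by
  classical
  haveI : Fact (Nat.Prime 13) := ⟨by norm_num⟩
  have hG := card_G hq
  have hodd : Odd (Fintype.card F) := by rw [hq]; decide
  have hLdvd : Nat.card L ∣ 1092 := hG ▸ Subgroup.card_subgroup_dvd_card L
  have hd7 : Nat.divisors 7 ⊆ ({1, 2, 3, 6, 7} : Finset ℕ) := by decide
  have hd6 : Nat.divisors 6 ⊆ ({1, 2, 3, 6, 7} : Finset ℕ) := by decide
  have hd78 : Nat.divisors 78 ⊆ ({1, 2, 3, 4, 6, 7, 12, 13, 14, 26, 39, 78} : Finset ℕ) := by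
    decide
  have hkmem : ∀ k : ℕ, (k ∣ (13 + 1) / Nat.gcd 2 (13 - 1) ∨ k ∣ (13 - 1) / Nat.gcd 2 (13 - 1)) →
      k ∈ ({1, 2, 3, 6, 7} : Finset ℕ) := by
    intro k hk
    norm_num at hk
    rcases hk with hk | hk
    · exact hd7 (Nat.mem_divisors.mpr ⟨hk, by norm_num⟩)
    · exact hd6 (Nat.mem_divisors.mpr ⟨hk, by norm_num⟩)
  rcases dickson (F := F) 13 L with
    ⟨k, hk, h | ⟨⟨f⟩⟩⟩ | ⟨P, K, hK, ⟨f⟩⟩ | ⟨⟨f⟩⟩ | ⟨⟨f⟩⟩ | ⟨⟨f⟩⟩ |
    ⟨K, i1, i2, m, hm, ⟨⟨f⟩⟩ | ⟨⟨f⟩⟩⟩
  · rw [hq] at hk
    have hk' := hkmem k hk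
    rw [h.2]
    have key : ∀ k' ∈ ({1, 2, 3, 6, 7} : Finset ℕ),
        k' ∈ ({1, 2, 3, 4, 6, 7, 12, 13, 14, 26, 39, 78} : Finset ℕ) := by decide
    exact key k hk'
  · rw [hq] at hk
    have hk' := hkmem k hk
    have hc : Nat.card L = 2 * k := by rw [Nat.card_congr f.toEquiv, DihedralGroup.nat_card]
    rw [hc]
    have key : ∀ k' ∈ ({1, 2, 3, 6, 7} : Finset ℕ),
        2 * k' ∈ ({1, 2, 3, 4, 6, 7, 12, 13, 14, 26, 39, 78} : Finset ℕ) := by decide
    exact key k hk'
  · have h1 := Cfsg.Agent.H7.card_normalizer_sylow_PSL2 hodd 13 P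
    rw [hq] at h1
    have h2 : Nat.card (Subgroup.normalizer ((P : Subgroup PSL(2, F)) : Set PSL(2, F))) = 78 := by
      omega
    have h3 : Nat.card L ∣ 78 := by
      rw [Nat.card_congr f.toEquiv, ← h2]
      exact Subgroup.card_dvd_of_le hK
    exact hd78 (Nat.mem_divisors.mpr ⟨h3, by norm_num⟩)
  · have h1 : Nat.card (alternatingGroup (Fin 4)) = 12 := by
      have := two_mul_card_alternatingGroup (α := Fin 4)
      rw [Fintype.card_perm, Fintype.card_fin] at this
      rw [Nat.card_eq_fintype_card]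
      have h4 : Nat.factorial 4 = 24 := by decide
      omega
    rw [Nat.card_congr f.toEquiv, h1]
    decide
  · exfalso
    have h1 : Nat.card L = 24 := by
      rw [Nat.card_congr f.toEquiv, Nat.card_eq_fintype_card, Fintype.card_perm, Fintype.card_fin]
      decide
    rw [h1] at hLdvd
    revert hLdvd
    decide
  · exfalso
    have h1 : Nat.card (alternatingGroup (Fin 5)) = 60 := by
      have := two_mul_card_alternatingGroup (α := Fin 5)
      rw [Fintype.card_perm, Fintype.card_fin] at this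
      rw [Nat.card_eq_fintype_card]
      have h4 : Nat.factorial 5 = 120 := by decide
      omega
    rw [Nat.card_congr f.toEquiv, h1] at hLdvd
    revert hLdvd
    decide
  · exfalso
    have hK13 : Fintype.card K = 13 := by
      rw [hq] at hm
      exact ((Nat.Prime.pow_eq_iff (by norm_num)).mp hm).1
    apply hL
    apply Subgroup.eq_top_of_card_eq
    rw [Nat.card_congr f.toEquiv, card_G hK13, hG]
  · exfalso
    have hK13 : Fintype.card K = 13 := by
      rw [hq] at hm
      exact ((Nat.Prime.pow_eq_iff (by norm_num)).mp hm).1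
    haveI : Finite (Matrix.ProjGenLinGroup (Fin 2) K) := Finite.of_equiv L f.toEquiv
    have h1 : 1092 ≤ Nat.card (Matrix.ProjGenLinGroup (Fin 2) K) := by
      rw [← card_G hK13]
      exact Nat.card_le_card_of_injective _ Matrix.ProjectiveSpecialLinearGroup.toPGL_injective
    have h2 : Nat.card L ≤ 1092 := hG ▸ Subgroup.card_le_card_group L
    have h3 := Nat.card_congr f.toEquiv
    apply hL
    apply Subgroup.eq_top_of_card_eq
    rw [hG]
    omega

/-- Centraliser orders in `PSL(2, 13)`. -/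
theorem card_centralizer_mem [CharP F 13] (hq : Fintype.card F = 13) (X : PSL(2, F))
    (hX : X ≠ 1) :
    Nat.card (Subgroup.centralizer ({X} : Set PSL(2, F))) ∈ ({6, 7, 12, 13} : Finset ℕ) := by
  classical
  have hG := card_G hq
  have h2 := two_ne_zero_13 (F := F)
  haveI := simple_PSL2 (F := F) (by rw [hq]; norm_num)
  obtain ⟨g, rfl⟩ := QuotientGroup.mk'_surjective (Subgroup.center SL(2, F)) X
  have hci := Subgroup.card_mul_index
    (Subgroup.centralizer ({(QuotientGroup.mk' (Subgroup.center SL(2, F))) g} : Set PSL(2, F)))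
  rw [hG] at hci
  have hcls : Cfsg.Agent.H64.PSL2Odd.cls g = (Subgroup.centralizer
    ({(QuotientGroup.mk' (Subgroup.center SL(2, F))) g} : Set PSL(2, F))).index := rfl
  rw [← hcls] at hci
  have hq0 := (Cfsg.Agent.H64.PSL2Odd.qroots_zero_odd (F := F) h2).1 (by rw [hq])
  obtain ⟨c, hc⟩ : ∃ c, c = Nat.card (Subgroup.centralizer
      ({(QuotientGroup.mk' (Subgroup.center SL(2, F))) g} : Set PSL(2, F))) := ⟨_, rfl⟩
  rw [← hc] at hci ⊢
  rcases Cfsg.Agent.H64.PSL2Odd.cls_subset (by rw [hq]) (by rw [hq]; norm_num) h2 g with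
    h | h | h | h | ⟨h0, h⟩ | ⟨h0, h⟩
  · exfalso
    apply hX
    rw [hcls, Subgroup.index_eq_one] at h
    have hcen : (QuotientGroup.mk' (Subgroup.center SL(2, F))) g ∈ Subgroup.center PSL(2, F) := by
      rw [Subgroup.mem_center_iff]
      intro y
      have hy : y ∈ Subgroup.centralizer
          ({(QuotientGroup.mk' (Subgroup.center SL(2, F))) g} : Set PSL(2, F)) := by
        rw [h]; exact Subgroup.mem_top y
      exact (Subgroup.mem_centralizer_singleton_iff.mp hy)
    rw [center_eq_bot_of_simple (noncomm_PSL2 (F := F)), Subgroup.mem_bot] at hcen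
    exact hcen
  · rw [h, hq] at hci
    norm_num at hci
    have : c = 13 := by omega
    rw [this]; decide
  · rw [h, hq] at hci
    norm_num at hci
    have : c = 7 := by omega
    rw [this]; decide
  · rw [h, hq] at hci
    norm_num at hci
    have : c = 6 := by omega
    rw [this]; decide
  · omega
  · rw [h, hq] at hci
    norm_num at hci
    have : c = 12 := by omega
    rw [this]; decide


/-! ### Normalisers in `PSL(2, 13)` -/

section Thirteen

variable [CharP F 13] (hq : Fintype.card F = 13)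
include hq

theorem normalizer_ne_top (H : Subgroup PSL(2, F)) (hH1 : H ≠ ⊥) (hH2 : H ≠ ⊤) :
    Subgroup.normalizer (H : Set PSL(2, F)) ≠ ⊤ := by
  haveI := simple_PSL2 (F := F) (by rw [hq]; norm_num)
  intro h
  have hn : H.Normal := Subgroup.normalizer_eq_top_iff.mp h
  rcases hn.eq_bot_or_eq_top with h' | h'
  · exact hH1 h'
  · exact hH2 h'

theorem card_normalizer_mem (H : Subgroup PSL(2, F)) (hH1 : H ≠ ⊥) (hH2 : H ≠ ⊤) :
    Nat.card (Subgroup.normalizer (H : Set PSL(2, F))) ∈
      ({1, 2, 3, 4, 6, 7, 12, 13, 14, 26, 39, 78} : Finset ℕ) :=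
  card_mem_of_ne_top hq _ (normalizer_ne_top hq H hH1 hH2)

theorem good_of_dvd (H : Subgroup PSL(2, F)) (hH1 : H ≠ ⊥) (hH2 : H ≠ ⊤) (d : ℕ)
    (hd : d ∈ ({12, 14, 78} : Finset ℕ))
    (h : d ∣ Nat.card (Subgroup.normalizer (H : Set PSL(2, F)))) :
    Nat.card (Subgroup.normalizer (H : Set PSL(2, F))) ∈ ({12, 14, 78} : Finset ℕ) := by
  have key : ∀ n ∈ ({1, 2, 3, 4, 6, 7, 12, 13, 14, 26, 39, 78} : Finset ℕ),
      ∀ d ∈ ({12, 14, 78} : Finset ℕ), d ∣ n → n ∈ ({12, 14, 78} : Finset ℕ) := by decide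
  exact key _ (card_normalizer_mem hq H hH1 hH2) d hd h

theorem ne_bot_top_of_card (H : Subgroup PSL(2, F)) (h1 : Nat.card H ≠ 1)
    (h2 : Nat.card H ≠ 1092) : H ≠ ⊥ ∧ H ≠ ⊤ := by
  constructor
  · intro h
    rw [h, Subgroup.card_bot] at h1
    exact h1 rfl
  · intro h
    rw [h, Subgroup.card_top, card_G hq] at h2
    exact h2 rfl

theorem card_normalizer_seven (H : Subgroup PSL(2, F)) (hH : Nat.card H = 7) :
    Nat.card (Subgroup.normalizer (H : Set PSL(2, F))) = 14 := by
  haveI := simple_PSL2 (F := F) (by rw [hq]; norm_num)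
  haveI : Fact (Nat.Prime 7) := ⟨by norm_num⟩
  have hG := card_G hq
  obtain ⟨hH1, hH2⟩ := ne_bot_top_of_card hq H (by rw [hH]; norm_num) (by rw [hH]; norm_num)
  have hmem := card_normalizer_mem hq H hH1 hH2
  have hdvd : 7 ∣ Nat.card (Subgroup.normalizer (H : Set PSL(2, F))) :=
    hH ▸ Subgroup.card_dvd_of_le Subgroup.le_normalizer
  have hne := card_normalizer_ne (noncomm_PSL2 (F := F)) 7 H 1 (by rw [hH, pow_one])
    (by rw [hG]; norm_num) hH1 (abelian_of_card_prime H 7 hH)
  rw [hH] at hne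
  have key : ∀ n ∈ ({1, 2, 3, 4, 6, 7, 12, 13, 14, 26, 39, 78} : Finset ℕ),
      7 ∣ n → n ≠ 7 → n = 14 := by decide
  exact key _ hmem hdvd hne

theorem card_normalizer_four (H : Subgroup PSL(2, F)) (hH : Nat.card H = 4) :
    Nat.card (Subgroup.normalizer (H : Set PSL(2, F))) = 12 := by
  haveI := simple_PSL2 (F := F) (by rw [hq]; norm_num)
  haveI : Fact (Nat.Prime 2) := ⟨Nat.prime_two⟩
  have hG := card_G hq
  obtain ⟨hH1, hH2⟩ := ne_bot_top_of_card hq H (by rw [hH]; norm_num) (by rw [hH]; norm_num)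
  have hmem := card_normalizer_mem hq H hH1 hH2
  have hdvd : 4 ∣ Nat.card (Subgroup.normalizer (H : Set PSL(2, F))) :=
    hH ▸ Subgroup.card_dvd_of_le Subgroup.le_normalizer
  have hne := card_normalizer_ne (noncomm_PSL2 (F := F)) 2 H 2 (by rw [hH]; norm_num)
    (by rw [hG]; norm_num) hH1 (abelian_of_card_sq H 2 (by rw [hH]; norm_num))
  rw [hH] at hne
  have key : ∀ n ∈ ({1, 2, 3, 4, 6, 7, 12, 13, 14, 26, 39, 78} : Finset ℕ),
      4 ∣ n → n ≠ 4 → n = 12 := by decide
  exact key _ hmem hdvd hne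

theorem card_normalizer_two (H : Subgroup PSL(2, F)) (hH : Nat.card H = 2) :
    Nat.card (Subgroup.normalizer (H : Set PSL(2, F))) = 12 := by
  haveI : Fact (Nat.Prime 2) := ⟨Nat.prime_two⟩
  have hG := card_G hq
  obtain ⟨hH1, hH2⟩ := ne_bot_top_of_card hq H (by rw [hH]; norm_num) (by rw [hH]; norm_num)
  have hmem := card_normalizer_mem hq H hH1 hH2
  obtain ⟨⟨t, ht⟩, ht1⟩ := (Subgroup.ne_bot_iff_exists_ne_one).mp hH1
  have ht1' : t ≠ 1 := fun h => ht1 (Subtype.ext h)
  obtain ⟨hC, -⟩ := centralizer_le_normalizer_of_prime H 2 hH t ht ht1'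
  have hcm := card_centralizer_mem hq t ht1'
  have hcd := Subgroup.card_dvd_of_le hC
  obtain ⟨Q, hQ⟩ := (IsPGroup.of_card (n := 1) (by rw [hH, pow_one]) : IsPGroup 2 H).exists_le_sylow
  have hQcard : Nat.card (Q : Subgroup PSL(2, F)) = 4 := by
    have h := Q.card_eq_multiplicity
    have e : (1092 : ℕ) = 2 ^ 2 * 273 := by norm_num
    rw [hG, e, fact_two 2 273 (by decide)] at h
    exact h
  have hQab := abelian_of_card_sq (Q : Subgroup PSL(2, F)) 2 (by rw [hQcard]; norm_num)
  have hQN : (Q : Subgroup PSL(2, F)) ≤ Subgroup.normalizer (H : Set PSL(2, F)) := by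
    intro g hg
    apply mem_normalizer_of_comm
    intro x hx
    exact hQab g hg x (hQ hx)
  have h4 : 4 ∣ Nat.card (Subgroup.normalizer (H : Set PSL(2, F))) :=
    hQcard ▸ Subgroup.card_dvd_of_le hQN
  have key : ∀ n ∈ ({1, 2, 3, 4, 6, 7, 12, 13, 14, 26, 39, 78} : Finset ℕ),
      ∀ c ∈ ({6, 7, 12, 13} : Finset ℕ), 4 ∣ n → c ∣ n → n = 12 := by decide
  exact key _ hmem _ hcm h4 hcd

theorem card_normalizer_three (H : Subgroup PSL(2, F)) (hH : Nat.card H = 3) :
    Nat.card (Subgroup.normalizer (H : Set PSL(2, F))) = 12 := by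
  haveI := simple_PSL2 (F := F) (by rw [hq]; norm_num)
  haveI : Fact (Nat.Prime 3) := ⟨Nat.prime_three⟩
  have hG := card_G hq
  obtain ⟨hH1, hH2⟩ := ne_bot_top_of_card hq H (by rw [hH]; norm_num) (by rw [hH]; norm_num)
  have hmem := card_normalizer_mem hq H hH1 hH2
  obtain ⟨⟨t, ht⟩, ht1⟩ := (Subgroup.ne_bot_iff_exists_ne_one).mp hH1
  have ht1' : t ≠ 1 := fun h => ht1 (Subtype.ext h)
  obtain ⟨hC, hCeq⟩ := centralizer_le_normalizer_of_prime H 3 hH t ht ht1'
  have hcm := card_centralizer_mem hq t ht1'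
  have hab := abelian_of_card_prime H 3 hH
  have hHC : H ≤ Subgroup.centralizer ({t} : Set PSL(2, F)) := by
    intro x hx
    rw [Subgroup.mem_centralizer_singleton_iff]
    exact hab x hx t ht
  have h3 : 3 ∣ Nat.card (Subgroup.centralizer ({t} : Set PSL(2, F))) :=
    hH ▸ Subgroup.card_dvd_of_le hHC
  have hrel := Cfsg.Agent.H21.relIndex_centralizer_normalizer_dvd_card_mulAut H
  haveI := isCyclic_of_prime_card hH
  rw [IsCyclic.card_mulAut, hH, Nat.totient_prime Nat.prime_three, hCeq] at hrel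
  have hmul := Subgroup.card_mul_index ((Subgroup.centralizer ({t} : Set PSL(2, F))).subgroupOf
    (Subgroup.normalizer (H : Set PSL(2, F))))
  rw [card_subgroupOf_of_le hC] at hmul
  have hrel' : ((Subgroup.centralizer ({t} : Set PSL(2, F))).subgroupOf
    (Subgroup.normalizer (H : Set PSL(2, F)))).index ∣ 2 := hrel
  have hne : Nat.card (Subgroup.normalizer (H : Set PSL(2, F))) ≠
      Nat.card (Subgroup.centralizer ({t} : Set PSL(2, F))) := by
    intro heq
    have hNC : Subgroup.centralizer ({t} : Set PSL(2, F)) =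
        Subgroup.normalizer (H : Set PSL(2, F)) :=
      Subgroup.eq_of_le_of_card_ge hC (le_of_eq heq)
    obtain ⟨P, hP⟩ := exists_sylow_eq 3 H 1 (by rw [hH, pow_one]) (by rw [hG]; norm_num)
    apply Cfsg.Agent.H21.simple_not_normalizer_le_centralizer (G := PSL(2, F)) (p := 3)
      (fun h => noncomm_PSL2 (F := F) (fun a b => mul_comm' a b)) P (by rw [hP]; exact hH1)
    show Subgroup.normalizer ((P : Subgroup PSL(2, F)) : Set PSL(2, F)) ≤
      Subgroup.centralizer ((P : Subgroup PSL(2, F)) : Set PSL(2, F))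
    rw [hP, hCeq, hNC]
  obtain ⟨i, hi⟩ : ∃ i, i = ((Subgroup.centralizer ({t} : Set PSL(2, F))).subgroupOf
    (Subgroup.normalizer (H : Set PSL(2, F)))).index := ⟨_, rfl⟩
  rw [← hi] at hmul hrel'
  have hi12 : i = 1 ∨ i = 2 := by
    have := Nat.le_of_dvd (by norm_num) hrel'
    interval_cases i
    · simp at hrel'
    · left; rfl
    · right; rfl
  have key : ∀ n ∈ ({1, 2, 3, 4, 6, 7, 12, 13, 14, 26, 39, 78} : Finset ℕ),
      ∀ c ∈ ({6, 7, 12, 13} : Finset ℕ), 3 ∣ c → (c * 1 = n ∨ c * 2 = n) → n ≠ c → n = 12 := by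
    decide
  refine key _ hmem _ hcm h3 ?_ hne
  rcases hi12 with rfl | rfl
  · left; exact hmul
  · right; exact hmul

theorem twelve_dvd_of_six (H : Subgroup PSL(2, F)) (hH : Nat.card H = 6) :
    12 ∣ Nat.card (Subgroup.normalizer (H : Set PSL(2, F))) := by
  haveI : Fact (Nat.Prime 3) := ⟨Nat.prime_three⟩
  obtain ⟨x, hx⟩ := exists_prime_orderOf_dvd_card' (G := H) 3 (by rw [hH]; norm_num)
  have hidx : (Subgroup.zpowers x).index = 2 := by
    have h := Subgroup.card_mul_index (Subgroup.zpowers x)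
    rw [Nat.card_zpowers, hx, hH] at h
    omega
  haveI hN : (Subgroup.zpowers x).Normal := Subgroup.normal_of_index_eq_two hidx
  have hT : Nat.card ((Subgroup.zpowers x).map H.subtype) = 3 := by
    rw [Subgroup.card_map_of_injective H.subtype_injective, Nat.card_zpowers, hx]
  have hHN := le_normalizer_map_subtype H (Subgroup.zpowers x)
  have h12 := card_normalizer_three hq _ hT
  have hmul := Subgroup.card_mul_index (H.subgroupOf (Subgroup.normalizer
    (((Subgroup.zpowers x).map H.subtype : Subgroup PSL(2, F)) : Set PSL(2, F))))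
  rw [card_subgroupOf_of_le hHN, hH, h12] at hmul
  have hi2 : (H.subgroupOf (Subgroup.normalizer
      (((Subgroup.zpowers x).map H.subtype : Subgroup PSL(2, F)) : Set PSL(2, F)))).index = 2 := by
    omega
  have hnorm := Subgroup.normal_of_index_eq_two hi2
  have hle := (Subgroup.normal_subgroupOf_iff_le_normalizer hHN).mp hnorm
  rw [← h12]
  exact Subgroup.card_dvd_of_le hle

theorem seventy_eight_dvd (H : Subgroup PSL(2, F)) (hH2 : H ≠ ⊤) (h13 : 13 ∣ Nat.card H) :
    78 ∣ Nat.card (Subgroup.normalizer (H : Set PSL(2, F))) := by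
  classical
  haveI : Fact (Nat.Prime 13) := ⟨by norm_num⟩
  have hG := card_G hq
  have hodd : Odd (Fintype.card F) := by rw [hq]; decide
  have hHmem := card_mem_of_ne_top hq H hH2
  obtain ⟨y, hy⟩ := exists_prime_orderOf_dvd_card' (G := H) 13 h13
  have hcy : Nat.card (Subgroup.zpowers y) = 13 ^ 1 := by rw [Nat.card_zpowers, hy, pow_one]
  have hle78 : Nat.card H ≤ 78 := by
    have key : ∀ n ∈ ({1, 2, 3, 4, 6, 7, 12, 13, 14, 26, 39, 78} : Finset ℕ), n ≤ 78 := by decide
    exact key _ hHmem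
  have hn169 : ¬ 13 ^ (1 + 1) ∣ Nat.card H := by
    intro h
    have h169 : (13 : ℕ) ^ (1 + 1) = 169 := by norm_num
    rw [h169] at h
    have := Nat.le_of_dvd Nat.card_pos h
    omega
  obtain ⟨Q, hQ⟩ := exists_sylow_eq 13 (Subgroup.zpowers y) 1 hcy hn169
  have h1 := card_sylow_modEq_one 13 H
  have h2 := Q.card_dvd_index
  have hidx : 13 * (Q : Subgroup H).index = Nat.card H := by
    have h := Subgroup.card_mul_index (Q : Subgroup H)
    have hc : Nat.card (Q : Subgroup H) = 13 := by rw [hQ, hcy, pow_one]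
    rw [hc] at h
    exact h
  have hn1 : Nat.card (Sylow 13 H) = 1 := by
    have hipos : 0 < (Q : Subgroup H).index := by
      rcases Nat.eq_zero_or_pos (Q : Subgroup H).index with h0 | h0
      · rw [h0] at hidx
        have := Nat.card_pos (α := H)
        omega
      · exact h0
    have hk := Nat.le_of_dvd hipos h2
    have hmod : Nat.card (Sylow 13 H) % 13 = 1 % 13 := h1
    omega
  haveI : Subsingleton (Sylow 13 H) := (Nat.card_eq_one_iff_unique.mp hn1).1
  haveI hQn : (Q : Subgroup H).Normal := Sylow.normal_of_subsingleton Q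
  have hHN := le_normalizer_map_subtype H (Q : Subgroup H)
  have hTcard : Nat.card ((Q : Subgroup H).map H.subtype) = 13 ^ 1 := by
    rw [Subgroup.card_map_of_injective H.subtype_injective, hQ, hcy]
  obtain ⟨P, hP⟩ := exists_sylow_eq 13 ((Q : Subgroup H).map H.subtype) 1 hTcard
    (by rw [hG]; norm_num)
  have hPH : (P : Subgroup PSL(2, F)) ≤ H := by
    rw [hP]
    rintro _ ⟨q, -, rfl⟩
    exact q.2
  rw [← hP] at hHN
  have hcardN := Cfsg.Agent.H7.card_normalizer_sylow_PSL2 hodd 13 P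
  rw [hq] at hcardN
  have h78 : Nat.card (Subgroup.normalizer ((P : Subgroup PSL(2, F)) : Set PSL(2, F))) = 78 := by
    omega
  have hfwd : ∀ b ∈ Subgroup.normalizer ((P : Subgroup PSL(2, F)) : Set PSL(2, F)),
      ∀ h ∈ H, b * h * b⁻¹ ∈ H := by
    intro b hb h hh
    have hc := Cfsg.Agent.H64.DU.comm_mem_sylow_of_mem_normalizer 13 P b h hb (hHN hh)
    have e : b * h * b⁻¹ = (b * h * b⁻¹ * h⁻¹) * h := by group
    rw [e]
    exact H.mul_mem (hPH hc) hh
  have hle : Subgroup.normalizer ((P : Subgroup PSL(2, F)) : Set PSL(2, F)) ≤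
      Subgroup.normalizer (H : Set PSL(2, F)) := by
    intro b hb
    rw [Subgroup.mem_normalizer_iff]
    intro h
    constructor
    · exact hfwd b hb h
    · intro hh
      have := hfwd b⁻¹ (Subgroup.inv_mem _ hb) _ hh
      have e : b⁻¹ * (b * h * b⁻¹) * b⁻¹⁻¹ = h := by group
      rwa [e] at this
  rw [← h78]
  exact Subgroup.card_dvd_of_le hle

theorem card_normalizer_good (H : Subgroup PSL(2, F)) (hH1 : H ≠ ⊥) (hH2 : H ≠ ⊤) :
    Nat.card (Subgroup.normalizer (H : Set PSL(2, F))) ∈ ({12, 14, 78} : Finset ℕ) := by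
  have hHmem := card_mem_of_ne_top hq H hH2
  have hle : Nat.card H ∣ Nat.card (Subgroup.normalizer (H : Set PSL(2, F))) :=
    Subgroup.card_dvd_of_le Subgroup.le_normalizer
  simp only [Finset.mem_insert, Finset.mem_singleton] at hHmem
  rcases hHmem with h | h | h | h | h | h | h | h | h | h | h | h
  · exact absurd (Subgroup.card_eq_one.mp h) hH1
  · rw [card_normalizer_two hq H h]; decide
  · rw [card_normalizer_three hq H h]; decide
  · rw [card_normalizer_four hq H h]; decide
  · exact good_of_dvd hq H hH1 hH2 12 (by decide) (twelve_dvd_of_six hq H h)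
  · rw [card_normalizer_seven hq H h]; decide
  · exact good_of_dvd hq H hH1 hH2 12 (by decide) (h ▸ hle)
  · exact good_of_dvd hq H hH1 hH2 78 (by decide) (seventy_eight_dvd hq H hH2 (by rw [h]))
  · exact good_of_dvd hq H hH1 hH2 14 (by decide) (h ▸ hle)
  · exact good_of_dvd hq H hH1 hH2 78 (by decide)
      (seventy_eight_dvd hq H hH2 (by rw [h]; norm_num))
  · exact good_of_dvd hq H hH1 hH2 78 (by decide)
      (seventy_eight_dvd hq H hH2 (by rw [h]; norm_num))
  · exact good_of_dvd hq H hH1 hH2 78 (by decide) (h ▸ hle)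

theorem isCoatom_normalizer (H : Subgroup PSL(2, F)) (hH : ¬ H.Normal) :
    IsCoatom (Subgroup.normalizer (H : Set PSL(2, F))) := by
  have hH1 : H ≠ ⊥ := by
    rintro rfl
    exact hH Subgroup.normal_bot
  have hH2 : H ≠ ⊤ := by
    rintro rfl
    exact hH Subgroup.normal_top
  have hgood := card_normalizer_good hq H hH1 hH2
  refine ⟨normalizer_ne_top hq H hH1 hH2, fun L hL => ?_⟩
  by_contra hLtop
  have hLmem := card_mem_of_ne_top hq L hLtop
  have hdvd := Subgroup.card_dvd_of_le hL.le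
  have key : ∀ n ∈ ({12, 14, 78} : Finset ℕ),
      ∀ l ∈ ({1, 2, 3, 4, 6, 7, 12, 13, 14, 26, 39, 78} : Finset ℕ), n ∣ l → l = n := by decide
  have heq := key _ hgood _ hLmem hdvd
  have := Subgroup.eq_of_le_of_card_ge hL.le (le_of_eq heq)
  exact hL.ne this

end Thirteen

end Cfsg.Agent.H64.NM
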