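import Mathlib
import Cfsg.Agent.H64.NM1
import Cfsg.Agent.S0268

/-!
# Non-normal subgroups with maximal normalisers: transport lemmas and `SL(2, 13)` (helper64)
-/

set_option autoImplicit false
set_option linter.unusedSectionVars false
set_option linter.unusedVariables false
set_option linter.style.haveILetI false

namespace Cfsg.Agent.H64.NM

open Matrix Cfsg.Agent.H65.SL2 Cfsg.Agent.H29.Dk Cfsg.Agent.H18.Dk Cfsg.Agent.H64.MX
open scoped MatrixGroups

/-- Every non-normal subgroup has a maximal normaliser. -/
def NMax (K : Type*) [Group K] : Prop :=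
  ∀ H : Subgroup K, ¬ H.Normal → IsCoatom (Subgroup.normalizer (H : Set K))

theorem NMax.of_equiv {K K' : Type*} [Group K] [Group K'] (e : K ≃* K') (h : NMax K') :
    NMax K := by
  intro H hH
  have hH' : ¬ (H.map e.toMonoidHom).Normal := by
    intro hn
    apply hH
    have h1 : (H.map e.toMonoidHom).comap e.toMonoidHom = H :=
      Subgroup.comap_map_eq_self_of_injective e.injective H
    rw [← h1]
    exact hn.comap _
  have hc := h _ hH'
  rw [← Subgroup.map_equiv_normalizer_eq] at hc
  exact (e.mapSubgroup.isCoatom_iff _).mp hc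

theorem isCoatom_comap {G G' : Type*} [Group G] [Group G'] (f : G →* G')
    (hf : Function.Surjective f) (N : Subgroup G') (hN : IsCoatom N) : IsCoatom (N.comap f) := by
  refine ⟨?_, fun L hL => ?_⟩
  · intro h
    apply hN.1
    rw [← Subgroup.map_comap_eq_self_of_surjective hf N, h, ← MonoidHom.range_eq_map,
      MonoidHom.range_eq_top.mpr hf]
  · have hker : f.ker ≤ L := by
      refine le_trans ?_ hL.le
      intro x hx
      rw [Subgroup.mem_comap, MonoidHom.mem_ker.mp hx]
      exact N.one_mem
    have hL' : (L.map f).comap f = L := Subgroup.comap_map_eq_self hker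
    have hlt : N < L.map f := by
      refine lt_of_le_of_ne ?_ ?_
      · rw [← Subgroup.map_comap_eq_self_of_surjective hf N]
        exact Subgroup.map_mono hL.le
      · intro heq
        apply hL.ne
        rw [heq, hL']
    have htop := hN.2 _ hlt
    rw [← hL', htop, Subgroup.comap_top]

/-! ### Direct products with an abelian group of coprime order -/

theorem mem_left_of_mem {K S : Type*} [Group K] [Group S] [Finite K] [Finite S]
    (hKS : (Nat.card K).Coprime (Nat.card S)) (H : Subgroup (K × S)) (k : K) (s : S)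
    (h : (k, s) ∈ H) : (k, 1) ∈ H := by
  by_cases ha : Nat.card K = 1
  · haveI := (Nat.card_eq_one_iff_unique.mp ha).1
    have : k = 1 := Subsingleton.elim _ _
    rw [this]
    exact H.one_mem
  · have ha1 : 1 < Nat.card K := by
      have := Nat.card_pos (α := K)
      omega
    obtain ⟨m, -, hm⟩ := Nat.exists_mul_mod_eq_one_of_coprime hKS.symm ha1
    have h1 := H.pow_mem h (Nat.card S * m)
    have h2 : (k, s) ^ (Nat.card S * m) = (k, 1) := by
      rw [Prod.pow_mk]
      congr 1
      · rw [← pow_mod_natCard, hm, pow_one]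
      · rw [pow_mul, pow_card_eq_one', one_pow]
    rwa [h2] at h1

theorem NMax.prod {K S : Type*} [Group K] [CommGroup S] [Finite K] [Finite S] (hK : NMax K)
    (hKS : (Nat.card K).Coprime (Nat.card S)) : NMax (K × S) := by
  intro H hH
  have hsplit : ∀ k s, (k, s) ∈ H ↔ (k, (1 : S)) ∈ H ∧ ((1 : K), s) ∈ H := by
    intro k s
    constructor
    · intro h
      have h1 := mem_left_of_mem hKS H k s h
      refine ⟨h1, ?_⟩
      have h2 := H.mul_mem (H.inv_mem h1) h
      simpa using h2
    · rintro ⟨h1, h2⟩
      have h3 := H.mul_mem h1 h2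
      simpa using h3
  have hnorm : Subgroup.normalizer (H : Set (K × S)) =
      (Subgroup.normalizer ((H.comap (MonoidHom.inl K S) : Subgroup K) : Set K)).comap
        (MonoidHom.fst K S) := by
    ext ⟨g, t⟩
    rw [Subgroup.mem_comap, Subgroup.mem_normalizer_iff, Subgroup.mem_normalizer_iff]
    constructor
    · intro h k
      have h1 := h (k, 1)
      simp only [Prod.mk_mul_mk, Prod.inv_mk, mul_one, mul_inv_cancel] at h1
      exact h1
    · intro h ⟨k, s⟩
      have h1 := h k
      simp only [Subgroup.mem_comap, MonoidHom.inl_apply, MonoidHom.coe_fst] at h1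
      simp only [Prod.mk_mul_mk, Prod.inv_mk, MonoidHom.coe_fst]
      rw [mul_comm t s, mul_inv_cancel_right, hsplit k s, hsplit (g * k * g⁻¹) s, h1]
  have hH1 : ¬ (H.comap (MonoidHom.inl K S) : Subgroup K).Normal := by
    intro hn
    apply hH
    rw [← Subgroup.normalizer_eq_top_iff, hnorm, Subgroup.normalizer_eq_top_iff.mpr hn,
      Subgroup.comap_top]
  rw [hnorm]
  exact isCoatom_comap _ Prod.fst_surjective _ (hK _ hH1)


/-! ### `SL(2, 13)` -/

section SL

variable {F : Type*} [Field F] [Fintype F]

theorem mkP_eq_mkP {x y : SL(2, F)} (h : mkP F x = mkP F y) :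
    ∃ z ∈ Subgroup.center SL(2, F), x * z = y :=
  (QuotientGroup.mk'_eq_mk' (Subgroup.center SL(2, F))).mp h

theorem mem_center_of_mkP_eq_one {x : SL(2, F)} (h : mkP F x = 1) :
    x ∈ Subgroup.center SL(2, F) := by
  have h1 : x ∈ (mkP F).ker := MonoidHom.mem_ker.mpr h
  have h2 : (mkP F).ker = Subgroup.center SL(2, F) := QuotientGroup.ker_mk' _
  rwa [h2] at h1

theorem NMax_SL [CharP F 13] (hq : Fintype.card F = 13) : NMax SL(2, F) := by
  classical
  intro H hH
  haveI := simple_PSL2 (F := F) (by rw [hq]; norm_num)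
  haveI : Fact (Nat.Prime 2) := ⟨Nat.prime_two⟩
  have hodd : Odd (Fintype.card F) := by rw [hq]; decide
  have hπ : Function.Surjective (mkP F) := mkP_surjective
  have hcen : ∀ z ∈ Subgroup.center SL(2, F), ∀ x : SL(2, F), z * x = x * z :=
    fun z hz x => (Subgroup.mem_center_iff.mp hz x).symm
  have hHbar : ¬ (H.map (mkP F)).Normal := by
    intro hn
    rcases hn.eq_bot_or_eq_top with hb | ht
    · apply hH
      have hle : H ≤ Subgroup.center SL(2, F) := by
        intro x hx
        have h1 : mkP F x ∈ H.map (mkP F) := Subgroup.mem_map_of_mem _ hx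
        rw [hb, Subgroup.mem_bot] at h1
        exact mem_center_of_mkP_eq_one h1
      constructor
      intro x hx g
      have h1 := hcen x (hle hx) g
      rw [← h1, mul_inv_cancel_right]
      exact hx
    · apply hH
      constructor
      intro x hx g
      have hg : mkP F g ∈ H.map (mkP F) := by rw [ht]; exact Subgroup.mem_top _
      obtain ⟨h, hh, hhg⟩ := hg
      obtain ⟨z, hz, hzg⟩ := mkP_eq_mkP hhg
      rw [← hzg]
      have e : h * z * x * (h * z)⁻¹ = h * x * h⁻¹ := by
        rw [mul_assoc h z x, hcen z hz x]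
        group
      rw [e]
      exact H.mul_mem (H.mul_mem hh hx) (H.inv_mem hh)
  have hcoatom := isCoatom_normalizer hq (H.map (mkP F)) hHbar
  have hfwd : ∀ g : SL(2, F), mkP F g ∈ Subgroup.normalizer
      ((H.map (mkP F) : Subgroup PSL(2, F)) : Set PSL(2, F)) → ∀ h ∈ H, g * h * g⁻¹ ∈ H := by
    intro g hg h hh
    have h1 : mkP F (g * h * g⁻¹) ∈ H.map (mkP F) := by
      rw [map_mul, map_mul, map_inv]
      exact (Subgroup.mem_normalizer_iff.mp hg (mkP F h)).mp (Subgroup.mem_map_of_mem _ hh)
    obtain ⟨h', hh', hh'g⟩ := h1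
    obtain ⟨z, hz, hzg⟩ := mkP_eq_mkP hh'g
    rw [← hzg]
    by_cases hzH : z ∈ H
    · exact H.mul_mem hh' hzH
    · exfalso
      have hz1 : z ≠ 1 := fun h => hzH (h ▸ H.one_mem)
      have hzval : z.1 = -1 := by
        rcases Cfsg.Agent.H64.PSL2Odd.center_cases z hz with h | h
        · exact absurd (Subtype.ext h) hz1
        · exact h
      have hzz : z * z = 1 := by
        apply Subtype.ext
        show z.1 * z.1 = 1
        rw [hzval]
        simp
      have hoddH : ¬ 2 ∣ Nat.card H := by
        intro hd
        obtain ⟨u, hu⟩ := exists_prime_orderOf_dvd_card' (G := H) 2 hd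
        have hu1 : (u : SL(2, F)) ≠ 1 := by
          intro h
          have : u = 1 := Subtype.ext h
          rw [this, orderOf_one] at hu
          omega
        have hu2 : (u : SL(2, F)) * (u : SL(2, F)) = 1 := by
          have h3 : u ^ orderOf u = 1 := pow_orderOf_eq_one u
          rw [hu, pow_two] at h3
          exact congrArg Subtype.val h3
        have hum := Cfsg.Agent.S0268.result hodd (u : SL(2, F)) hu1 hu2
        apply hzH
        have : z = (u : SL(2, F)) := Subtype.ext (by rw [hzval, hum])
        rw [this]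
        exact u.2
      have hm1 : (g * h * g⁻¹) ^ Nat.card H = 1 := by
        have h3 : (⟨h, hh⟩ : H) ^ Nat.card H = 1 := pow_card_eq_one'
        have h4 : h ^ Nat.card H = 1 := by
          have := congrArg Subtype.val h3
          rwa [Subgroup.coe_pow] at this
        rw [conj_pow, h4]
        group
      have hm2 : (h' * z) ^ Nat.card H = z := by
        have hcomm : Commute h' z := (hcen z hz h').symm
        rw [hcomm.mul_pow]
        have h3 : (⟨h', hh'⟩ : H) ^ Nat.card H = 1 := pow_card_eq_one'
        have h4 : h' ^ Nat.card H = 1 := by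
          have := congrArg Subtype.val h3
          rwa [Subgroup.coe_pow] at this
        rw [h4, one_mul]
        obtain ⟨j, hj⟩ : ∃ j, Nat.card H = 2 * j + 1 := ⟨Nat.card H / 2, by omega⟩
        rw [hj, pow_succ, pow_mul, pow_two, hzz, one_pow, one_mul]
      rw [hzg, hm1] at hm2
      exact hz1 hm2.symm
  have hnorm : Subgroup.normalizer (H : Set SL(2, F)) =
      (Subgroup.normalizer ((H.map (mkP F) : Subgroup PSL(2, F)) : Set PSL(2, F))).comap
        (mkP F) := by
    apply le_antisymm
    · intro g hg
      rw [Subgroup.mem_comap]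
      exact Subgroup.le_normalizer_map (mkP F) (Subgroup.mem_map_of_mem _ hg)
    · intro g hg
      rw [Subgroup.mem_comap] at hg
      rw [Subgroup.mem_normalizer_iff]
      intro h
      constructor
      · exact hfwd g hg h
      · intro hh
        have hg' : mkP F g⁻¹ ∈ Subgroup.normalizer
            ((H.map (mkP F) : Subgroup PSL(2, F)) : Set PSL(2, F)) := by
          rw [map_inv]
          exact Subgroup.inv_mem _ hg
        have h5 := hfwd g⁻¹ hg' _ hh
        have e : g⁻¹ * (g * h * g⁻¹) * g⁻¹⁻¹ = h := by group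
        rwa [e] at h5
  rw [hnorm]
  exact isCoatom_comap (mkP F) hπ _ hcoatom

end SL

/-! ### The statement -/

theorem main_4234 {K S : Type*} [Group K] [CommGroup S] [Finite K] [Finite S]
    (hK : Nonempty (K ≃* Matrix.ProjectiveSpecialLinearGroup (Fin 2) (ZMod 13)) ∨
      Nonempty (K ≃* Matrix.SpecialLinearGroup (Fin 2) (ZMod 13)))
    (hKS : (Nat.card K).Coprime (Nat.card S)) (H : Subgroup (K × S)) (hH : ¬ H.Normal) :
    IsCoatom (Subgroup.normalizer (H : Set (K × S))) := by
  haveI : Fact (Nat.Prime 13) := ⟨by norm_num⟩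
  have hq : Fintype.card (ZMod 13) = 13 := ZMod.card 13
  have hKmax : NMax K := by
    rcases hK with ⟨⟨e⟩⟩ | ⟨⟨e⟩⟩
    · exact NMax.of_equiv e (fun H hH => isCoatom_normalizer hq H hH)
    · exact NMax.of_equiv e (NMax_SL hq)
  exact NMax.prod hKmax hKS H hH

end Cfsg.Agent.H64.NM
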