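import Mathlib
import Cfsg.Prelude.Def_DegreeGraph
import Cfsg.Agent.H4.TwoTrans
import Cfsg.Agent.H4.Ito
import Cfsg.Agent.H64.Sixty

set_option autoImplicit false

/-!
# The degree 5 character of `A₅` and groups of order 60 with an irreducible character of degree
divisible by 5
-/

namespace Cfsg.Agent.H64.Sixty

open Subgroup

/-- If there are `p + 1` Sylow `p`-subgroups, each of order `p`, the conjugation action on them is
2-transitive. -/
theorem sylow_two_transitive {G : Type*} [Group G] [Finite G] (p : ℕ) [Fact p.Prime]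
    (hP : ∀ P : Sylow p G, Nat.card (P : Subgroup G) = p)
    (hn : Nat.card (Sylow p G) = p + 1) :
    MulAction.IsMultiplyPretransitive G (Sylow p G) 2 := by
  classical
  have hp := (Fact.out : p.Prime)
  have key : ∀ c b d : Sylow p G, b ≠ c → d ≠ c → ∃ h : G, h • c = c ∧ h • b = d := by
    intro c b d hbc hdc
    have hdvd : (MulAction.orbit (c : Subgroup G) b).ncard ∣ p := by
      have := Subgroup.index_dvd_card (MulAction.stabilizer (c : Subgroup G) b)
      rw [hP c] at this
      rw [← MulAction.index_stabilizer]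
      exact this
    have hne1 : (MulAction.orbit (c : Subgroup G) b).ncard ≠ 1 := by
      intro h1
      obtain ⟨a, ha⟩ := Set.ncard_eq_one.mp h1
      have hb : b ∈ MulAction.fixedPoints (c : Subgroup G) (Sylow p G) := by
        intro h
        have h1 : h • b ∈ MulAction.orbit (c : Subgroup G) b := MulAction.mem_orbit b h
        have h2 : b ∈ MulAction.orbit (c : Subgroup G) b := MulAction.mem_orbit_self b
        rw [ha, Set.mem_singleton_iff] at h1 h2
        rw [h1, h2]
      have hle : (c : Subgroup G) ≤ b := (c.2.sylow_mem_fixedPoints_iff).mp hb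
      apply hbc
      apply Sylow.ext
      exact (Subgroup.eq_of_le_of_card_ge hle (by rw [hP, hP])).symm
    have hO : (MulAction.orbit (c : Subgroup G) b).ncard = p :=
      ((Nat.dvd_prime hp).mp hdvd).resolve_left hne1
    have hc : c ∉ MulAction.orbit (c : Subgroup G) b := by
      rintro ⟨h, hh⟩
      apply hbc
      have h1 : (h : G) • b = c := hh
      have h2 : (h : G)⁻¹ • c = c :=
        Sylow.smul_eq_iff_mem_normalizer.mpr (Subgroup.le_normalizer (inv_mem h.2))
      calc b = (h : G)⁻¹ • ((h : G) • b) := (inv_smul_smul _ _).symm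
        _ = (h : G)⁻¹ • c := by rw [h1]
        _ = c := h2
    have huniv : insert c (MulAction.orbit (c : Subgroup G) b) = Set.univ := by
      rw [Set.eq_univ_iff_ncard, Set.ncard_insert_of_notMem hc, hO, hn]
    have hd : d ∈ insert c (MulAction.orbit (c : Subgroup G) b) := by
      rw [huniv]; exact Set.mem_univ d
    rcases hd with hd | ⟨h, hh⟩
    · exact absurd hd hdc
    · exact ⟨(h : G), Sylow.smul_eq_iff_mem_normalizer.mpr (Subgroup.le_normalizer h.2), hh⟩
  rw [MulAction.is_two_pretransitive_iff]
  intro a b c d hab hcd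
  obtain ⟨g1, hg1⟩ := MulAction.exists_smul_eq G a c
  have hb' : g1 • b ≠ c := by
    intro h
    apply hab
    rw [← hg1] at h
    exact (smul_left_cancel g1 h).symm
  obtain ⟨h, hh1, hh2⟩ := key c (g1 • b) d hb' (Ne.symm hcd)
  exact ⟨h * g1, by rw [mul_smul, hg1, hh1], by rw [mul_smul, hh2]⟩

/-- `A₅` has an irreducible character of degree 5. -/
theorem five_mem_degreePrimes_alternatingGroup :
    5 ∈ Cfsg.degreePrimes (alternatingGroup (Fin 5)) := by
  have hp5 : Fact (Nat.Prime 5) := ⟨by norm_num⟩
  have hsimple : IsSimpleGroup (alternatingGroup (Fin 5)) :=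
    alternatingGroup.isSimpleGroup (by simp)
  have hQ : Nat.card (alternatingGroup (Fin 5)) = 60 := by
    rw [nat_card_alternatingGroup, Nat.card_fin]
    rfl
  have hnc : ¬ IsCyclic (alternatingGroup (Fin 5)) := by
    intro hc
    let _ : CommGroup (alternatingGroup (Fin 5)) := IsCyclic.commGroup
    have := IsSimpleGroup.prime_card (α := alternatingGroup (Fin 5))
    rw [hQ] at this
    exact absurd this (by norm_num)
  have h1 : Nat.card (Sylow 5 (alternatingGroup (Fin 5))) ≠ 1 :=
    Cfsg.Agent.H11.card_sylow_ne_one hnc 5 (by rw [hQ]; norm_num)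
  have h6 := card_sylow_five hQ h1
  have hc5 : ∀ P : Sylow 5 (alternatingGroup (Fin 5)),
      Nat.card (P : Subgroup (alternatingGroup (Fin 5))) = 5 := fun P => by
    have := Cfsg.Agent.H11.sylow_card_of_eq 5 1 12 (by rw [hQ]; norm_num) (by norm_num) P
    simpa using this
  have h2t := sylow_two_transitive 5 hc5 (by rw [h6])
  have hirr := (Cfsg.Agent.H4.isIrrCharacter_perm_sub_one_iff (G := alternatingGroup (Fin 5))
    (Sylow 5 (alternatingGroup (Fin 5))) (by rw [h6]; norm_num)).mpr h2t
  refine ⟨by norm_num, 5, ⟨⟨_, hirr⟩, ?_⟩, dvd_rfl⟩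
  unfold charDegree
  simp only
  rw [MulAction.fixedBy_one_eq_univ, Nat.card_coe_set_eq, Set.ncard_univ, h6]
  norm_num

/-- A group of order 60 with an irreducible character of degree divisible by 5 has more than one
Sylow 5-subgroup. -/
theorem card_sylow_five_ne_one_of_degree {G : Type*} [Group G] [Finite G]
    (hcard : Nat.card G = 60) (h : 5 ∈ Cfsg.degreePrimes G) : Nat.card (Sylow 5 G) ≠ 1 := by
  intro h1
  have hp5 : Fact (Nat.Prime 5) := ⟨by norm_num⟩
  obtain ⟨-, d, ⟨χ, hχ⟩, hd⟩ := h
  obtain ⟨n, ρ, hirr, hρ⟩ := χ.2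
  have hn : d = n := by
    rw [← hχ]; unfold charDegree; rw [← hρ, Representation.char_one]; simp
  have hsub : Subsingleton (Sylow 5 G) := (Nat.card_eq_one_iff_unique.mp h1).1
  obtain ⟨P⟩ : Nonempty (Sylow 5 G) := inferInstance
  have hPn : (P : Subgroup G).Normal := P.normal_of_subsingleton
  have hc5 : Nat.card (P : Subgroup G) = 5 := by
    have := Cfsg.Agent.H11.sylow_card_of_eq 5 1 12 (by rw [hcard]; norm_num) (by norm_num) P
    simpa using this
  have hcyc : IsCyclic (P : Subgroup G) := isCyclic_of_prime_card hc5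
  have hcomm : ∀ a ∈ (P : Subgroup G), ∀ b ∈ (P : Subgroup G), a * b = b * a := by
    intro a ha b hb
    let _ : CommGroup (P : Subgroup G) := IsCyclic.commGroup
    have := mul_comm (⟨a, ha⟩ : (P : Subgroup G)) ⟨b, hb⟩
    exact congrArg Subtype.val this
  have := hirr
  have hito := Cfsg.Agent.H4.ito_dvd_index ρ (P : Subgroup G) hcomm
  rw [Module.finrank_fin_fun] at hito
  have hidx : (P : Subgroup G).index = 12 := by
    have h2 := (P : Subgroup G).card_mul_index
    rw [hc5, hcard] at h2
    omega
  rw [hidx, ← hn] at hito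
  have := hd.trans hito
  omega

end Cfsg.Agent.H64.Sixty
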