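import Mathlib
import Cfsg.Agent.H97.Sp4Defs

set_option autoImplicit false

namespace Cfsg.Agent.H64.Sp4

open Matrix Cfsg.Agent.H97.Sp4

variable {F : Type*} [Field F]

/-- in characteristic two, the companion matrix of `X^2 + X + d` has odd order dividing
`q^2 - 1`. -/
theorem char_two_pow [Fintype F] [CharP F 2] (d : F) (hd : d ≠ 0) :
    Cm 1 d ^ ((Fintype.card F - 1) * (Fintype.card F + 1)) = 1 := by
  have h2 : (2 : F) = 0 := by
    have := CharP.cast_eq_zero F 2
    exact_mod_cast this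
  have hCC : Cm 1 d * Cm 1 d = Cm 1 d + d • (1 : Matrix (Fin 2) (Fin 2) F) := by
    ext i j
    fin_cases i <;> fin_cases j <;>
      simp [Cm, Matrix.mul_apply, Fin.sum_univ_two] <;>
      linear_combination (-d) * h2
  have hcc : ∀ M : Matrix (Fin 2) (Fin 2) F, M + M = 0 := by
    intro M
    rw [← two_smul F M, h2, zero_smul]
  have hCC2 : Cm 1 d * Cm 1 d + Cm 1 d = d • (1 : Matrix (Fin 2) (Fin 2) F) := by
    rw [hCC]
    calc Cm 1 d + d • (1 : Matrix (Fin 2) (Fin 2) F) + Cm 1 d
        = d • (1 : Matrix (Fin 2) (Fin 2) F) + (Cm 1 d + Cm 1 d) := by abel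
      _ = d • (1 : Matrix (Fin 2) (Fin 2) F) := by rw [hcc, add_zero]
  have frob : ∀ k : ℕ, ∃ s : F, Cm 1 d ^ (2 ^ k) = Cm 1 d + s • (1 : Matrix (Fin 2) (Fin 2) F) ∧
      s * s + s = d ^ (2 ^ k) + d := by
    intro k
    induction k with
    | zero =>
      refine ⟨0, by simp, ?_⟩
      rw [pow_zero, pow_one]
      linear_combination (-d) * h2
    | succ k ih =>
      obtain ⟨s, hs, hs2⟩ := ih
      refine ⟨d + s * s, ?_, ?_⟩
      · rw [pow_succ, pow_mul, hs, pow_two]
        have hexp : (Cm 1 d + s • (1 : Matrix (Fin 2) (Fin 2) F)) *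
            (Cm 1 d + s • (1 : Matrix (Fin 2) (Fin 2) F))
            = Cm 1 d * Cm 1 d + (s • Cm 1 d + s • Cm 1 d)
              + (s * s) • (1 : Matrix (Fin 2) (Fin 2) F) := by
          simp only [add_mul, mul_add, smul_mul_assoc, mul_smul_comm, mul_one, one_mul,
            smul_add, smul_smul]
          abel
        rw [hexp, hcc, add_zero, hCC, add_smul, add_assoc]
      · have hpow : d ^ (2 ^ (k + 1)) = d ^ (2 ^ k) * d ^ (2 ^ k) := by
          rw [pow_succ, pow_mul, pow_two]
        rw [hpow]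
        linear_combination (d ^ (2 ^ k) + s * s + s - d) * hs2
          + (2 * d * s * s - s * s * s + d * s) * h2
  obtain ⟨n, -, hn⟩ := FiniteField.card F 2
  obtain ⟨s, hs, hs2⟩ := frob n
  rw [← hn] at hs hs2
  rw [FiniteField.pow_card] at hs2
  have hs01 : s = 0 ∨ s = 1 := by
    have hprod : s * (s + 1) = 0 := by linear_combination hs2 + d * h2
    rcases mul_eq_zero.mp hprod with h | h
    · exact Or.inl h
    · right
      linear_combination h - h2
  have hq : 0 < Fintype.card F := Fintype.card_pos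
  rcases hs01 with rfl | rfl
  · -- `C ^ q = C`
    rw [zero_smul, add_zero] at hs
    have hunit : Cm 1 d * (d⁻¹ • (Cm 1 d + 1)) = 1 := by
      rw [mul_smul_comm, mul_add, mul_one, hCC2, smul_smul, inv_mul_cancel₀ hd, one_smul]
    have hm : Cm 1 d ^ (Fintype.card F - 1) = 1 := by
      have h1 : Cm 1 d ^ (Fintype.card F - 1) * Cm 1 d = Cm 1 d := by
        rw [← pow_succ, Nat.sub_add_cancel hq, hs]
      calc Cm 1 d ^ (Fintype.card F - 1)
          = Cm 1 d ^ (Fintype.card F - 1) * (Cm 1 d * (d⁻¹ • (Cm 1 d + 1))) := by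
            rw [hunit, mul_one]
        _ = (Cm 1 d ^ (Fintype.card F - 1) * Cm 1 d) * (d⁻¹ • (Cm 1 d + 1)) := by
            rw [mul_assoc]
        _ = 1 := by rw [h1, hunit]
    rw [pow_mul, hm, one_pow]
  · -- `C ^ q = C + 1`
    rw [one_smul] at hs
    have hq1 : Cm 1 d ^ (Fintype.card F + 1) = d • (1 : Matrix (Fin 2) (Fin 2) F) := by
      rw [pow_succ, hs, add_mul, one_mul, hCC2]
    rw [mul_comm, pow_mul, hq1, smul_pow, one_pow, FiniteField.pow_card_sub_one_eq_one d hd,
      one_smul]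

theorem exists_params [Fintype F] (p : ℕ) [Fact p.Prime] [CharP F p] (h3 : 3 ≤ Fintype.card F)
    (hA0 : (2 : F) ≠ 0 → ∀ δ : F, δ ≠ 0 → HAlt 0 δ)
    (hE : ∀ ε τ δ : F, ε ≠ 0 → ε ^ 2 ≠ 1 → HT3 τ δ)
    (h3A : Fintype.card F = 3 → HAlt (-1 : F) (-1) ∧ HT3 (-1 : F) (-1)) :
    ∃ (τ δ : F) (n : ℕ), N1 τ δ ∧ ((2 : F) ≠ 0 → HAlt τ δ) ∧ HT3 τ δ ∧ Cm τ δ ^ n = 1 ∧
      ¬ p ∣ n := by
  classical
  have hp : p.Prime := Fact.out
  have hpq : p ∣ Fintype.card F :=
    (CharP.cast_eq_zero_iff F p _).mp (FiniteField.cast_card_eq_zero F)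
  by_cases h2 : (2 : F) = 0
  · -- characteristic two
    have hp2 : p = 2 := by
      have hdvd : p ∣ 2 := (CharP.cast_eq_zero_iff F p 2).mp (by exact_mod_cast h2)
      exact (Nat.prime_dvd_prime_iff_eq hp Nat.prime_two).mp hdvd
    subst hp2
    obtain ⟨d, -, hd⟩ := Finset.exists_mem_notMem_of_card_lt_card
      (s := ({0, 1} : Finset F)) (t := Finset.univ) (by
        have hle : ({0, 1} : Finset F).card ≤ 2 := Finset.card_le_two
        rw [Finset.card_univ]
        omega)
    have hd0 : d ≠ 0 := fun h => hd (by rw [h]; exact Finset.mem_insert_self _ _)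
    have hd1 : d ≠ 1 := fun h =>
      hd (by rw [h]; exact Finset.mem_insert_of_mem (Finset.mem_singleton_self _))
    refine ⟨1, d, (Fintype.card F - 1) * (Fintype.card F + 1), ⟨hd0, ?_⟩,
      fun h => absurd h2 h, ?_, char_two_pow d hd0, ?_⟩
    · have hexp : (d - 1) * ((d + 1) ^ 2 - 1 ^ 2) = (d - 1) * d * d + (d - 1) * d * 2 := by
        ring
      rw [hexp, h2, mul_zero, add_zero]
      exact mul_ne_zero (mul_ne_zero (sub_ne_zero.mpr hd1) hd0) hd0
    · apply hE d 1 d hd0
      intro h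
      have hsq : (d - 1) * (d - 1) = 0 := by linear_combination h + (1 - d) * h2
      rcases mul_eq_zero.mp hsq with h | h <;> exact hd1 (sub_eq_zero.mp h)
    · intro h
      rcases (Nat.Prime.dvd_mul Nat.prime_two).mp h with h | h <;> omega
  · by_cases hq3 : Fintype.card F = 3
    · -- the field with three elements
      have h3F : (3 : F) = 0 := by
        have h := FiniteField.cast_card_eq_zero F
        rw [hq3] at h
        exact_mod_cast h
      obtain ⟨hA, hT⟩ := h3A hq3
      refine ⟨-1, -1, 8, ⟨by simp, ?_⟩, fun _ => hA, hT, ?_, ?_⟩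
      · have hexp : ((-1 : F) - 1) * (((-1 : F) + 1) ^ 2 - (-1 : F) ^ 2) = 2 := by ring
        rw [hexp]
        exact h2
      · have hC2 : Cm (-1 : F) (-1) * Cm (-1 : F) (-1) = !![1, -1; -1, 2] := by
          ext i j
          fin_cases i <;> fin_cases j <;>
            simp [Cm, Matrix.mul_apply, Fin.sum_univ_two] <;> ring
        have hC4 : (!![1, -1; -1, 2] : Matrix (Fin 2) (Fin 2) F) * !![1, -1; -1, 2]
            = (-1 : F) • (1 : Matrix (Fin 2) (Fin 2) F) := by
          ext i j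
          fin_cases i <;> fin_cases j <;>
            simp [Matrix.mul_apply, Fin.sum_univ_two] <;>
            first
              | linear_combination h3F
              | linear_combination -h3F
              | linear_combination 2 * h3F
        have h8 : Cm (-1 : F) (-1) ^ 8 = ((Cm (-1 : F) (-1) * Cm (-1 : F) (-1)) *
            (Cm (-1 : F) (-1) * Cm (-1 : F) (-1))) * ((Cm (-1 : F) (-1) * Cm (-1 : F) (-1)) *
            (Cm (-1 : F) (-1) * Cm (-1 : F) (-1))) := by
          simp only [pow_succ, pow_zero, one_mul, mul_assoc]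
        rw [h8, hC2, hC4]
        simp
      · have hp3 : p ∣ 3 := by
          rw [hq3] at hpq
          exact hpq
        have hp3' : p = 3 := (Nat.prime_dvd_prime_iff_eq hp Nat.prime_three).mp hp3
        rw [hp3']
        norm_num
    · -- odd characteristic, at least four elements
      obtain ⟨δ, -, hδ⟩ := Finset.exists_mem_notMem_of_card_lt_card
        (s := ({0, 1, -1} : Finset F)) (t := Finset.univ) (by
          have hle : ({0, 1, -1} : Finset F).card ≤ 3 := Finset.card_le_three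
          rw [Finset.card_univ]
          omega)
      have hδ0 : δ ≠ 0 := fun h => hδ (by rw [h]; exact Finset.mem_insert_self _ _)
      have hδ1 : δ ≠ 1 := fun h =>
        hδ (by rw [h]; exact Finset.mem_insert_of_mem (Finset.mem_insert_self _ _))
      have hδm : δ ≠ -1 := fun h =>
        hδ (by
          rw [h]
          exact Finset.mem_insert_of_mem (Finset.mem_insert_of_mem (Finset.mem_singleton_self _)))
      have hδm' : δ + 1 ≠ 0 := fun h => hδm (eq_neg_of_add_eq_zero_left h)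
      refine ⟨0, δ, 2 * (Fintype.card F - 1), ⟨hδ0, ?_⟩, fun h => hA0 h δ hδ0, ?_, ?_, ?_⟩
      · have hexp : (δ - 1) * ((δ + 1) ^ 2 - 0 ^ 2) = (δ - 1) * ((δ + 1) * (δ + 1)) := by ring
        rw [hexp]
        exact mul_ne_zero (sub_ne_zero.mpr hδ1) (mul_ne_zero hδm' hδm')
      · apply hE δ 0 δ hδ0
        intro h
        have hprod : (δ - 1) * (δ + 1) = 0 := by linear_combination h
        rcases mul_eq_zero.mp hprod with h | h
        · exact hδ1 (sub_eq_zero.mp h)
        · exact hδm' h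
      · have hCC : Cm 0 δ ^ 2 = (-δ) • (1 : Matrix (Fin 2) (Fin 2) F) := by
          ext i j
          fin_cases i <;> fin_cases j <;>
            simp [Cm, pow_two, Matrix.mul_apply, Fin.sum_univ_two]
        rw [pow_mul, hCC, smul_pow, one_pow,
          FiniteField.pow_card_sub_one_eq_one (-δ) (neg_ne_zero.mpr hδ0), one_smul]
      · intro h
        rcases (Nat.Prime.dvd_mul hp).mp h with h | h
        · have hp2 : p = 2 := (Nat.prime_dvd_prime_iff_eq hp Nat.prime_two).mp h
          apply h2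
          have hc := CharP.cast_eq_zero F p
          rw [hp2] at hc
          exact_mod_cast hc
        · have h1 : p ∣ 1 :=
            (Nat.dvd_add_right h).mp (by rwa [Nat.sub_add_cancel (by omega)])
          exact hp.one_lt.ne' (Nat.dvd_one.mp h1)

example [Fintype F] (p : ℕ) [Fact p.Prime] [CharP F p] (h3 : 3 ≤ Fintype.card F)
    (hA0 : (2 : F) ≠ 0 → ∀ δ : F, δ ≠ 0 → HAlt 0 δ)
    (hE : ∀ ε τ δ : F, ε ≠ 0 → ε ^ 2 ≠ 1 → HT3 τ δ)
    (h3A : Fintype.card F = 3 → HAlt (-1 : F) (-1) ∧ HT3 (-1 : F) (-1)) :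
    ∃ (τ δ : F) (n : ℕ), N1 τ δ ∧ ((2 : F) ≠ 0 → HAlt τ δ) ∧ HT3 τ δ ∧ Cm τ δ ^ n = 1 ∧
      ¬ p ∣ n :=
  exists_params p h3 hA0 hE h3A

end Cfsg.Agent.H64.Sp4
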