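import Cfsg.Agent.H64.TtMain
import Cfsg.Agent.H64.TtDefs2
import Cfsg.Agent.H64.TtGlue2
import Cfsg.Agent.H20.TtIso1
import Cfsg.Agent.H20.TtK2
import Cfsg.Agent.H87.TtRecD12
import Cfsg.Agent.H87.TtRecS4C2
import Cfsg.Agent.H87.TtK3
import Cfsg.Agent.H87.TtK4
import Cfsg.Agent.H62.TtIso3
import Cfsg.Agent.H91.TtIso4

/-!
# S3685 — all pieces collected
-/

set_option autoImplicit false

namespace Cfsg.Agent.H64.Tt

universe u v

theorem glue2T : Glue2Stmt.{u, v} := Cfsg.Agent.H64.TtG2.glue2 xdataT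
theorem iso1T : Iso1Stmt.{u} := Cfsg.Agent.H20.Tt.iso1
theorem k2T : K2Stmt.{u} := Cfsg.Agent.H20.Tt.k2 c1T
theorem recD12T : RecD12Stmt.{u} := Cfsg.Agent.H87.Tt.recD12
theorem recS4C2T : RecS4C2Stmt.{u} := Cfsg.Agent.H87.Tt.recS4C2
theorem k3T : K3Stmt.{u} := Cfsg.Agent.H87.Tt.k3 cardT c1T splitT commT c2T c3T c4T
theorem k4T : K4Stmt.{u} := Cfsg.Agent.H87.Tt.k4 cardT c1T splitT commT c2T c3T c4T
theorem iso3T : Iso3Stmt.{u} := Cfsg.Agent.H62.Tt.iso3 k3T
theorem iso4T : Iso4Stmt.{u} := Cfsg.Agent.H91.Tt.iso4 k4T recS4C2T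

/-- The structure of the point stabiliser of a primitive group with a suborbit of length 3. -/
theorem simsStructure {G : Type u} {Ω : Type v} [Group G] [Finite G] [MulAction G Ω]
    [FaithfulSMul G Ω] (hprim : MulAction.IsPreprimitive G Ω) (a b : Ω)
    (h3 : Nat.card (MulAction.orbit (MulAction.stabilizer G a) b) = 3) :
    Nonempty (MulAction.stabilizer G a ≃* Multiplicative (ZMod 3)) ∨
      Nonempty (MulAction.stabilizer G a ≃* Equiv.Perm (Fin 3)) ∨
      Nonempty (MulAction.stabilizer G a ≃* DihedralGroup 6) ∨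
      Nonempty (MulAction.stabilizer G a ≃* Equiv.Perm (Fin 4)) ∨
      Nonempty (MulAction.stabilizer G a ≃* Equiv.Perm (Fin 4) × Multiplicative (ZMod 2)) :=
  final2 seqT glue2T tutteT iso1T k2T recD12T iso3T iso4T hprim a b h3

end Cfsg.Agent.H64.Tt
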